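/-
Project Pro9 (S3399): fixed points of a pronormal subgroup of a transitive group.  Definitions and parts.
-/
import Cfsg.Statements.S3399
import Cfsg.Agent.Base

set_option autoImplicit false

namespace CL.Pro9

section
variable {G Ω : Type} [Group G] [MulAction G Ω]

/-- the fixed points of `K` -/
def Fx (Ω : Type) [MulAction G Ω] (K : Subgroup G) : Set Ω := {a | ∀ k ∈ K, k • a = a}
/-- pronormal with respect to the elements of `X` -/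
def Pro (X K : Subgroup G) : Prop := ∀ g ∈ X, ∃ w ∈ K ⊔ K.map (MulAut.conj g).toMonoidHom,
  K.map (MulAut.conj w).toMonoidHom = K.map (MulAut.conj g).toMonoidHom
def Tr (X : Subgroup G) (Γ : Set Ω) : Prop := (∀ x ∈ X, ∀ a ∈ Γ, x • a ∈ Γ) ∧ ∀ a ∈ Γ, ∀ b ∈ Γ, ∃ x ∈ X, x • a = b
def Tr2 (X : Subgroup G) (Γ : Set Ω) : Prop :=
  ∀ a ∈ Γ, ∀ b ∈ Γ, ∀ c ∈ Γ, ∀ d ∈ Γ, a ≠ b → c ≠ d → ∃ x ∈ X, x • a = c ∧ x • b = d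
def Mv (K : Subgroup G) (Γ : Set Ω) : Prop := ∃ k ∈ K, ∃ a ∈ Γ, k • a ≠ a
def St (X : Subgroup G) (a : Ω) : Subgroup G := X ⊓ MulAction.stabilizer G a
def orb (X : Subgroup G) (a : Ω) : Set Ω := {b | ∃ x ∈ X, x • a = b}
def G2 (G : Type) [Group G] [MulAction G Ω] (a b : Ω) : Subgroup G := St (St ⊤ a) b
def G3 (G : Type) [Group G] [MulAction G Ω] (a b c : Ω) : Subgroup G := St (G2 G a b) c

theorem mem_St {X : Subgroup G} {a : Ω} {g : G} : g ∈ St X a ↔ g ∈ X ∧ g • a = a := Iff.rfl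
theorem mem_G2 {a b : Ω} {g : G} : g ∈ G2 G a b ↔ g • a = a ∧ g • b = b :=
  ⟨fun h => ⟨h.1.2, h.2⟩, fun h => ⟨⟨trivial, h.1⟩, h.2⟩⟩
theorem mem_G3 {a b c : Ω} {g : G} : g ∈ G3 G a b c ↔ g • a = a ∧ g • b = b ∧ g • c = c :=
  ⟨fun h => ⟨h.1.1.2, h.1.2, h.2⟩, fun h => ⟨⟨⟨trivial, h.1⟩, h.2.1⟩, h.2.2⟩⟩
theorem Pro.mono {X Y K : Subgroup G} (h : Pro X K) (hY : Y ≤ X) : Pro Y K := fun g hg => h g (hY hg)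

/-- an `X`-invariant equivalence relation on `Γ` -/
structure Cong (X : Subgroup G) (Γ : Set Ω) (r : Ω → Ω → Prop) : Prop where
  refl : ∀ a ∈ Γ, r a a
  symm : ∀ a ∈ Γ, ∀ b ∈ Γ, r a b → r b a
  trans : ∀ a ∈ Γ, ∀ b ∈ Γ, ∀ c ∈ Γ, r a b → r b c → r a c
  inv : ∀ x ∈ X, ∀ a ∈ Γ, ∀ b ∈ Γ, r a b → r (x • a) (x • b)

def cls (Γ : Set Ω) (r : Ω → Ω → Prop) (a : Ω) : Set Ω := {b | b ∈ Γ ∧ r a b}
def Prim (X : Subgroup G) (Γ : Set Ω) : Prop := ∀ r : Ω → Ω → Prop, Cong X Γ r →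
  (∀ a ∈ Γ, ∀ b ∈ Γ, r a b → a = b) ∨ ∀ a ∈ Γ, ∀ b ∈ Γ, r a b
def T3 (G Ω : Type) [Group G] [MulAction G Ω] : Prop := ∀ a b c a' b' c' : Ω, [a, b, c].Nodup → [a', b', c'].Nodup →
  ∃ g : G, g • a = a' ∧ g • b = b' ∧ g • c = c'
def T4 (G Ω : Type) [Group G] [MulAction G Ω] : Prop := ∀ a b c d a' b' c' d' : Ω, [a, b, c, d].Nodup →
  [a', b', c', d'].Nodup → ∃ g : G, g • a = a' ∧ g • b = b' ∧ g • c = c' ∧ g • d = d'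
/-- the stabiliser of three points fixes no further point -/
def NoCl (G Ω : Type) [Group G] [MulAction G Ω] : Prop := ∀ a b c d : Ω, [a, b, c, d].Nodup →
  ∃ g : G, g • a = a ∧ g • b = b ∧ g • c = c ∧ g • d ≠ d
/-- the orbit of a 4-tuple -/
def Ro (G : Type) [Group G] [MulAction G Ω] (a b c d x y z w : Ω) : Prop :=
  ∃ g : G, g • a = x ∧ g • b = y ∧ g • c = z ∧ g • d = w
def supp (Ω : Type) [MulAction G Ω] (g : G) : Set Ω := {z | g • z ≠ z}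
noncomputable def jj (P : Set Ω) (g : G) : ℕ := {z | z ∉ P ∧ g⁻¹ • z ∈ P}.ncard
noncomputable def AA (P : Set Ω) (x g : G) : ℕ := {z | z ∉ P ∧ g⁻¹ • z ∈ P ∧ g⁻¹ • x • z ∉ P}.ncard
end

def phi (b j : ℤ) : ℤ := (j - b) * (j - b - 1)
def E1 (f b : ℤ) : ℤ := (f - 2) * (f - 3) * (f * (f - 1) * (f - 2) * f) +
  (2 - 2 * b) * (f - 2) * (f * (f - 1) * f * (2 * f - 3)) + (b * (b + 1) - 2 * b) * (f * f * ((2 * f - 2) * (2 * f - 3)))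
def E2 (f b : ℤ) : ℤ := (f * (f - 1) * (f - 2)) ^ 2 * (2 * f - 3) +
  (1 - 2 * b) * (f * (f - 1)) ^ 2 * ((2 * f - 2) * (2 * f - 3)) +
  b * (b + 1) * (f * f - 2 * f) * ((2 * f - 1) * (2 * f - 2) * (2 * f - 3))

/-- the theorem for all degrees below `n` -/
def IH (n : ℕ) : Prop := ∀ (G Ω : Type) [Group G] [Fintype G] [Finite Ω] [MulAction G Ω] (X K : Subgroup G) (Γ : Set Ω),
  Γ.ncard < n → K ≤ X → Pro X K → Tr X Γ → Mv K Γ → 2 * (Γ ∩ Fx Ω K).ncard + 1 ≤ Γ.ncard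

section
variable {G Ω : Type} [Group G] [MulAction G Ω]

structure Sit (n : ℕ) (X K : Subgroup G) (Γ : Set Ω) : Prop where
  ih : IH n
  le : K ≤ X
  pro : Pro X K
  tr : Tr X Γ
  mv : Mv K Γ
  card : Γ.ncard ≤ n

/-- the minimal counterexample -/
structure CX (Ω : Type) [MulAction G Ω] (K : Subgroup G) (f : ℕ) : Prop where
  ih : IH (2 * f)
  pro : Pro ⊤ K
  mv : Mv K (Set.univ : Set Ω)
  card : Nat.card Ω = 2 * f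
  fix : (Fx Ω K).ncard = f
  t3 : T3 G Ω
  four : 4 ≤ f

/-- an invariant Steiner quadruple system -/
structure SQ (G : Type) [Group G] [MulAction G Ω] (q : Ω → Ω → Ω → Ω) : Prop where
  nd : ∀ a b c, [a, b, c].Nodup → [a, b, c, q a b c].Nodup
  s1 : ∀ a b c, [a, b, c].Nodup → q a b c = q b a c
  s2 : ∀ a b c, [a, b, c].Nodup → q a b c = q a c b
  inv : ∀ a b c, [a, b, c].Nodup → q a b (q a b c) = c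
  eqv : ∀ (g : G) a b c, [a, b, c].Nodup → g • q a b c = q (g • a) (g • b) (g • c)

/-- a symmetric triangle-free relation on 4-tuples -/
structure R0 (ρ : Ω → Ω → Ω → Ω → Prop) : Prop where
  nd : ∀ a b c d, ρ a b c d → [a, b, c, d].Nodup
  s1 : ∀ a b c d, ρ a b c d → ρ b a c d
  s2 : ∀ a b c d, ρ a b c d → ρ a c b d
  s3 : ∀ a b c d, ρ a b c d → ρ a b d c
  tri : ∀ a b c d e, ρ a b c d → ρ a b c e → ¬ ρ a b d e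

/-- two orbits on 4-tuples -/
structure RB (K : Subgroup G) (f : ℕ) (ρ : Ω → Ω → Ω → Ω → Prop) (k l : ℕ) : Prop where
  r0 : R0 ρ
  inv : ∀ (g : G) a b c d, ρ a b c d → ρ (g • a) (g • b) (g • c) (g • d)
  tr : ∀ a b c d x y z w, [a, b, c, d].Nodup → [x, y, z, w].Nodup → ¬ ρ a b c d → ¬ ρ x y z w → Ro G a b c d x y z w
  cnt : ∀ a b c, [a, b, c].Nodup → {d | ρ a b c d}.ncard = 2 * k + 1
  cntF : ∀ a ∈ Fx Ω K, ∀ b ∈ Fx Ω K, ∀ c ∈ Fx Ω K, [a, b, c].Nodup → {d | d ∈ Fx Ω K ∧ ρ a b c d}.ncard = k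
  hf : f = 3 + k + l
  hk : 1 ≤ k

/-- the data of a suborbit of `G_{abc}` of odd length with a transitive complement -/
structure RD (K : Subgroup G) (f : ℕ) (a b c d : Ω) (k l : ℕ) : Prop where
  ha : a ∈ Fx Ω K
  hb : b ∈ Fx Ω K
  hc : c ∈ Fx Ω K
  nd : [a, b, c, d].Nodup
  card : (orb (G3 G a b c) d).ncard = 2 * k + 1
  cardF : (orb (G3 G a b c) d ∩ Fx Ω K).ncard = k
  tr2 : Tr2 (G3 G a b c) (orb (G3 G a b c) d)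
  oth : ∀ e e', [a, b, c, e].Nodup → [a, b, c, e'].Nodup → e ∉ orb (G3 G a b c) d → e' ∉ orb (G3 G a b c) d →
    e' ∈ orb (G3 G a b c) e
  hf : f = 3 + k + l
  hk : 1 ≤ k

/-- the numbers of elements with prescribed images in a 4-transitive group of degree `N` -/
structure C4 (G Ω : Type) [Group G] [MulAction G Ω] (N c : ℕ) : Prop where
  card : Nat.card Ω = N
  four : 4 ≤ N
  pos : 0 < c
  c0 : Nat.card G = N * ((N - 1) * ((N - 2) * ((N - 3) * c)))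
  c1 : ∀ x y : Ω, {g : G | g • x = y}.ncard = (N - 1) * ((N - 2) * ((N - 3) * c))
  c2 : ∀ x x' y y' : Ω, x ≠ x' → y ≠ y' → {g : G | g • x = y ∧ g • x' = y'}.ncard = (N - 2) * ((N - 3) * c)
  c3 : ∀ x₁ x₂ x₃ y₁ y₂ y₃ : Ω, [x₁, x₂, x₃].Nodup → [y₁, y₂, y₃].Nodup →
    {g : G | g • x₁ = y₁ ∧ g • x₂ = y₂ ∧ g • x₃ = y₃}.ncard = (N - 3) * c
  c4 : ∀ x₁ x₂ x₃ x₄ y₁ y₂ y₃ y₄ : Ω, [x₁, x₂, x₃, x₄].Nodup → [y₁, y₂, y₃, y₄].Nodup →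
    {g : G | g • x₁ = y₁ ∧ g • x₂ = y₂ ∧ g • x₃ = y₃ ∧ g • x₄ = y₄}.ncard = c
end

/-! ### Pronormality -/

def FUS : Prop := ∀ (G Ω : Type) [Group G] [Fintype G] [Finite Ω] [MulAction G Ω] (X K : Subgroup G) (g : G),
  Pro X K → g ∈ X → ∃ w : G, (∀ Y : Subgroup G, K ≤ Y → (∀ k ∈ K, g * k * g⁻¹ ∈ Y) → w ∈ Y) ∧
    (∀ k ∈ K, ∃ k' ∈ K, g * k * g⁻¹ = w * k' * w⁻¹) ∧ ∀ z : Ω, w⁻¹ • z ∈ Fx Ω K ↔ g⁻¹ • z ∈ Fx Ω K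
def FUN : Prop := ∀ (G Ω : Type) [Group G] [Fintype G] [Finite Ω] [MulAction G Ω] (K : Subgroup G) (g : G),
  Pro ⊤ K → ∃ n : G, (∀ z : Ω, n • z ∈ Fx Ω K ↔ z ∈ Fx Ω K) ∧ ∀ z ∈ Fx Ω K, g • z ∈ Fx Ω K → n • z = g • z
def FUW : Prop := ∀ (G Ω : Type) [Group G] [Fintype G] [Finite Ω] [MulAction G Ω] (K : Subgroup G) (g h : G),
  Pro ⊤ K → ∃ w : G, (∀ z : Ω, g⁻¹ • z ∈ Fx Ω K → h⁻¹ • z ∈ Fx Ω K → w • z = z) ∧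
    ∀ z : Ω, h⁻¹ • w • z ∈ Fx Ω K ↔ g⁻¹ • z ∈ Fx Ω K
def STB : Prop := ∀ (G Ω : Type) [Group G] [Fintype G] [Finite Ω] [MulAction G Ω] (K : Subgroup G) (g : G),
  Pro ⊤ K → (∀ k ∈ K, ∀ z : Ω, g⁻¹ • z ∈ Fx Ω K → g⁻¹ • k • z ∈ Fx Ω K) → ∀ z : Ω, g⁻¹ • z ∈ Fx Ω K ↔ z ∈ Fx Ω K

/-! ### Blocks and suborbits -/

def BLK : Prop := ∀ (G Ω : Type) [Group G] [Fintype G] [Finite Ω] [MulAction G Ω] (n : ℕ) (X K : Subgroup G) (Γ : Set Ω)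
  (r : Ω → Ω → Prop), Sit n X K Γ → Cong X Γ r → (∃ a ∈ Γ, ∃ b ∈ Γ, a ≠ b ∧ r a b) →
  (∀ a ∈ Γ, 2 * (Γ ∩ Fx Ω K).ncard + (cls Γ r a).ncard ≤ Γ.ncard) ∨
    ((∀ k ∈ K, ∀ c ∈ Γ, r c (k • c)) ∧ ∀ c ∈ Γ, Mv K (cls Γ r c))
def DEF : Prop := ∀ (G Ω : Type) [Group G] [Fintype G] [Finite Ω] [MulAction G Ω] (n : ℕ) (Y K : Subgroup G) (Δ : Set Ω),
  IH n → K ≤ Y → Pro Y K → (∀ y ∈ Y, ∀ a ∈ Δ, y • a ∈ Δ) → Δ.ncard < n → (∀ a ∈ Δ, Mv K (orb Y a)) → Δ.Nonempty →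
  2 * (Δ ∩ Fx Ω K).ncard + 1 ≤ Δ.ncard
def IMP : Prop := ∀ (G Ω : Type) [Group G] [Fintype G] [Finite Ω] [MulAction G Ω] (n : ℕ) (X K : Subgroup G) (Γ : Set Ω)
  (r : Ω → Ω → Prop), Sit n X K Γ → Cong X Γ r → (∃ a ∈ Γ, ∃ b ∈ Γ, a ≠ b ∧ r a b) → (∃ a ∈ Γ, ∃ b ∈ Γ, ¬ r a b) →
  Γ.ncard ≤ 2 * (Γ ∩ Fx Ω K).ncard + 2 → Γ.ncard = 2 * (Γ ∩ Fx Ω K).ncard + 2 ∧
    ((∀ a ∈ Γ, (cls Γ r a).ncard = 2) ∨ ∀ a ∈ Γ, 2 * (cls Γ r a).ncard = Γ.ncard ∧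
      (cls Γ r a).ncard = 2 * (cls Γ r a ∩ Fx Ω K).ncard + 1 ∧ ∃ Y ≤ X, Sit n Y K (cls Γ r a))
def SUB : Prop := ∀ (G Ω : Type) [Group G] [Fintype G] [Finite Ω] [MulAction G Ω] (n : ℕ) (X K : Subgroup G) (Γ : Set Ω)
  (a b : Ω), Sit n X K Γ → Prim X Γ → a ∈ Γ → a ∈ Fx Ω K → b ∈ Γ → b ≠ a → Mv K (orb (St X a) b)
/-- handshake -/
def HS : Prop := ∀ (G Ω : Type) [Group G] [Fintype G] [Finite Ω] [MulAction G Ω] (X : Subgroup G) (Γ : Set Ω) (a : Ω),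
  Tr X Γ → a ∈ Γ → (∀ b ∈ Γ, b ≠ a → Odd (orb (St X a) b).ncard) →
  (∃ x ∈ X, ∃ c ∈ Γ, ∃ d ∈ Γ, c ≠ d ∧ x • c = d ∧ x • d = c) → Even Γ.ncard
def EXT : Prop := ∀ (G Ω : Type) [Group G] [Fintype G] [Finite Ω] [MulAction G Ω] (n : ℕ) (X K : Subgroup G) (Γ : Set Ω),
  Sit n X K Γ → Γ.ncard = 2 * (Γ ∩ Fx Ω K).ncard + 1 → Tr2 X Γ ∧ 3 ≤ Γ.ncard
def TOP : Prop := ∀ (G Ω : Type) [Group G] [Fintype G] [Finite Ω] [MulAction G Ω] (K : Subgroup G),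
  Sit (Nat.card Ω) ⊤ K (Set.univ : Set Ω) → Nat.card Ω ≤ 2 * (Fx Ω K).ncard → CX Ω K (Fx Ω K).ncard
/-- Manning -/
def MAN : Prop := ∀ (G Ω : Type) [Group G] [Fintype G] [Finite Ω] [MulAction G Ω] (X : Subgroup G) (Γ : Set Ω) (a b : Ω),
  Tr X Γ → Prim X Γ → a ∈ Γ → b ∈ Γ → b ≠ a → Tr2 (St X a) (orb (St X a) b) → 3 ≤ (orb (St X a) b).ncard →
  (orb (St X a) b).ncard + 1 < Γ.ncard → ∃ c ∈ Γ, c ≠ a ∧ (orb (St X a) b).ncard < (orb (St X a) c).ncard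

/-! ### Three-transitive, not four-transitive -/

def CL1 : Prop := ∀ (G Ω : Type) [Group G] [Fintype G] [Finite Ω] [MulAction G Ω] (K : Subgroup G) (f : ℕ),
  CX Ω K f → ¬ NoCl G Ω → ∃ q : Ω → Ω → Ω → Ω, SQ G q
def CL2 : Prop := ∀ (G Ω : Type) [Group G] [Fintype G] [Finite Ω] [MulAction G Ω] (K : Subgroup G) (f : ℕ)
  (q : Ω → Ω → Ω → Ω), CX Ω K f → SQ G q → ∀ g : G, jj (Fx Ω K) g = 0 ∨ 2 * jj (Fx Ω K) g = f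
def CL3 : Prop := ∀ (G Ω : Type) [Group G] [Fintype G] [Finite Ω] [MulAction G Ω] (K : Subgroup G) (f : ℕ),
  CX Ω K f → ∃ g : G, f < 2 * jj (Fx Ω K) g
def SYM : Prop := ∀ (G Ω : Type) [Group G] [Fintype G] [Finite Ω] [MulAction G Ω] (a b c d : Ω), T3 G Ω →
  [a, b, c, d].Nodup → (∀ e, [a, b, c, e].Nodup → (orb (G3 G a b c) e).ncard = (orb (G3 G a b c) d).ncard →
    e ∈ orb (G3 G a b c) d) → ∀ x y z w, Ro G a b c d x y z w →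
  Ro G a b c d y x z w ∧ Ro G a b c d x z y w ∧ Ro G a b c d x y w z
def TWO : Prop := ∀ (G Ω : Type) [Group G] [Fintype G] [Finite Ω] [MulAction G Ω] (f : ℕ) (a b : Ω) (r : Ω → Ω → Prop),
  T3 G Ω → NoCl G Ω → Nat.card Ω = 2 * f → 4 ≤ f → a ≠ b → Cong (G2 G a b) ({a, b}ᶜ : Set Ω) r →
  (∀ c ∈ ({a, b}ᶜ : Set Ω), (cls ({a, b}ᶜ : Set Ω) r c).ncard + 1 = f ∧
    ∃ Y ≤ G2 G a b, Tr2 Y (cls ({a, b}ᶜ : Set Ω) r c)) → False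
def P3 : Prop := ∀ (G Ω : Type) [Group G] [Fintype G] [Finite Ω] [MulAction G Ω] (K : Subgroup G) (f : ℕ) (a b : Ω),
  CX Ω K f → NoCl G Ω → a ∈ Fx Ω K → b ∈ Fx Ω K → a ≠ b →
  Sit (2 * f) (G2 G a b) K ({a, b}ᶜ : Set Ω) ∧ Prim (G2 G a b) ({a, b}ᶜ : Set Ω)
def RK1 : Prop := ∀ (G Ω : Type) [Group G] [Fintype G] [Finite Ω] [MulAction G Ω] (K : Subgroup G) (f : ℕ) (a b c : Ω),
  CX Ω K f → a ∈ Fx Ω K → b ∈ Fx Ω K → c ∈ Fx Ω K → [a, b, c].Nodup → Sit (2 * f) (G2 G a b) K ({a, b}ᶜ : Set Ω) →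
  Prim (G2 G a b) ({a, b}ᶜ : Set Ω) → T4 G Ω ∨ ∃ d k l, RD K f a b c d k l
def RK2 : Prop := ∀ (G Ω : Type) [Group G] [Fintype G] [Finite Ω] [MulAction G Ω] (K : Subgroup G) (f : ℕ) (a b c d : Ω)
  (k l : ℕ), CX Ω K f → Prim (G2 G a b) ({a, b}ᶜ : Set Ω) → RD K f a b c d k l → R0 (Ro G a b c d)
def RK3 : Prop := ∀ (G Ω : Type) [Group G] [Fintype G] [Finite Ω] [MulAction G Ω] (K : Subgroup G) (f : ℕ) (a b c d : Ω)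
  (k l : ℕ), CX Ω K f → RD K f a b c d k l → R0 (Ro G a b c d) → RB K f (Ro G a b c d) k l
/-- paths of length two -/
def PTH : Prop := ∀ (Ω : Type) [Finite Ω] (ρ : Ω → Ω → Ω → Ω → Prop) (Z : Set Ω) (a b c : Ω) (k l μ : ℕ), R0 ρ →
  [a, b, c].Nodup → c ∈ Z → (∀ z ∈ Z, [a, b, z].Nodup → {w | w ∈ Z ∧ ρ a b z w}.ncard = k) →
  {e | e ∈ Z ∧ [a, b, c, e].Nodup ∧ ¬ ρ a b c e}.ncard = l →
  (∀ e ∈ Z, [a, b, c, e].Nodup → ¬ ρ a b c e → {d | d ∈ Z ∧ ρ a b c d ∧ ρ a b e d}.ncard = μ) → l * μ = k * (k - 1)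
def MU : Prop := ∀ (G Ω : Type) [Group G] [Fintype G] [Finite Ω] [MulAction G Ω] (K : Subgroup G) (f : ℕ)
  (ρ : Ω → Ω → Ω → Ω → Prop) (k l : ℕ), Nat.card Ω = 2 * f → RB K f ρ k l → ∃ μ : ℕ,
    (∀ a b c e, [a, b, c, e].Nodup → ¬ ρ a b c e → {d | ρ a b c d ∧ ρ a b e d}.ncard = μ) ∧
    (2 * l + 2) * μ = (2 * k + 1) * (2 * k) ∧ 3 * μ ≤ 2 * k + 1
def RBF : Prop := ∀ (G Ω : Type) [Group G] [Fintype G] [Finite Ω] [MulAction G Ω] (K : Subgroup G) (f : ℕ)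
  (ρ : Ω → Ω → Ω → Ω → Prop) (k l : ℕ), CX Ω K f → RB K f ρ k l → False

/-! ### Four-transitive -/

def ALT1 : Prop := ∀ (G Ω : Type) [Group G] [Fintype G] [Fintype Ω] [DecidableEq Ω] [MulAction G Ω] (K : Subgroup G) (f : ℕ),
  CX Ω K f → ¬ alternatingGroup Ω ≤ (MulAction.toPermHom G Ω).range
def ALT2 : Prop := ∀ (G Ω : Type) [Group G] [Fintype G] [Finite Ω] [MulAction G Ω] (K : Subgroup G) (f : ℕ),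
  CX Ω K f → T4 G Ω → f = 6 ∨ 9 ≤ f
def ALT3 : Prop := ∀ (G Ω : Type) [Group G] [Fintype G] [Finite Ω] [MulAction G Ω] [FaithfulSMul G Ω] (K : Subgroup G)
  (f : ℕ), CX Ω K f → T4 G Ω → ∀ w : G, w ≠ 1 → 5 ≤ (supp Ω w).ncard
def CNT : Prop := ∀ (G Ω : Type) [Group G] [Fintype G] [Finite Ω] [MulAction G Ω], T4 G Ω → 4 ≤ Nat.card Ω →
  ∃ c, C4 G Ω (Nat.card Ω) c
def SUP : Prop := ∀ (G Ω : Type) [Group G] [Fintype G] [Finite Ω] [MulAction G Ω] (u v : G) (Γ Δ : Set Ω),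
  supp Ω u ⊆ Γ → supp Ω v ⊆ Δ → (supp Ω ((v * u)⁻¹ * (u * v))).ncard ≤
    (Γ ∩ Δ).ncard + {z | z ∈ Γ ∧ z ∉ Δ ∧ u • z ∈ Δ}.ncard + {z | z ∈ Δ ∧ z ∉ Γ ∧ v • z ∈ Γ}.ncard
def PAIR : Prop := ∀ (G Ω : Type) [Group G] [Fintype G] [Finite Ω] [MulAction G Ω] (N c : ℕ) (δ γ α β : Ω) (P P' : Set Ω),
  C4 G Ω N c → α ≠ β →
  (∀ x, [δ, γ, x].Nodup → {g : G | g • δ = α ∧ g • γ = β ∧ g • x ∈ P}.ncard ≤ (P \ {α, β}).ncard * ((N - 3) * c)) ∧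
  ∀ x x', [δ, γ, x, x'].Nodup → {g : G | g • δ = α ∧ g • γ = β ∧ g • x ∈ P ∧ g • x' ∈ P'}.ncard ≤
    (P \ {α, β}).ncard * ((P' \ {α, β}).ncard * c)
open Classical in
def BO1 : Prop := ∀ (G Ω : Type) [Group G] [Fintype G] [Finite Ω] [MulAction G Ω] (N c m : ℕ) (u : G) (δ γ α : Ω),
  C4 G Ω N c → (supp Ω u).ncard = m → α ∈ supp Ω u → γ ∈ supp Ω u → δ ∉ supp Ω u →
  (∑ g : G, if g • δ = α ∧ g • γ = u • α then {z | z ∈ supp Ω u ∧ g⁻¹ • z ∈ supp Ω u}.ncard else 0) ≤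
    (N - 2) * ((N - 3) * c) + (m - 2) * ((m - 1) * ((N - 3) * c))
open Classical in
def BO2 : Prop := ∀ (G Ω : Type) [Group G] [Fintype G] [Finite Ω] [MulAction G Ω] (N c m : ℕ) (u : G) (δ γ α : Ω),
  C4 G Ω N c → (supp Ω u).ncard = m → α ∈ supp Ω u → γ ∈ supp Ω u → δ ∉ supp Ω u →
  (∑ g : G, if g • δ = α ∧ g • γ = u • α then
    {z | z ∈ supp Ω u ∧ g⁻¹ • z ∉ supp Ω u ∧ g⁻¹ • u • z ∈ supp Ω u}.ncard else 0) ≤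
    (N - 2) * ((N - 3) * c) + (m - 2) * ((N - m - 1) * ((m - 1) * c))
open Classical in
def BO3 : Prop := ∀ (G Ω : Type) [Group G] [Fintype G] [Finite Ω] [MulAction G Ω] (N c m : ℕ) (u : G) (δ γ α : Ω),
  C4 G Ω N c → (supp Ω u).ncard = m → α ∈ supp Ω u → γ ∈ supp Ω u → δ ∉ supp Ω u →
  (∑ g : G, if g • δ = α ∧ g • γ = u • α then
    {x | x ∈ supp Ω u ∧ g • x ∉ supp Ω u ∧ g • u • x ∈ supp Ω u}.ncard else 0) ≤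
    (N - m) * ((N - 3) * c) + (m - 2) * ((N - m) * ((m - 2) * c))
def NB : Prop := ∀ f m : ℤ, (f = 6 ∨ 9 ≤ f) → 5 ≤ m → m + 2 ≤ f →
  (m - 2) * (m - 1) * (2 * f - 3) + (m - 2) * (2 * f - m - 1) * (m - 1) + (2 * f - m) * (2 * f - 3) +
    (m - 2) * (2 * f - m) * (m - 2) < (m - 2) * ((2 * f - 2) * (2 * f - 3))
def NM : Prop := ∀ f b : ℤ, 6 ≤ f → (f = 2 * b + 2 ∨ f = 2 * b + 3) → 2 * f * E1 f b < E2 f b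
/-- Bochert -/
def BOC : Prop := ∀ (G Ω : Type) [Group G] [Fintype G] [Finite Ω] [MulAction G Ω] [FaithfulSMul G Ω] (f c : ℕ),
  C4 G Ω (2 * f) c → (f = 6 ∨ 9 ≤ f) → (∀ w : G, w ≠ 1 → 5 ≤ (supp Ω w).ncard) →
  ∀ w : G, w ≠ 1 → f ≤ (supp Ω w).ncard + 1
def S2a : Prop := ∀ (G Ω : Type) [Group G] [Fintype G] [Finite Ω] [MulAction G Ω] (K : Subgroup G) (f : ℕ) (g : G),
  CX Ω K f → jj (Fx Ω K) g = 1 → ∃ (n : G) (a a' : Ω), a ∈ Fx Ω K ∧ a' ∈ Fx Ω K ∧ a ≠ a' ∧ n • a = a' ∧ n • a' = a ∧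
    ∀ z ∈ Fx Ω K, z ≠ a → z ≠ a' → n • z = z
def S2b : Prop := ∀ (G Ω : Type) [Group G] [Fintype G] [Finite Ω] [MulAction G Ω] [FaithfulSMul G Ω] (K : Subgroup G)
  (f : ℕ), CX Ω K f → (∀ w : G, w ≠ 1 → 5 ≤ (supp Ω w).ncard) →
  (∀ a ∈ Fx Ω K, ∀ a' ∈ Fx Ω K, a ≠ a' → ∃ n : G, n • a = a' ∧ n • a' = a ∧ ∀ z ∈ Fx Ω K, z ≠ a → z ≠ a' → n • z = z) → False
def S2 : Prop := ∀ (G Ω : Type) [Group G] [Fintype G] [Finite Ω] [MulAction G Ω] [FaithfulSMul G Ω] (K : Subgroup G)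
  (f : ℕ), CX Ω K f → (∀ w : G, w ≠ 1 → 5 ≤ (supp Ω w).ncard) → ∀ g : G, jj (Fx Ω K) g ≠ 1
/-- a pair of elements of `K` and `g K g⁻¹` -/
def TP : Prop := ∀ (G Ω : Type) [Group G] [Fintype G] [Finite Ω] [MulAction G Ω] [FaithfulSMul G Ω] (K : Subgroup G)
  (f : ℕ), CX Ω K f → (∀ w : G, w ≠ 1 → f ≤ (supp Ω w).ncard + 1) → (∀ g : G, jj (Fx Ω K) g ≠ 1) →
  ∀ g : G, ∀ x ∈ K, ∀ y ∈ K, x ≠ 1 → y ≠ 1 →
    jj (Fx Ω K) g ≤ AA (Fx Ω K) x g + AA (Fx Ω K) y g⁻¹ + 1 ∨ (AA (Fx Ω K) x g = 0 ∧ AA (Fx Ω K) y g⁻¹ = 0)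
open Classical in
def TT : Prop := ∀ (G Ω : Type) [Group G] [Fintype G] [Finite Ω] [MulAction G Ω] (K : Subgroup G)
  (f : ℕ) (g : G), CX Ω K f → (∀ x ∈ K, ∀ y ∈ K, x ≠ 1 → y ≠ 1 →
    jj (Fx Ω K) g ≤ AA (Fx Ω K) x g + AA (Fx Ω K) y g⁻¹ + 1 ∨ (AA (Fx Ω K) x g = 0 ∧ AA (Fx Ω K) y g⁻¹ = 0)) →
  (Nat.card K - 1) * jj (Fx Ω K) g ≤ (∑ x : G, if x ∈ K then AA (Fx Ω K) x g else 0) +
    (∑ y : G, if y ∈ K then AA (Fx Ω K) y g⁻¹ else 0) + (Nat.card K - 1)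
def INa : Prop := ∀ (G Ω : Type) [Group G] [Fintype G] [Finite Ω] [MulAction G Ω] (N c p : ℕ) (P : Set Ω),
  C4 G Ω N c → P.ncard = p →
  (∀ z : Ω, {g : G | g⁻¹ • z ∈ P}.ncard = p * ((N - 1) * ((N - 2) * ((N - 3) * c)))) ∧
  (∀ z₁ z₂ : Ω, z₁ ≠ z₂ → {g : G | g⁻¹ • z₁ ∈ P ∧ g⁻¹ • z₂ ∈ P}.ncard = p * (p - 1) * ((N - 2) * ((N - 3) * c))) ∧
  ∀ z₁ z₂ z₃ : Ω, [z₁, z₂, z₃].Nodup →
    {g : G | g⁻¹ • z₁ ∈ P ∧ g⁻¹ • z₂ ∈ P ∧ g⁻¹ • z₃ ∈ P}.ncard = p * (p - 1) * (p - 2) * ((N - 3) * c)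
def INb : Prop := ∀ (G Ω : Type) [Group G] [Fintype G] [Finite Ω] [MulAction G Ω] (N c p : ℕ) (P : Set Ω),
  C4 G Ω N c → P.ncard = p →
  (∀ z z' : Ω, z ≠ z' → {g : G | g⁻¹ • z ∈ P ∧ g⁻¹ • z' ∉ P}.ncard = p * (N - p) * ((N - 2) * ((N - 3) * c))) ∧
  (∀ z z' z₁ : Ω, [z, z', z₁].Nodup →
    {g : G | g⁻¹ • z ∈ P ∧ g⁻¹ • z' ∉ P ∧ g⁻¹ • z₁ ∈ P}.ncard = p * (p - 1) * (N - p) * ((N - 3) * c)) ∧
  ∀ z z' z₁ z₂ : Ω, [z, z', z₁, z₂].Nodup →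
    {g : G | g⁻¹ • z ∈ P ∧ g⁻¹ • z' ∉ P ∧ g⁻¹ • z₁ ∈ P ∧ g⁻¹ • z₂ ∈ P}.ncard = p * (p - 1) * (p - 2) * (N - p) * c
open Classical in
def MO1 : Prop := ∀ (G Ω : Type) [Group G] [Fintype G] [Finite Ω] [MulAction G Ω] (f c : ℕ) (b : ℤ) (P : Set Ω) (z z' : Ω),
  C4 G Ω (2 * f) c → P.ncard = f → 4 ≤ f → z ∉ P → z' ∉ P → z ≠ z' →
  (∑ g : G, if g⁻¹ • z ∈ P ∧ g⁻¹ • z' ∉ P then phi b (jj P g) else 0) = c * E1 f b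
def MO2 : Prop := ∀ (G Ω : Type) [Group G] [Fintype G] [Finite Ω] [MulAction G Ω] (f c : ℕ) (b : ℤ) (P : Set Ω),
  C4 G Ω (2 * f) c → P.ncard = f → 4 ≤ f → (∑ g : G, phi b (jj P g) * ((jj P g : ℤ) - 1)) = c * E2 f b
def MO3 : Prop := ∀ (G Ω : Type) [Group G] [Fintype G] [Finite Ω] [MulAction G Ω] (K : Subgroup G) (f c : ℕ) (b : ℤ),
  CX Ω K f → C4 G Ω (2 * f) c → ∀ x ∈ K,
    (∑ g : G, phi b (jj (Fx Ω K) g) * (AA (Fx Ω K) x g : ℤ)) ≤ f * (c * E1 f b) ∧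
    (∑ g : G, phi b (jj (Fx Ω K) g) * (AA (Fx Ω K) x g⁻¹ : ℤ)) ≤ f * (c * E1 f b)
open Classical in
def FIN4 : Prop := ∀ (G Ω : Type) [Group G] [Fintype G] [Finite Ω] [MulAction G Ω] (K : Subgroup G) (f c : ℕ),
  CX Ω K f → C4 G Ω (2 * f) c → 6 ≤ f →
  (∀ g : G, (Nat.card K - 1) * jj (Fx Ω K) g ≤ (∑ x : G, if x ∈ K then AA (Fx Ω K) x g else 0) +
    (∑ y : G, if y ∈ K then AA (Fx Ω K) y g⁻¹ else 0) + (Nat.card K - 1)) → False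

/-! ### Reduction to faithful actions -/

def RED : Prop := ∀ n : ℕ, IH n →
  (∀ (G Ω : Type) [Group G] [Fintype G] [Finite Ω] [MulAction G Ω] [FaithfulSMul G Ω] (K : Subgroup G),
    Nat.card Ω = n → Sit n ⊤ K (Set.univ : Set Ω) → 2 * (Fx Ω K).ncard + 1 ≤ n) → IH (n + 1)

end CL.Pro9
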