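/-
Project Pro9 (S3399): the minimal counterexample does not contain the alternating group; small degrees.
-/
import Cfsg.Agent.Pro9.Defs
import Cfsg.Agent.S4220

set_option autoImplicit false

namespace CL.Pro9

namespace alt1x

theorem exists_even {Ω : Type} [Fintype Ω] [DecidableEq Ω] (F : Set Ω) (f : ℕ) (hF : F.ncard = f)
    (hc : Nat.card Ω = 2 * f) (h2 : 2 ≤ f) :
    ∃ σ ∈ alternatingGroup Ω, ∀ z, σ z ∈ F ↔ z ∉ F := by
  classical
  have h1 : (Fᶜ).ncard = f := by
    have := Set.ncard_add_ncard_compl F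
    omega
  have h3 : Nat.card {x // x ∈ F} = Nat.card {x // x ∉ F} := by
    have e1 : Nat.card {x // x ∈ F} = F.ncard := Nat.card_coe_set_eq F
    have e2 : Nat.card {x // x ∉ F} = (Fᶜ).ncard := Nat.card_coe_set_eq Fᶜ
    omega
  obtain ⟨e⟩ := Finite.card_eq.mp h3
  have hσ : ∀ z, e.extendSubtype z ∈ F ↔ z ∉ F := by
    intro z
    constructor
    · intro h hz
      exact e.extendSubtype_mem z hz h
    · intro hz
      by_contra h
      exact e.extendSubtype_not_mem z hz h
  rcases Int.units_eq_one_or (Equiv.Perm.sign e.extendSubtype) with hs | hs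
  · exact ⟨_, Equiv.Perm.mem_alternatingGroup.mpr hs, hσ⟩
  · obtain ⟨a, ha, b, hb, hab⟩ := (Set.one_lt_ncard (s := F)).mp (by omega)
    refine ⟨e.extendSubtype * Equiv.swap a b, ?_, ?_⟩
    · rw [Equiv.Perm.mem_alternatingGroup, map_mul, hs, Equiv.Perm.sign_swap hab]
      simp
    · intro z
      rw [Equiv.Perm.mul_apply, hσ]
      by_cases hza : z = a
      · subst hza
        simp [ha, hb]
      · by_cases hzb : z = b
        · subst hzb
          simp [ha, hb]
        · rw [Equiv.swap_apply_of_ne_of_ne hza hzb]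

theorem nodup4 {Ω : Type} (x : Fin 4 ↪ Ω) : [x 0, x 1, x 2, x 3].Nodup := by
  simp [x.injective.eq_iff]

end alt1x

theorem alt1 (h : STB) : ALT1 := by
  intro G Ω _ _ _ _ _ K f cx hle
  obtain ⟨σ, hσ, hF⟩ := alt1x.exists_even (Fx Ω K) f cx.fix cx.card (by have := cx.four; omega)
  obtain ⟨g, hg⟩ := hle hσ
  have hg' : ∀ z, g • z ∈ Fx Ω K ↔ z ∉ Fx Ω K := by
    intro z
    rw [← hF z, ← hg]
    rfl
  have key := h G Ω K g⁻¹ cx.pro (by
    intro k hk z hz
    rw [inv_inv, hg'] at hz ⊢
    intro hkz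
    apply hz
    have e : k • z = z := by
      have := hkz k hk
      exact smul_left_cancel k this
    rwa [e] at hkz)
  obtain ⟨a, ha⟩ : (Fx Ω K).Nonempty := by
    apply Set.nonempty_of_ncard_ne_zero
    have := cx.four
    have := cx.fix
    omega
  have := (key a).mpr ha
  rw [inv_inv, hg'] at this
  exact this ha

theorem alt2 (h : ALT1) : ALT2 := by
  intro G Ω _ _ _ _ K f cx t4
  classical
  letI : Fintype Ω := Fintype.ofFinite Ω
  by_contra hne
  have h4 := cx.four
  have hm : MulAction.IsMultiplyPretransitive (MulAction.toPermHom G Ω).range Ω (3 + 1) := by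
    rw [MulAction.isMultiplyPretransitive_iff]
    intro x y
    obtain ⟨g, h0, h1, h2, h3⟩ := t4 _ _ _ _ _ _ _ _ (alt1x.nodup4 x) (alt1x.nodup4 y)
    refine ⟨⟨MulAction.toPermHom G Ω g, g, rfl⟩, ?_⟩
    ext i
    fin_cases i
    · exact h0
    · exact h1
    · exact h2
    · exact h3
  have hcard : Fintype.card Ω = 2 * f := by rw [← Nat.card_eq_fintype_card, cx.card]
  have main : ∀ p : ℕ, p.Prime → 2 * f = p + 3 → False := by
    intro p hp hpf
    refine h G Ω K f cx (Cfsg.Agent.S4220.result (k := 1) (p := p) (r := 3) _ hp ?_ le_rfl hp.one_lt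
      (by norm_num) (by norm_num) hm)
    omega
  have : f = 4 ∨ f = 5 ∨ f = 7 ∨ f = 8 := by omega
  rcases this with rfl | rfl | rfl | rfl
  · exact main 5 (by norm_num) rfl
  · exact main 7 (by norm_num) rfl
  · exact main 11 (by norm_num) rfl
  · exact main 13 (by norm_num) rfl

end CL.Pro9
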