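/-
Project Pro9 (S3399): no element of small support in the four-transitive case.
-/
import Cfsg.Agent.Pro9.Defs

set_option autoImplicit false

namespace CL.Pro9

open Equiv Equiv.Perm

namespace alt3x

variable {G Ω : Type} [Group G] [MulAction G Ω]

/-- an element acting as the three-cycle `e ↦ d ↦ c ↦ e` -/
theorem three {w g : G} {d e : Ω} (hd : w • d ≠ d) (he : w • e = e) (hg : g • d = e)
    (hf : ∀ z, w • z ≠ z → z ≠ d → g • z = z) :
    ∃ (u : G) (c : Ω), [e, d, c].Nodup ∧ u • e = d ∧ u • d = c ∧ ∀ z, z ≠ e → z ≠ d → z ≠ c → u • z = z := by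
  have de : d ≠ e := fun k => hd (by rw [k, he])
  have out : ∀ z, z ≠ e → (w • z = z ∨ z = d) → w • g⁻¹ • z = g⁻¹ • z := fun z ze hz => by
    by_contra k
    have k1 : g⁻¹ • z ≠ d := fun k1 => ze (by rw [← hg, ← k1, smul_inv_smul])
    have k2 := hf _ k k1
    rw [smul_inv_smul] at k2
    rw [← k2] at k k1
    exact hz.elim k k1
  have wd : w • w • d ≠ w • d := fun k => hd (smul_left_cancel w k)
  refine ⟨w⁻¹ * (g * w * g⁻¹), w⁻¹ • d, ?_, ?_, ?_, fun z ze zd zc => ?_⟩
  · have h1 : e ≠ w⁻¹ • d := fun k => de (by rw [← he, k, smul_inv_smul])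
    have h2 : d ≠ w⁻¹ • d := fun k => hd (by conv_lhs => rw [k, smul_inv_smul])
    simp [de.symm, h1, h2]
  · simp only [mul_smul]
    rw [← hg, inv_smul_smul, hf _ wd hd, inv_smul_smul]
  · simp only [mul_smul]
    rw [out d de (.inr rfl), smul_inv_smul]
  · simp only [mul_smul]
    by_cases k : w • z = z
    · rw [out z ze (.inl k), smul_inv_smul, inv_smul_eq_iff, k]
    · have k1 : g⁻¹ • z = z := by rw [inv_smul_eq_iff, hf z k zd]
      rw [k1, hf _ (fun k2 => k (smul_left_cancel w k2)) (fun k2 => zc (by rw [← k2, inv_smul_smul])), inv_smul_smul]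

end alt3x

open alt3x

theorem alt3 (h : ALT1) : ALT3 := by
  intro G Ω _ _ _ _ _ K f cx t4 w hw
  classical
  have := Fintype.ofFinite Ω
  by_contra hc
  have hΩ : Fintype.card Ω = 2 * f := by rw [← Nat.card_eq_fintype_card, cx.card]
  have h4 := cx.four
  let S : Finset Ω := Finset.univ.filter fun z => w • z ≠ z
  have mS : ∀ z, z ∈ S ↔ w • z ≠ z := fun z => by simp [S]
  have cS : S.card ≤ 4 := by
    have : supp Ω w = (S : Set Ω) := Set.ext fun z => (mS z).symm
    rw [this, Set.ncard_coe_finset] at hc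
    omega
  obtain ⟨d, hd⟩ : ∃ d : Ω, w • d ≠ d := by
    by_contra k
    push Not at k
    exact hw (FaithfulSMul.eq_of_smul_eq_smul (α := Ω) fun a => by rw [k, one_smul])
  obtain ⟨e, he⟩ : ∃ e : Ω, e ∉ S := by
    by_contra k
    push Not at k
    have := Finset.card_le_card (fun z _ => k z : Finset.univ ⊆ S)
    rw [Finset.card_univ] at this
    omega
  have he' : w • e = e := not_not.1 fun k => he ((mS e).2 k)
  have de : d ≠ e := fun k => hd (by rw [k, he'])
  obtain ⟨T, T1, T2, T3⟩ := Finset.exists_subsuperset_card_eq (s := S.erase d) (t := (Finset.univ.erase d).erase e)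
    (n := 3) (fun z hz => by
      rw [Finset.mem_erase] at hz
      simp only [Finset.mem_erase, Finset.mem_univ, and_true]
      exact ⟨fun k => he (k ▸ hz.2), hz.1⟩)
    (by rw [Finset.card_erase_of_mem ((mS d).2 hd)]; omega)
    (by rw [Finset.card_erase_of_mem (by simp [de.symm]), Finset.card_erase_of_mem (Finset.mem_univ _),
      Finset.card_univ]; omega)
  obtain ⟨a, b, c, ab, ac, bc, rfl⟩ := Finset.card_eq_three.1 T3
  have m : ∀ z ∈ ({a, b, c} : Finset Ω), z ≠ e ∧ z ≠ d := fun z hz => by simpa using T2 hz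
  have ma := m a (by simp)
  have mb := m b (by simp)
  have mc := m c (by simp)
  obtain ⟨g, g1, g2, g3, g4⟩ := t4 a b c d a b c e (by simp [ab, ac, bc, ma.2, mb.2, mc.2])
    (by simp [ab, ac, bc, ma.1, mb.1, mc.1])
  obtain ⟨u, x, nd, u1, u2, u3⟩ := three hd he' g4 fun z hz zd => by
    have := T1 (Finset.mem_erase.2 ⟨zd, (mS z).2 hz⟩)
    simp only [Finset.mem_insert, Finset.mem_singleton] at this
    rcases this with rfl | rfl | rfl <;> assumption
  have nd' := nd
  simp only [List.nodup_cons, List.mem_cons, List.not_mem_nil, or_false, not_or, List.nodup_nil, and_true,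
    not_false_eq_true] at nd'
  obtain ⟨⟨n1, n2⟩, n3⟩ := nd'
  let σ : Perm Ω := MulAction.toPermHom G Ω u
  have sσ : σ.support = {e, d, x} := Finset.ext fun z => by
    rw [mem_support, Finset.mem_insert, Finset.mem_insert, Finset.mem_singleton]
    change u • z ≠ z ↔ _
    refine ⟨fun k => by_contra fun k' => ?_, ?_⟩
    · push Not at k'; exact k (u3 z k'.1 k'.2.1 k'.2.2)
    · rintro (rfl | rfl | rfl)
      · rw [u1]; exact Ne.symm n1
      · rw [u2]; exact Ne.symm n3
      · exact fun k => n3 (smul_left_cancel u (u2.trans k.symm))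
  have c3 : σ.IsThreeCycle := card_support_eq_three_iff.1 (by
    rw [sσ]; exact Finset.card_eq_three.2 ⟨e, d, x, n1, n2, n3, rfl⟩)
  have eσ : σ = swap e d * swap d x := by
    have := c3.eq_swap_mul_swap_iff_mem_support.2 (show e ∈ σ.support by simp [sσ])
    rwa [show σ e = d from u1, show σ d = x from u2] at this
  refine h G Ω K f cx ?_
  rw [← closure_three_cycles_eq_alternating, Subgroup.closure_le]
  intro τ hτ
  have hτ' : τ.IsThreeCycle := hτ
  obtain ⟨y, hy⟩ : τ.support.Nonempty := Finset.card_pos.1 (by rw [hτ'.card_support]; norm_num)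
  obtain ⟨k, k1, k2, k3⟩ := cx.t3 e d x y (τ y) (τ (τ y)) nd (hτ'.nodup_iff_mem_support.2 hy)
  refine ⟨k * u * k⁻¹, ?_⟩
  rw [hτ'.eq_swap_mul_swap_iff_mem_support.2 hy, ← k3, ← k2, ← k1, map_mul, map_mul, map_inv]
  change _ * σ * _ = swap (MulAction.toPermHom G Ω k e) (MulAction.toPermHom G Ω k d) *
    swap (MulAction.toPermHom G Ω k d) (MulAction.toPermHom G Ω k x)
  rw [swap_apply_apply, swap_apply_apply, eσ]; group

end CL.Pro9
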