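/-
Project Pro9 (S3399): the action on the blocks of an invariant equivalence relation.
-/
import Cfsg.Agent.Pro9.Defs

set_option autoImplicit false

namespace CL.Pro9

open scoped Pointwise

namespace blkx

variable {G Ω : Type} [Group G] [MulAction G Ω] {X : Subgroup G} {Γ : Set Ω} {r : Ω → Ω → Prop}

theorem smul_cls (t : Tr X Γ) (c : Cong X Γ r) {x : G} (hx : x ∈ X) {a : Ω} (ha : a ∈ Γ) :
    x • cls Γ r a = cls Γ r (x • a) := by
  ext b
  rw [Set.mem_smul_set_iff_inv_smul_mem]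
  constructor
  · rintro ⟨h1, h2⟩
    have h3 := c.inv x hx a ha _ h1 h2
    have h4 := t.1 x hx _ h1
    rw [smul_inv_smul] at h3 h4
    exact ⟨h4, h3⟩
  · rintro ⟨h1, h2⟩
    have h3 := c.inv x⁻¹ (inv_mem hx) _ (t.1 x hx a ha) b h1 h2
    rw [inv_smul_smul] at h3
    exact ⟨t.1 _ (inv_mem hx) b h1, h3⟩

theorem cls_eq (c : Cong X Γ r) {a b : Ω} (ha : a ∈ Γ) (hb : b ∈ Γ) : cls Γ r b = cls Γ r a ↔ r a b := by
  constructor
  · intro e
    have : b ∈ cls Γ r b := ⟨hb, c.refl b hb⟩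
    rw [e] at this
    exact this.2
  · intro h
    ext d
    exact ⟨fun k => ⟨k.1, c.trans a ha b hb d k.1 h k.2⟩, fun k => ⟨k.1, c.trans b hb a ha d k.1 (c.symm a ha b hb h) k.2⟩⟩

theorem cnt [Finite Ω] (c : Cong X Γ r) {β : ℕ} (hβ : ∀ a ∈ Γ, (cls Γ r a).ncard = β) {D : Set (Set Ω)}
    (hD : D ⊆ cls Γ r '' Γ) : {a | a ∈ Γ ∧ cls Γ r a ∈ D}.ncard = β * D.ncard := by
  classical
  rw [Set.ncard_eq_toFinset_card _ (Set.toFinite _), Set.ncard_eq_toFinset_card D (Set.toFinite _),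
    Finset.card_eq_sum_card_fiberwise (f := cls Γ r) (t := (Set.toFinite D).toFinset)
      (fun a ha => by simpa using ((Set.Finite.mem_toFinset _).1 ha).2), mul_comm, ← smul_eq_mul, ← Finset.sum_const]
  refine Finset.sum_congr rfl fun C hC => ?_
  have hC' := (Set.Finite.mem_toFinset _).1 hC
  obtain ⟨a, ha, rfl⟩ := hD hC'
  rw [← hβ a ha, ← Set.ncard_coe_finset]
  congr 1
  ext b
  rw [Finset.mem_coe, Finset.mem_filter, Set.Finite.mem_toFinset]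
  exact ⟨fun k => ⟨k.1.1, (cls_eq c ha k.1.1).1 k.2⟩, fun k =>
    have e := (cls_eq c ha k.1).2 k.2
    ⟨⟨k.1, e ▸ hC'⟩, e⟩⟩

end blkx

open blkx in
theorem blk (h : FUS) : BLK := by
  intro G Ω _ _ _ _ n X K Γ r s c ⟨a, ha, b, hb, hab, hr⟩
  have t := s.tr
  have hβ : ∀ d ∈ Γ, (cls Γ r d).ncard = (cls Γ r a).ncard := fun d hd => by
    obtain ⟨x, hx, rfl⟩ := t.2 a ha d hd
    rw [← smul_cls t c hx ha, Set.ncard_smul_set]
  have h2 : 1 < (cls Γ r a).ncard :=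
    (Set.one_lt_ncard (Set.toFinite _)).2 ⟨a, ⟨ha, c.refl a ha⟩, b, ⟨hb, hr⟩, hab⟩
  have hΓ : Γ.ncard = (cls Γ r a).ncard * (cls Γ r '' Γ).ncard := by
    rw [← cnt c hβ subset_rfl]
    congr 1
    ext d
    exact ⟨fun k => ⟨k, d, k, rfl⟩, fun k => k.1⟩
  by_cases hm : Mv K (cls Γ r '' Γ)
  · refine Or.inl fun d hd => ?_
    have hpos : 0 < (cls Γ r '' Γ).ncard := (Set.ncard_pos (Set.toFinite _)).2 ⟨_, a, ha, rfl⟩
    have hlt : (cls Γ r '' Γ).ncard < n := by have := s.card; nlinarith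
    have ht : Tr X (cls Γ r '' Γ) := by
      constructor
      · rintro x hx _ ⟨e, he, rfl⟩
        exact ⟨x • e, t.1 x hx e he, (smul_cls t c hx he).symm⟩
      · rintro _ ⟨e, he, rfl⟩ _ ⟨e', he', rfl⟩
        obtain ⟨x, hx, rfl⟩ := t.2 e he e' he'
        exact ⟨x, hx, smul_cls t c hx he⟩
    have h3 := s.ih G (Set Ω) X K _ hlt s.le s.pro ht hm
    have h4 : (Γ ∩ Fx Ω K).ncard ≤ (cls Γ r a).ncard * (cls Γ r '' Γ ∩ Fx (Set Ω) K).ncard := by
      rw [← cnt c hβ Set.inter_subset_left]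
      refine Set.ncard_le_ncard (fun e he => ⟨he.1, ⟨e, he.1, rfl⟩, fun k hk => ?_⟩) (Set.toFinite _)
      rw [smul_cls t c (s.le hk) he.1, he.2 k hk]
    rw [hβ d hd, hΓ]
    nlinarith
  · have hK : ∀ k ∈ K, ∀ d ∈ Γ, r d (k • d) := fun k hk d hd => by
      refine (cls_eq c hd (t.1 k (s.le hk) d hd)).1 ?_
      rw [← smul_cls t c (s.le hk) hd]
      by_contra e
      exact hm ⟨k, hk, _, ⟨d, hd, rfl⟩, e⟩
    refine Or.inr ⟨hK, fun d hd => ?_⟩
    let Y : Subgroup G :=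
      { carrier := {y | y ∈ X ∧ ∀ e ∈ Γ, r e (y • e)}
        one_mem' := ⟨one_mem _, fun e he => by rw [one_smul]; exact c.refl e he⟩
        mul_mem' := fun {y y'} hy hy' => ⟨mul_mem hy.1 hy'.1, fun e he => by
          have k := t.1 y' hy'.1 e he
          rw [mul_smul]
          exact c.trans e he _ k _ (t.1 y hy.1 _ k) (hy'.2 e he) (hy.2 _ k)⟩
        inv_mem' := fun {y} hy => ⟨inv_mem hy.1, fun e he => by
          have k := t.1 y⁻¹ (inv_mem hy.1) e he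
          have k' := hy.2 _ k
          rw [smul_inv_smul] at k'
          exact c.symm _ k e he k'⟩ }
    obtain ⟨k0, hk0, a0, ha0, e0⟩ := s.mv
    obtain ⟨g, hg, rfl⟩ := t.2 a0 ha0 d hd
    obtain ⟨w, w1, w2, -⟩ := h G Ω X K g s.pro hg
    have hw : w ∈ Y := w1 Y (fun k hk => ⟨s.le hk, hK k hk⟩) fun k hk =>
      ⟨mul_mem (mul_mem hg (s.le hk)) (inv_mem hg), fun e he => by
        have k1 := t.1 g⁻¹ (inv_mem hg) e he
        have k2 := c.inv g hg _ k1 _ (t.1 k (s.le hk) _ k1) (hK k hk _ k1)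
        rwa [smul_inv_smul, ← mul_smul, ← mul_smul] at k2⟩
    obtain ⟨k', hk', e1⟩ := w2 k0 hk0
    have hw' : w⁻¹ ∈ Y := inv_mem hw
    refine ⟨k', hk', w⁻¹ • g • a0, ⟨t.1 _ hw'.1 _ hd, hw'.2 _ hd⟩, fun e => e0 ?_⟩
    have e2 : (g * k0 * g⁻¹) • g • a0 = g • a0 := by rw [e1, mul_smul, mul_smul, e, smul_inv_smul]
    rw [mul_smul, inv_smul_smul, mul_smul] at e2
    exact smul_left_cancel g e2

end CL.Pro9
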