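/-
Project Pro9 (helper98): the first sum in the bound of Bochert.
-/
import Cfsg.Agent.Pro9.Defs

set_option autoImplicit false

namespace CL.Pro9

namespace bo1x

open Classical in
theorem ncard_eq {α : Type} (S : Finset α) (r : α → Prop) :
    {z | z ∈ S ∧ r z}.ncard = ∑ z ∈ S, if r z then 1 else 0 := by
  rw [← Finset.card_filter, ← Set.ncard_coe_finset]
  congr 1
  ext z
  simp

open Classical in
theorem swap {G Ω : Type} [Fintype G] (p : G → Prop) (S : Finset Ω) (r : G → Ω → Prop) :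
    (∑ g : G, if p g then {z | z ∈ S ∧ r g z}.ncard else 0) = ∑ z ∈ S, {g | p g ∧ r g z}.ncard := by
  have e : ∀ z, {g | p g ∧ r g z}.ncard = ∑ g : G, if p g ∧ r g z then 1 else 0 := fun z => by
    have := ncard_eq (Finset.univ : Finset G) fun g => p g ∧ r g z
    simp only [Finset.mem_univ, true_and] at this
    rw [this]
    exact Finset.sum_congr rfl fun g _ => by congr
  simp only [e]
  rw [Finset.sum_comm]
  refine Finset.sum_congr rfl fun g _ => ?_
  by_cases h : p g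
  · simp only [h, if_true, true_and, ncard_eq]
  · simp [h]

end bo1x

open bo1x

theorem bo1 (h : PAIR) : BO1 := fun G Ω _ _ _ _ N c m u δ γ α hC hm hα hγ hδ => by
  classical
  obtain ⟨S, hS⟩ : ∃ S : Finset Ω, (S : Set Ω) = supp Ω u := (Set.toFinite _).exists_finset_coe
  have mem : ∀ z, z ∈ supp Ω u ↔ z ∈ S := fun z => by rw [← hS, Finset.mem_coe]
  have hβ : u • α ≠ α := hα
  have hβ' : u • α ∈ supp Ω u := fun e => hβ (smul_left_cancel u e)
  have hδγ : δ ≠ γ := fun e => hδ (e ▸ hγ)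
  have cS : S.card = m := by rw [← hm, ← hS, Set.ncard_coe_finset]
  have k := swap (fun g : G => g • δ = α ∧ g • γ = u • α) S fun g z => g⁻¹ • z ∈ supp Ω u
  have e : ∀ g : G, {z | z ∈ supp Ω u ∧ g⁻¹ • z ∈ supp Ω u} = {z | z ∈ S ∧ g⁻¹ • z ∈ supp Ω u} := fun g => by
    ext z; rw [Set.mem_setOf_eq, Set.mem_setOf_eq, mem z]
  simp only [e]
  refine le_trans (le_of_eq (Eq.trans (Finset.sum_congr rfl fun g _ => by congr) k)) ?_
  have m2 : u • α ∈ S.erase α := Finset.mem_erase.2 ⟨hβ, (mem _).1 hβ'⟩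
  rw [← Finset.add_sum_erase _ _ ((mem α).1 hα), ← Finset.add_sum_erase _ _ m2]
  have k0 : {g : G | (g • δ = α ∧ g • γ = u • α) ∧ g⁻¹ • α ∈ supp Ω u} = ∅ :=
    Set.eq_empty_of_forall_notMem fun g hg => hδ (by have := hg.2; rwa [← hg.1.1, inv_smul_smul] at this)
  rw [k0, Set.ncard_empty, zero_add]
  refine add_le_add ?_ ((Finset.sum_le_card_nsmul _ _ ((m - 1) * ((N - 3) * c)) fun z hz => ?_).trans (le_of_eq ?_))
  · rw [← hC.c2 δ γ α (u • α) hδγ hβ.symm]
    exact Set.ncard_le_ncard fun g hg => hg.1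
  · obtain ⟨z1, hz⟩ := Finset.mem_erase.1 hz
    obtain ⟨z2, -⟩ := Finset.mem_erase.1 hz
    have p := (h G Ω N c α (u • α) δ γ (supp Ω u) (supp Ω u) hC hδγ).1 z
      (by simp [hβ.symm, z1.symm, z2.symm])
    have e1 : supp Ω u \ {δ, γ} = supp Ω u \ {γ} := by
      ext x
      simp only [Set.mem_diff, Set.mem_insert_iff, Set.mem_singleton_iff, not_or]
      exact ⟨fun a => ⟨a.1, a.2.2⟩, fun a => ⟨a.1, fun e => hδ (e ▸ a.1), a.2⟩⟩
    rw [e1, Set.ncard_diff_singleton_of_mem hγ, hm] at p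
    refine le_trans ?_ p
    refine Set.ncard_le_ncard_of_injOn (fun g => g⁻¹) (fun g hg => ?_) inv_injective.injOn
    exact ⟨inv_smul_eq_iff.2 hg.1.1.symm, inv_smul_eq_iff.2 hg.1.2.symm, hg.2⟩
  · rw [Finset.card_erase_of_mem m2, Finset.card_erase_of_mem ((mem α).1 hα), cS, smul_eq_mul, Nat.sub_sub]

end CL.Pro9
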