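/-
Project Pro9 (S3399): the second sum of the Bochert count.
-/
import Cfsg.Agent.Pro9.Defs

set_option autoImplicit false

namespace CL.Pro9

namespace bo2x

open Classical in
theorem ncard_sum {ι : Type} [Fintype ι] (p : ι → Prop) : {x | p x}.ncard = ∑ x, if p x then 1 else 0 := by
  rw [← Finset.card_filter, ← Set.ncard_coe_finset]
  congr 1
  ext x
  simp

open Classical in
theorem swap {ι κ : Type} [Fintype ι] [Fintype κ] (p : ι → Prop) (S : Set κ) (q : ι → κ → Prop) :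
    (∑ g : ι, if p g then {z | z ∈ S ∧ q g z}.ncard else 0) =
      ∑ z : κ, if z ∈ S then {g | p g ∧ q g z}.ncard else 0 := by
  have h1 : ∀ g : ι, (if p g then {z | z ∈ S ∧ q g z}.ncard else 0) =
      ∑ z : κ, if p g ∧ z ∈ S ∧ q g z then 1 else 0 := by
    intro g
    by_cases h : p g
    · rw [if_pos h, ncard_sum]
      exact Finset.sum_congr rfl fun z _ => by simp [h]
    · simp [h]
  have h2 : ∀ z : κ, (if z ∈ S then {g | p g ∧ q g z}.ncard else 0) =
      ∑ g : ι, if p g ∧ z ∈ S ∧ q g z then 1 else 0 := by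
    intro z
    by_cases h : z ∈ S
    · rw [if_pos h, ncard_sum]
      exact Finset.sum_congr rfl fun g _ => by simp [h]
    · simp [h]
  simp only [h1, h2]
  exact Finset.sum_comm

end bo2x

open bo2x in
theorem bo2 (h : PAIR) : BO2 := by
  intro G Ω _ _ _ _ N c m u δ γ α hC hm hα hγ hδ
  classical
  have := Fintype.ofFinite Ω
  have hαβ : u • α ≠ α := hα
  have hβ : u • α ∈ supp Ω u := fun e => hαβ (smul_left_cancel u e)
  have hδγ : δ ≠ γ := fun e => hδ (e ▸ hγ)
  have hc1 : ((supp Ω u)ᶜ \ {δ, γ}).ncard = N - m - 1 := by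
    have e : (supp Ω u)ᶜ \ {δ, γ} = (supp Ω u)ᶜ \ {δ} := by
      ext x
      simp only [Set.mem_sdiff, Set.mem_compl_iff, Set.mem_insert_iff, Set.mem_singleton_iff, not_or]
      exact ⟨fun h => ⟨h.1, h.2.1⟩, fun h => ⟨h.1, h.2, fun e => h.1 (e ▸ hγ)⟩⟩
    have e2 := Set.ncard_add_ncard_compl (supp Ω u)
    rw [e, Set.ncard_sdiff_singleton_of_mem (show δ ∈ (supp Ω u)ᶜ from hδ)]
    rw [hm, hC.card] at e2
    omega
  have hc2 : (supp Ω u \ {δ, γ}).ncard = m - 1 := by
    have e : supp Ω u \ {δ, γ} = supp Ω u \ {γ} := by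
      ext x
      simp only [Set.mem_sdiff, Set.mem_insert_iff, Set.mem_singleton_iff, not_or]
      exact ⟨fun h => ⟨h.1, h.2.2⟩, fun h => ⟨h.1, fun e => hδ (e ▸ h.1), h.2⟩⟩
    rw [e, Set.ncard_sdiff_singleton_of_mem hγ, hm]
  have hc3 : (supp Ω u \ {α, u • α}).ncard = m - 2 := by
    rw [Set.ncard_sdiff (by
      intro x hx
      rcases hx with rfl | rfl
      exacts [hα, hβ]), Set.ncard_pair hαβ.symm, hm]
  have key : ∀ z : Ω, (if z ∈ supp Ω u then {g : G | (g • δ = α ∧ g • γ = u • α) ∧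
      (g⁻¹ • z ∉ supp Ω u ∧ g⁻¹ • u • z ∈ supp Ω u)}.ncard else 0) ≤
      (if z = α then (N - 2) * ((N - 3) * c) else 0) +
        (if z ∈ supp Ω u \ {α, u • α} then 1 else 0) * ((N - m - 1) * ((m - 1) * c)) := by
    intro z
    by_cases hz : z ∈ supp Ω u
    swap
    · rw [if_neg hz]
      exact Nat.zero_le _
    rw [if_pos hz]
    by_cases h1 : z = α
    · rw [if_pos h1, ← hC.c2 δ γ α (u • α) hδγ hαβ.symm]
      exact le_add_right (Set.ncard_le_ncard fun g hg => hg.1)
    by_cases h2 : z = u • α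
    · have e : {g : G | (g • δ = α ∧ g • γ = u • α) ∧
          (g⁻¹ • z ∉ supp Ω u ∧ g⁻¹ • u • z ∈ supp Ω u)} = ∅ := by
        rw [Set.eq_empty_iff_forall_notMem]
        intro g hg
        apply hg.2.1
        rw [h2, ← hg.1.2, inv_smul_smul]
        exact hγ
      rw [e, Set.ncard_empty]
      exact Nat.zero_le _
    by_cases h3 : u • z = α
    · have e : {g : G | (g • δ = α ∧ g • γ = u • α) ∧
          (g⁻¹ • z ∉ supp Ω u ∧ g⁻¹ • u • z ∈ supp Ω u)} = ∅ := by
        rw [Set.eq_empty_iff_forall_notMem]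
        intro g hg
        have := hg.2.2
        rw [h3, ← hg.1.1, inv_smul_smul] at this
        exact hδ this
      rw [e, Set.ncard_empty]
      exact Nat.zero_le _
    have hz' : z ∈ supp Ω u \ {α, u • α} := ⟨hz, by simp [h1, h2]⟩
    have hzz : u • z ≠ z := hz
    have h4 : u • α ≠ u • z := fun e => h1 (smul_left_cancel u e).symm
    have nd : [α, u • α, z, u • z].Nodup := by
      simp [hαβ.symm, Ne.symm h1, Ne.symm h2, Ne.symm h3, h4, hzz.symm]
    have hb := (h G Ω N c α (u • α) δ γ (supp Ω u)ᶜ (supp Ω u) hC hδγ).2 z (u • z) nd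
    rw [hc1, hc2] at hb
    rw [if_neg h1, if_pos hz', zero_add, one_mul]
    refine le_trans (Set.ncard_le_ncard_of_injOn (fun g => g⁻¹) ?_ (inv_injective.injOn)) hb
    intro g hg
    exact ⟨by rw [← hg.1.1, inv_smul_smul], by rw [← hg.1.2, inv_smul_smul], hg.2.1, hg.2.2⟩
  have hs := swap (fun g : G => g • δ = α ∧ g • γ = u • α) (supp Ω u)
    (fun g z => g⁻¹ • z ∉ supp Ω u ∧ g⁻¹ • u • z ∈ supp Ω u)
  have hn := ncard_sum (fun z => z ∈ supp Ω u \ {α, u • α})
  rw [Set.ofPred_mem_eq, hc3] at hn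
  have ht := Finset.sum_le_sum fun z (_ : z ∈ Finset.univ) => key z
  rw [Finset.sum_add_distrib, ← Finset.sum_mul, Finset.sum_ite_eq', if_pos (Finset.mem_univ _)] at ht
  refine le_trans (le_of_eq ?_) (le_trans ht (le_of_eq ?_))
  · convert hs
  · congr 2
    convert hn.symm

end CL.Pro9
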