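/-
Project Pro9 (S3399): the third sum in Bochert's estimate.
-/
import Cfsg.Agent.Pro9.Defs

set_option autoImplicit false

namespace CL.Pro9

namespace bo3x

open Classical in
theorem swap {G Ω : Type} [Fintype G] [Fintype Ω] (p : G → Prop) {_ : DecidablePred p} (S : Set Ω) (q : G → Ω → Prop) :
    (∑ g : G, if p g then {x | x ∈ S ∧ q g x}.ncard else 0) =
      ∑ x ∈ S.toFinset, {g : G | p g ∧ q g x}.ncard := by
  have h1 : ∀ g : G, (if p g then {x | x ∈ S ∧ q g x}.ncard else 0) =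
      ∑ x ∈ S.toFinset, if p g ∧ q g x then 1 else 0 := by
    intro g
    by_cases hp : p g
    · simp only [hp, if_true, true_and]
      rw [← Finset.card_filter, ← Set.ncard_coe_finset]
      congr 1
      ext x
      simp
    · simp [hp]
  have h2 : ∀ x : Ω, {g : G | p g ∧ q g x}.ncard = ∑ g : G, if p g ∧ q g x then 1 else 0 := by
    intro x
    rw [← Finset.card_filter, ← Set.ncard_coe_finset]
    congr 1
    ext g
    simp
  simp only [h1, h2]
  exact Finset.sum_comm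

end bo3x

theorem bo3 (h : PAIR) : BO3 := by
  intro G Ω _ _ _ _ N c m u δ γ α hC hm hα hγ hδ
  classical
  let _ : Fintype Ω := Fintype.ofFinite Ω
  have hu : ∀ x ∈ supp Ω u, u • x ∈ supp Ω u := fun x hx e => hx (smul_left_cancel u e)
  have hab : α ≠ u • α := fun e => hα e.symm
  obtain ⟨h1, h2⟩ := h G Ω N c δ γ α (u • α) (supp Ω u)ᶜ (supp Ω u) hC hab
  have hP : ((supp Ω u)ᶜ \ {α, u • α}).ncard ≤ N - m := by
    have := Set.ncard_add_ncard_compl (supp Ω u)
    have h3 : ((supp Ω u)ᶜ \ {α, u • α}).ncard ≤ ((supp Ω u)ᶜ).ncard := Set.ncard_le_ncard Set.sdiff_subset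
    rw [hC.card, hm] at this
    omega
  have hP' : (supp Ω u \ {α, u • α}).ncard = m - 2 := by
    rw [Set.ncard_sdiff (by
      rintro x (rfl | rfl)
      · exact hα
      · exact hu _ hα), Set.ncard_pair hab, hm]
  have hx0 : u⁻¹ • γ ∈ supp Ω u := by
    intro e
    rw [smul_inv_smul] at e
    apply hγ
    conv_lhs => rw [e, smul_inv_smul]
  have hne : u⁻¹ • γ ≠ γ := by
    intro e
    apply hγ
    conv_lhs => rw [← e, smul_inv_smul]
  have hdg : δ ≠ γ := fun e => hδ (e ▸ hγ)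
  rw [bo3x.swap (fun g : G => g • δ = α ∧ g • γ = u • α) (supp Ω u)
    (fun g x => g • x ∉ supp Ω u ∧ g • u • x ∈ supp Ω u)]
  have m1 : γ ∈ (supp Ω u).toFinset := Set.mem_toFinset.mpr hγ
  have m2 : u⁻¹ • γ ∈ (supp Ω u).toFinset.erase γ := Finset.mem_erase.mpr ⟨hne, Set.mem_toFinset.mpr hx0⟩
  rw [← Finset.add_sum_erase _ _ m1, ← Finset.add_sum_erase _ _ m2]
  have e0 : {g : G | (g • δ = α ∧ g • γ = u • α) ∧ g • γ ∉ supp Ω u ∧ g • u • γ ∈ supp Ω u} = ∅ := by
    ext g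
    simp only [Set.mem_setOf_eq, Set.mem_empty_iff_false, iff_false]
    rintro ⟨⟨-, a⟩, b, -⟩
    exact b (a ▸ hu _ hα)
  rw [e0, Set.ncard_empty, zero_add]
  refine Nat.add_le_add ?_ ?_
  · refine le_trans (Set.ncard_le_ncard ?_) (le_trans (h1 (u⁻¹ • γ) ?_) (Nat.mul_le_mul_right _ hP))
    · rintro g ⟨⟨a, b⟩, d, -⟩
      exact ⟨a, b, d⟩
    · have : δ ≠ u⁻¹ • γ := fun e => hδ (e ▸ hx0)
      simp [hdg, this, hne.symm]
  · have hc : (((supp Ω u).toFinset.erase γ).erase (u⁻¹ • γ)).card = m - 2 := by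
      rw [Finset.card_erase_of_mem m2, Finset.card_erase_of_mem m1, ← Set.ncard_eq_toFinset_card', hm]
      omega
    rw [← hc]
    refine le_trans (Finset.sum_le_card_nsmul _ _ ((N - m) * ((m - 2) * c)) ?_) (by rw [smul_eq_mul, hc])
    intro x hx
    obtain ⟨a1, hx⟩ := Finset.mem_erase.mp hx
    obtain ⟨a2, hx⟩ := Finset.mem_erase.mp hx
    have hxS : x ∈ supp Ω u := Set.mem_toFinset.mp hx
    have a3 : δ ≠ x := fun e => hδ (e ▸ hxS)
    have a4 : δ ≠ u • x := fun e => hδ (e ▸ hu x hxS)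
    have a5 : γ ≠ u • x := fun e => a1 (by rw [e, inv_smul_smul])
    have a6 : x ≠ u • x := fun e => hxS e.symm
    refine le_trans (Set.ncard_le_ncard ?_) (le_trans (h2 x (u • x) ?_) ?_)
    · rintro g ⟨⟨a, b⟩, d, e⟩
      exact ⟨a, b, d, e⟩
    · simp [hdg, a3, a4, a5, a6, Ne.symm a2]
    · rw [hP']
      exact Nat.mul_le_mul_right _ hP

end CL.Pro9
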