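/-
Project Pro9 (S3399), job BOC: the bound on the minimal degree of a four-transitive group.
-/
import Cfsg.Agent.Pro9.Defs

set_option autoImplicit false

namespace CL.Pro9

namespace bocx

theorem one (h : SUP) {G Ω : Type} [Group G] [Fintype G] [Finite Ω] [MulAction G Ω] {u g : G} {δ α : Ω}
    (hm : ∀ w : G, w ≠ 1 → (supp Ω u).ncard ≤ (supp Ω w).ncard) (ha : α ∈ supp Ω u) (hd : δ ∉ supp Ω u)
    (e1 : g • δ = α) (e2 : g • α = u • α) :
    (supp Ω u).ncard ≤ {z | z ∈ supp Ω u ∧ g⁻¹ • z ∈ supp Ω u}.ncard +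
      {z | z ∈ supp Ω u ∧ g⁻¹ • z ∉ supp Ω u ∧ g⁻¹ • u • z ∈ supp Ω u}.ncard +
      {x | x ∈ supp Ω u ∧ g • x ∉ supp Ω u ∧ g • u • x ∈ supp Ω u}.ncard := by
  have d1 : u • δ = δ := not_not.1 hd
  have k := h G Ω u (g * u * g⁻¹) (supp Ω u) {z | g⁻¹ • z ∈ supp Ω u} subset_rfl fun z hz e =>
    hz (by rw [mul_smul, mul_smul, e, smul_inv_smul])
  have n : (g * u * g⁻¹ * u)⁻¹ * (u * (g * u * g⁻¹)) ≠ 1 := fun e => by
    have e3 := congrArg (· • α) (inv_mul_eq_one.1 e)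
    simp only [mul_smul] at e3
    have i1 : g⁻¹ • u • α = α := inv_smul_eq_iff.2 e2.symm
    have i2 : g⁻¹ • α = δ := inv_smul_eq_iff.2 e1.symm
    rw [i1, i2, d1, e1, ← e2, smul_left_cancel_iff] at e3
    exact ha (e2.symm.trans e3)
  refine (hm _ n).trans (k.trans (Nat.add_le_add_left ?_ _))
  refine Set.ncard_le_ncard_of_injOn (fun z => g⁻¹ • z) (fun z hz => ⟨hz.1, ?_, ?_⟩)
    (MulAction.injective g⁻¹).injOn
  · rw [smul_inv_smul]; exact hz.2.1
  · have := hz.2.2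
    rwa [mul_smul, mul_smul] at this

end bocx

theorem boc (h : SUP) (h1 : BO1) (h2 : BO2) (h3 : BO3) (h4 : NB) : BOC := by
  classical
  intro G Ω _ _ _ _ _ f c C hf h5 w hw
  by_contra hn
  obtain ⟨u, hu, hm⟩ := Set.exists_min_image {g : G | g ≠ 1} (fun g => (supp Ω g).ncard) (Set.toFinite _) ⟨w, hw⟩
  have m5 := h5 u hu
  have mf : (supp Ω u).ncard + 2 ≤ f := by have := hm w hw; omega
  obtain ⟨α, ha⟩ := Set.nonempty_of_ncard_ne_zero (show (supp Ω u).ncard ≠ 0 by omega)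
  obtain ⟨δ, hd⟩ : ∃ δ, δ ∉ supp Ω u := by
    by_contra k
    push Not at k
    rw [Set.eq_univ_of_forall k, Set.ncard_univ, C.card] at mf
    omega
  have b1 := h1 G Ω _ c _ u δ α α C rfl ha ha hd
  have b2 := h2 G Ω _ c _ u δ α α C rfl ha ha hd
  have b3 := h3 G Ω _ c _ u δ α α C rfl ha ha hd
  have c2 := C.c2 δ α α (u • α) (fun e => hd (e ▸ ha)) (Ne.symm ha)
  have s : (∑ g : G, if g • δ = α ∧ g • α = u • α then (supp Ω u).ncard else 0) ≤ _ :=
    (Finset.sum_le_sum fun g _ => ?_).trans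
      ((Finset.sum_add_distrib.trans (congrArg (· + _) Finset.sum_add_distrib)).le.trans
        (add_le_add (add_le_add b1 b2) b3))
  swap
  · split_ifs with e
    · exact bocx.one h hm ha hd e.1 e.2
    · rfl
  rw [← Finset.sum_filter, Finset.sum_const, smul_eq_mul, ← Set.ncard_coe_finset, Finset.coe_filter_univ, c2] at s
  generalize (supp Ω u).ncard = m at *
  have nb := h4 f m (by omega) (by omega) (by omega)
  have cp : (0 : ℤ) < c := by exact_mod_cast C.pos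
  zify [show 2 ≤ 2 * f by omega, show 3 ≤ 2 * f by omega, show 2 ≤ m by omega, show 1 ≤ m by omega,
    show m ≤ 2 * f by omega, show 1 ≤ 2 * f - m by omega] at s
  have := mul_lt_mul_of_pos_right nb cp
  linarith

end CL.Pro9
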