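/-
Project Pro9 (S3399), part CL1: when the stabiliser of three points fixes a fourth point, it fixes exactly one,
and the fourth point gives an invariant quadruple system.
-/
import Cfsg.Agent.Pro9.Defs

set_option autoImplicit false

namespace CL.Pro9

namespace cl1x

variable {G Ω : Type} [Group G] [MulAction G Ω]

theorem nd3 {a b c : Ω} : [a, b, c].Nodup ↔ a ≠ b ∧ a ≠ c ∧ b ≠ c := by
  simp only [List.nodup_cons, List.mem_cons, List.not_mem_nil, List.nodup_nil]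
  tauto

theorem nd4 {a b c d : Ω} : [a, b, c, d].Nodup ↔ a ≠ b ∧ a ≠ c ∧ a ≠ d ∧ b ≠ c ∧ b ≠ d ∧ c ≠ d := by
  simp only [List.nodup_cons, List.mem_cons, List.not_mem_nil, List.nodup_nil]
  tauto

/-- the stabiliser of `a, b, c` fixes the further point `d` -/
def P (G : Type) [Group G] [MulAction G Ω] (a b c d : Ω) : Prop :=
  [a, b, c, d].Nodup ∧ ∀ g : G, g • a = a → g • b = b → g • c = c → g • d = d

theorem conj_fix (t g : G) (a : Ω) (h : g • t • a = t • a) : (t⁻¹ * g * t) • a = a := by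
  rw [mul_smul, mul_smul, h, inv_smul_smul]

theorem P.smul {a b c d : Ω} (h : P G a b c d) (t : G) : P G (t • a) (t • b) (t • c) (t • d) := by
  obtain ⟨hn, hf⟩ := h
  rw [nd4] at hn
  obtain ⟨h1, h2, h3, h4, h5, h6⟩ := hn
  refine ⟨nd4.2 ⟨fun e => h1 (MulAction.injective t e), fun e => h2 (MulAction.injective t e),
    fun e => h3 (MulAction.injective t e), fun e => h4 (MulAction.injective t e),
    fun e => h5 (MulAction.injective t e), fun e => h6 (MulAction.injective t e)⟩, fun g ha hb hc => ?_⟩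
  have := hf (t⁻¹ * g * t) (conj_fix t g a ha) (conj_fix t g b hb) (conj_fix t g c hc)
  rw [mul_smul, mul_smul, inv_smul_eq_iff] at this
  exact this

theorem P.sw1 {a b c d : Ω} (h : P G a b c d) : P G b a c d := by
  obtain ⟨hn, hf⟩ := h
  rw [nd4] at hn
  obtain ⟨h1, h2, h3, h4, h5, h6⟩ := hn
  exact ⟨nd4.2 ⟨h1.symm, h4, h5, h2, h3, h6⟩, fun g ha hb hc => hf g hb ha hc⟩

theorem P.sw2 {a b c d : Ω} (h : P G a b c d) : P G a c b d := by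
  obtain ⟨hn, hf⟩ := h
  rw [nd4] at hn
  obtain ⟨h1, h2, h3, h4, h5, h6⟩ := hn
  exact ⟨nd4.2 ⟨h2, h1, h3, h4.symm, h6, h5⟩, fun g ha hb hc => hf g ha hc hb⟩

theorem P.sw3 [Finite G] (t3 : T3 G Ω) {a b c d : Ω} (h : P G a b c d) : P G a b d c := by
  obtain ⟨hn, hf⟩ := h
  rw [nd4] at hn
  obtain ⟨h1, h2, h3, h4, h5, h6⟩ := hn
  refine ⟨nd4.2 ⟨h1, h3, h2, h5, h4, h6.symm⟩, fun g ha hb hd => ?_⟩
  obtain ⟨t, ta, tb, tc⟩ := t3 a b c a b d (nd3.2 ⟨h1, h2, h4⟩) (nd3.2 ⟨h1, h3, h5⟩)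
  have hle : G3 G a b c ≤ G3 G a b d := fun x hx => by
    rw [mem_G3] at hx ⊢
    exact ⟨hx.1, hx.2.1, hf x hx.1 hx.2.1 hx.2.2⟩
  have hcard : Nat.card (G3 G a b d) ≤ Nat.card (G3 G a b c) := by
    refine Nat.card_le_card_of_injective
      (fun x : G3 G a b d => (⟨t⁻¹ * x.1 * t, ?_⟩ : G3 G a b c)) ?_
    · have hx := mem_G3.1 x.2
      refine mem_G3.2 ⟨conj_fix t _ a ?_, conj_fix t _ b ?_, conj_fix t _ c ?_⟩
      · rw [ta]; exact hx.1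
      · rw [tb]; exact hx.2.1
      · rw [tc]; exact hx.2.2
    · intro x y hxy
      have h' : t⁻¹ * x.1 * t = t⁻¹ * y.1 * t := congrArg Subtype.val hxy
      exact Subtype.ext (mul_left_cancel (mul_right_cancel h'))
  have heq := Subgroup.eq_of_le_of_card_ge hle hcard
  have hg : g ∈ G3 G a b c := by rw [heq]; exact mem_G3.2 ⟨ha, hb, hd⟩
  exact (mem_G3.1 hg).2.2

theorem uniqF (h : BLK) [Fintype G] [Finite Ω] (K : Subgroup G) (f : ℕ) (cx : CX Ω K f) {a b c d d' : Ω}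
    (ha : a ∈ Fx Ω K) (hb : b ∈ Fx Ω K) (hc : c ∈ Fx Ω K) (hd : P G a b c d) (hd' : P G a b c d') : d = d' := by
  by_contra hne
  obtain ⟨h1, h2, h3, h4, h5, h6⟩ := nd4.1 hd.1
  obtain ⟨-, -, h3', -, h5', h6'⟩ := nd4.1 hd'.1
  have memΓ : ∀ z : Ω, z ∈ ({a, b}ᶜ : Set Ω) ↔ a ≠ z ∧ b ≠ z := fun z => by
    simp only [Set.mem_compl_iff, Set.mem_insert_iff, Set.mem_singleton_iff, not_or]
    exact ⟨fun h => ⟨fun e => h.1 e.symm, fun e => h.2 e.symm⟩, fun h => ⟨fun e => h.1 e.symm, fun e => h.2 e.symm⟩⟩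
  have hKX : K ≤ G2 G a b := fun k hk => mem_G2.2 ⟨ha k hk, hb k hk⟩
  have hΓ : ({a, b} : Set Ω).ncard + ({a, b}ᶜ : Set Ω).ncard = Nat.card Ω := Set.ncard_add_ncard_compl _
  rw [Set.ncard_pair h1, cx.card] at hΓ
  have hsub : ({a, b} : Set Ω) ⊆ Fx Ω K := by
    intro z hz
    rcases hz with rfl | rfl
    · exact ha
    · exact hb
  have hF : (Fx Ω K \ {a, b}).ncard + ({a, b} : Set Ω).ncard = (Fx Ω K).ncard :=
    Set.ncard_diff_add_ncard_of_subset hsub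
  rw [Set.ncard_pair h1, cx.fix] at hF
  have hF' : (({a, b}ᶜ : Set Ω) ∩ Fx Ω K) = Fx Ω K \ {a, b} := by
    rw [Set.inter_comm]; rfl
  have hinv : ∀ x ∈ G2 G a b, ∀ z ∈ ({a, b}ᶜ : Set Ω), x • z ∈ ({a, b}ᶜ : Set Ω) := by
    intro x hx z hz
    rw [memΓ] at hz ⊢
    obtain ⟨xa, xb⟩ := mem_G2.1 hx
    exact ⟨fun e => hz.1 (MulAction.injective x (xa.trans e)), fun e => hz.2 (MulAction.injective x (xb.trans e))⟩
  have sit : Sit (2 * f) (G2 G a b) K ({a, b}ᶜ : Set Ω) := by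
    refine ⟨cx.ih, hKX, cx.pro.mono le_top, ⟨hinv, fun y hy z hz => ?_⟩, ?_, by omega⟩
    · rw [memΓ] at hy hz
      obtain ⟨t, ta, tb, tc⟩ := cx.t3 a b y a b z (nd3.2 ⟨h1, hy.1, hy.2⟩) (nd3.2 ⟨h1, hz.1, hz.2⟩)
      exact ⟨t, mem_G2.2 ⟨ta, tb⟩, tc⟩
    · obtain ⟨k, hk, z, -, hz⟩ := cx.mv
      refine ⟨k, hk, z, (memΓ z).2 ⟨?_, ?_⟩, hz⟩
      · rintro rfl; exact hz (ha k hk)
      · rintro rfl; exact hz (hb k hk)
  have cong : Cong (G2 G a b) ({a, b}ᶜ : Set Ω) (fun p q => ∀ g ∈ G2 G a b, g • p = p ↔ g • q = q) := by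
    refine ⟨fun _ _ _ _ => Iff.rfl, fun _ _ _ _ hr g hg => (hr g hg).symm,
      fun _ _ _ _ _ _ hr hs g hg => (hr g hg).trans (hs g hg), fun x hx p _ q _ hr g hg => ?_⟩
    have hm : x⁻¹ * g * x ∈ G2 G a b := mul_mem (mul_mem (inv_mem hx) hg) hx
    have := hr _ hm
    rw [mul_smul, mul_smul, mul_smul, mul_smul, inv_smul_eq_iff, inv_smul_eq_iff] at this
    exact this
  have rel : ∀ e, P G a b c e → ∀ g ∈ G2 G a b, g • c = c ↔ g • e = e := fun e he g hg =>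
    ⟨fun hh => he.2 g (mem_G2.1 hg).1 (mem_G2.1 hg).2 hh,
      fun hh => (he.sw3 cx.t3).2 g (mem_G2.1 hg).1 (mem_G2.1 hg).2 hh⟩
  have hcΓ := (memΓ c).2 ⟨h2, h4⟩
  have hdΓ := (memΓ d).2 ⟨h3, h5⟩
  have hdΓ' := (memΓ d').2 ⟨h3', h5'⟩
  rcases h G Ω (2 * f) (G2 G a b) K _ _ sit cong ⟨c, hcΓ, d, hdΓ, h6, rel d hd⟩ with h7 | ⟨-, h7⟩
  · have h8 := h7 c hcΓ
    rw [hF'] at h8
    have h9 : 2 < (cls ({a, b}ᶜ : Set Ω) (fun p q => ∀ g ∈ G2 G a b, g • p = p ↔ g • q = q) c).ncard :=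
      (Set.two_lt_ncard (Set.toFinite _)).2 ⟨c, ⟨hcΓ, fun _ _ => Iff.rfl⟩, d, ⟨hdΓ, rel d hd⟩, d',
        ⟨hdΓ', rel d' hd'⟩, h6, h6', hne⟩
    omega
  · obtain ⟨k, hk, z, hz, hkz⟩ := h7 c hcΓ
    exact hkz ((hz.2 k (hKX hk)).1 (hc k hk))

end cl1x

open cl1x in
theorem cl1 (h : BLK) : CL1 := by
  intro G Ω _ _ _ _ K f cx hn
  have h0 : ∃ a b c d : Ω, P G a b c d := by
    by_contra hc
    refine hn fun a b c d hnd => ?_
    by_contra hg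
    refine hc ⟨a, b, c, d, hnd, fun g ha hb hc' => ?_⟩
    by_contra hd
    exact hg ⟨g, ha, hb, hc', hd⟩
  obtain ⟨a0, b0, c0, d0, h0⟩ := h0
  obtain ⟨e1, e2, -, e4, -, -⟩ := nd4.1 h0.1
  have ex : ∀ a b c : Ω, [a, b, c].Nodup → ∃ d, P G a b c d := by
    intro a b c hn3
    obtain ⟨t, ta, tb, tc⟩ := cx.t3 a0 b0 c0 a b c (nd3.2 ⟨e1, e2, e4⟩) hn3
    have := h0.smul t
    rw [ta, tb, tc] at this
    exact ⟨_, this⟩
  have h3 : 2 < (Fx Ω K).ncard := by have := cx.four; have := cx.fix; omega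
  obtain ⟨a1, ha1, b1, hb1, c1, hc1, n1, n2, n3⟩ := (Set.two_lt_ncard (Set.toFinite _)).1 h3
  have uq : ∀ a b c d d' : Ω, P G a b c d → P G a b c d' → d = d' := by
    intro a b c d d' hd hd'
    obtain ⟨m1, m2, -, m4, -, -⟩ := nd4.1 hd.1
    obtain ⟨t, ta, tb, tc⟩ := cx.t3 a b c a1 b1 c1 (nd3.2 ⟨m1, m2, m4⟩) (nd3.2 ⟨n1, n2, n3⟩)
    have p1 := hd.smul t
    have p2 := hd'.smul t
    rw [ta, tb, tc] at p1 p2
    exact MulAction.injective t (uniqF h K f cx ha1 hb1 hc1 p1 p2)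
  haveI : Nonempty Ω := ⟨a0⟩
  choose! q hq using ex
  refine ⟨q, fun a b c hh => (hq a b c hh).1, fun a b c hh => ?_, fun a b c hh => ?_, fun a b c hh => ?_,
    fun g a b c hh => ?_⟩
  · obtain ⟨m1, m2, m3⟩ := nd3.1 hh
    exact uq a b c _ _ (hq a b c hh) (hq b a c (nd3.2 ⟨m1.symm, m3, m2⟩)).sw1
  · obtain ⟨m1, m2, m3⟩ := nd3.1 hh
    exact uq a b c _ _ (hq a b c hh) (hq a c b (nd3.2 ⟨m2, m1, m3.symm⟩)).sw2
  · obtain ⟨m1, -, m3, -, m5, -⟩ := nd4.1 (hq a b c hh).1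
    exact uq a b (q a b c) _ _ (hq a b _ (nd3.2 ⟨m1, m3, m5⟩)) ((hq a b c hh).sw3 cx.t3)
  · obtain ⟨m1, m2, -, m4, -, -⟩ := nd4.1 ((hq a b c hh).smul g).1
    exact uq _ _ _ _ _ ((hq a b c hh).smul g) (hq _ _ _ (nd3.2 ⟨m1, m2, m4⟩))

end CL.Pro9
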