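/-
Project Pro9 (S3399): the parts CL2 and CL3.
-/
import Cfsg.Agent.Pro9.Defs

set_option autoImplicit false

namespace CL.Pro9

namespace cl2x

section
variable {G Ω : Type} [Group G] [MulAction G Ω] {q : Ω → Ω → Ω → Ω}

theorem nd3 {a b c : Ω} : [a, b, c].Nodup ↔ a ≠ b ∧ a ≠ c ∧ b ≠ c := by
  simp [and_assoc]

theorem nd4 {a b c d : Ω} : [a, b, c, d].Nodup ↔ a ≠ b ∧ a ≠ c ∧ a ≠ d ∧ b ≠ c ∧ b ≠ d ∧ c ≠ d := by
  simp [and_assoc]

theorem bool6 {a b c a' b' c' y y' : Prop} (p1 : y ↔ (a ↔ (b ↔ c))) (p2 : y' ↔ (a' ↔ (b' ↔ c')))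
    (hx : ¬ (a ↔ a')) (hz : ¬ ¬ (b ↔ b')) : ¬ (y ↔ y') ↔ ¬ ¬ (c ↔ c') := by
  rw [p1, p2]
  by_cases ha : a <;> by_cases hb : b <;> by_cases hc : c <;> by_cases ha' : a' <;> by_cases hb' : b' <;>
    by_cases hc' : c' <;> simp_all

theorem injOn (S : SQ G q) {x z : Ω} (hxz : x ≠ z) {A : Set Ω} (hA : ∀ w ∈ A, x ≠ w ∧ z ≠ w) :
    Set.InjOn (q x z) A := by
  intro u hu v hv h
  have h1 := S.inv x z u (nd3.2 ⟨hxz, (hA u hu).1, (hA u hu).2⟩)
  have h2 := S.inv x z v (nd3.2 ⟨hxz, (hA v hv).1, (hA v hv).2⟩)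
  rw [← h1, h, h2]

theorem mixed [Finite Ω] (S : SQ G q) {B : Set Ω}
    (hB : ∀ a ∈ B, ∀ b ∈ B, ∀ c ∈ B, [a, b, c].Nodup → q a b c ∈ B) (hc : Bᶜ.ncard ≤ B.ncard) {x z w : Ω}
    (hx : x ∈ B) (hz : z ∉ B) (hn : [x, z, w].Nodup) : q x z w ∈ B ↔ w ∉ B := by
  have hxz : x ≠ z := fun h => hz (h ▸ hx)
  have key : ∀ u ∈ B, x ≠ u → q x z u ∉ B := by
    intro u hu hxu hq
    have hzu : z ≠ u := fun h => hz (h ▸ hu)
    have h3 : [x, z, u].Nodup := nd3.2 ⟨hxz, hxu, hzu⟩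
    have h4 := nd4.1 (S.nd x z u h3)
    have h5 := hB x hx u hu _ hq (nd3.2 ⟨hxu, h4.2.2.1, h4.2.2.2.2.2⟩)
    rw [S.s2 x z u h3, S.inv x u z (nd3.2 ⟨hxu, hxz, hzu.symm⟩)] at h5
    exact hz h5
  constructor
  · intro h hw
    exact key w hw (nd3.1 hn).2.1 h
  · intro hw
    have hA : ∀ u ∈ B \ {x}, x ≠ u ∧ z ≠ u := fun u hu =>
      ⟨fun h => hu.2 h.symm, fun h => hz (h ▸ hu.1)⟩
    have hsub : q x z '' (B \ {x}) ⊆ Bᶜ \ {z} := by
      rintro _ ⟨u, hu, rfl⟩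
      refine ⟨key u hu.1 (hA u hu).1, fun h => ?_⟩
      exact (nd4.1 (S.nd x z u (nd3.2 ⟨hxz, (hA u hu).1, (hA u hu).2⟩))).2.2.2.2.1 h.symm
    have hcard : (Bᶜ \ {z}).ncard ≤ (q x z '' (B \ {x})).ncard := by
      rw [Set.ncard_image_of_injOn (injOn S hxz hA), Set.ncard_diff_singleton_of_mem hx,
        Set.ncard_diff_singleton_of_mem (show z ∈ Bᶜ from hz)]
      omega
    have heq := Set.eq_of_subset_of_ncard_le hsub hcard
    have hw' : w ∈ Bᶜ \ {z} := ⟨hw, fun h => (nd3.1 hn).2.2 h.symm⟩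
    rw [← heq] at hw'
    obtain ⟨u, hu, rfl⟩ := hw'
    rw [S.inv x z u (nd3.2 ⟨hxz, (hA u hu).1, (hA u hu).2⟩)]
    exact hu.1

theorem parity [Finite Ω] (S : SQ G q) {B : Set Ω}
    (hB : ∀ a ∈ B, ∀ b ∈ B, ∀ c ∈ B, [a, b, c].Nodup → q a b c ∈ B) (hc : Bᶜ.ncard ≤ B.ncard) {x z w : Ω}
    (hn : [x, z, w].Nodup) : q x z w ∈ B ↔ (x ∈ B ↔ (z ∈ B ↔ w ∈ B)) := by
  obtain ⟨hxz, hxw, hzw⟩ := nd3.1 hn
  by_cases hx : x ∈ B <;> by_cases hz : z ∈ B
  · by_cases hw : w ∈ B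
    · simpa [hx, hz, hw] using hB x hx z hz w hw hn
    · rw [S.s2 x z w hn, mixed S hB hc hx hw (nd3.2 ⟨hxw, hxz, hzw.symm⟩)]
      simp [hx, hz, hw]
  · rw [mixed S hB hc hx hz hn]
    simp [hx, hz]
  · rw [S.s1 x z w hn, mixed S hB hc hz hx (nd3.2 ⟨hxz.symm, hzw, hxw⟩)]
    simp [hx, hz]
  · by_cases hw : w ∈ B
    · rw [S.s2 x z w hn, S.s1 x w z (nd3.2 ⟨hxw, hxz, hzw.symm⟩),
        mixed S hB hc hw hx (nd3.2 ⟨hxw.symm, hzw.symm, hxz⟩)]
      simp [hx, hz, hw]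
    · have h4 := nd4.1 (S.nd x z w hn)
      have : q x z w ∉ B := by
        intro hy
        have h1 := S.inv x z w hn
        set y := q x z w with hy'
        rw [S.s2 x z y (nd3.2 ⟨hxz, h4.2.2.1, h4.2.2.2.2.1⟩),
          S.s1 x y z (nd3.2 ⟨h4.2.2.1, hxz, h4.2.2.2.2.1.symm⟩)] at h1
        have h2 := (mixed S hB hc hy hx (nd3.2 ⟨h4.2.2.1.symm, h4.2.2.2.2.1.symm, hxz⟩)).2 hz
        rw [h1] at h2
        exact hw h2
      simp [hx, hz, hw, this]

theorem closed (S : SQ G q) (K : Subgroup G) (g : G) :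
    ∀ a ∈ {z : Ω | g⁻¹ • z ∈ Fx Ω K}, ∀ b ∈ {z : Ω | g⁻¹ • z ∈ Fx Ω K}, ∀ c ∈ {z : Ω | g⁻¹ • z ∈ Fx Ω K},
      [a, b, c].Nodup → q a b c ∈ {z : Ω | g⁻¹ • z ∈ Fx Ω K} := by
  intro a ha b hb c hc hn k hk
  obtain ⟨h1, h2, h3⟩ := nd3.1 hn
  have hn' : [g⁻¹ • a, g⁻¹ • b, g⁻¹ • c].Nodup :=
    nd3.2 ⟨fun h => h1 (MulAction.injective _ h), fun h => h2 (MulAction.injective _ h),
      fun h => h3 (MulAction.injective _ h)⟩
  rw [S.eqv g⁻¹ a b c hn, S.eqv k _ _ _ hn', ha k hk, hb k hk, hc k hk]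

theorem card_block (P : Set Ω) (g : G) : {z : Ω | g⁻¹ • z ∈ P}.ncard = P.ncard := by
  have : {z : Ω | g⁻¹ • z ∈ P} = (fun z => g • z) '' P := by
    ext z
    constructor
    · intro h
      exact ⟨g⁻¹ • z, h, by simp⟩
    · rintro ⟨y, hy, rfl⟩
      simpa using hy
  rw [this, Set.ncard_image_of_injective _ (MulAction.injective g)]

theorem trans_of {f : ℕ} [Finite Ω] (h3 : T3 G Ω) (hc : Nat.card Ω = 2 * f) (hf : 4 ≤ f) (a b : Ω) :
    ∃ g : G, g • a = b := by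
  have ext : ∀ a : Ω, ∃ c d : Ω, [a, c, d].Nodup := by
    intro a
    have h1 : 1 < ({a}ᶜ : Set Ω).ncard := by
      have := Set.ncard_add_ncard_compl ({a} : Set Ω)
      rw [Set.ncard_singleton] at this
      omega
    obtain ⟨c, hc', d, hd, hcd⟩ := (Set.one_lt_ncard (Set.toFinite _)).1 h1
    exact ⟨c, d, nd3.2 ⟨fun h => hc' h.symm, fun h => hd h.symm, hcd⟩⟩
  obtain ⟨c, d, h1⟩ := ext a
  obtain ⟨c', d', h2⟩ := ext b
  obtain ⟨g, hg, -⟩ := h3 a c d b c' d' h1 h2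
  exact ⟨g, hg⟩
end

end cl2x

open cl2x

theorem cl2 (h : STB) : CL2 := by
  intro G Ω _ _ _ _ K f q C S g
  set F := Fx Ω K with hF
  set B : Set Ω := {z : Ω | g⁻¹ • z ∈ F} with hB
  have hFc : F.ncard = f := C.fix
  have hBc : B.ncard = f := by rw [hB, card_block, hFc]
  have hF2 : Fᶜ.ncard ≤ F.ncard := by
    have := Set.ncard_add_ncard_compl F
    have := C.card
    omega
  have hB2 : Bᶜ.ncard ≤ B.ncard := by
    have := Set.ncard_add_ncard_compl B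
    have := C.card
    omega
  have clF : ∀ a ∈ F, ∀ b ∈ F, ∀ c ∈ F, [a, b, c].Nodup → q a b c ∈ F := by
    have := closed S K (1 : G)
    simpa using this
  have clB : ∀ a ∈ B, ∀ b ∈ B, ∀ c ∈ B, [a, b, c].Nodup → q a b c ∈ B := closed S K g
  set Z : Set Ω := {y | ¬ (y ∈ F ↔ y ∈ B)} with hZ
  have hj : jj F g = (B \ F).ncard := by
    unfold jj
    congr 1
    ext z
    exact ⟨fun h => ⟨h.2, h.1⟩, fun h => ⟨h.2, h.1⟩⟩
  have hZc : Z.ncard = 2 * jj F g := by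
    have e1 : Z = (B \ F) ∪ (F \ B) := by
      ext y
      simp only [hZ, Set.mem_setOf_eq, Set.mem_union, Set.mem_diff]
      tauto
    have e2 : (F \ B).ncard = (B \ F).ncard := by
      have a1 := Set.ncard_inter_add_ncard_diff_eq_ncard F B
      have a2 := Set.ncard_inter_add_ncard_diff_eq_ncard B F
      rw [Set.inter_comm] at a2
      omega
    rw [e1, Set.ncard_union_eq (Set.disjoint_left.2 fun y h1 h2 => h1.2 h2.1), e2, hj]
    ring
  by_cases h0 : ∃ x, x ∈ Z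
  · by_cases h1 : ∃ z, z ∉ Z
    · right
      obtain ⟨x, hx⟩ := h0
      obtain ⟨z, hz⟩ := h1
      have hxz : x ≠ z := fun e => hz (e ▸ hx)
      have par : ∀ w, x ≠ w → z ≠ w → (q x z w ∈ Z ↔ w ∉ Z) := by
        intro w hxw hzw
        have hn : [x, z, w].Nodup := nd3.2 ⟨hxz, hxw, hzw⟩
        have p1 := parity S clF hF2 hn
        have p2 := parity S clB hB2 hn
        exact bool6 p1 p2 hx hz
      have hA : ∀ u ∈ Z \ {x}, x ≠ u ∧ z ≠ u := fun u hu => ⟨fun e => hu.2 e.symm, fun e => hz (e ▸ hu.1)⟩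
      have heq : q x z '' (Z \ {x}) = Zᶜ \ {z} := by
        ext w
        constructor
        · rintro ⟨u, hu, rfl⟩
          refine ⟨fun e => (par u (hA u hu).1 (hA u hu).2).1 e hu.1, fun e => ?_⟩
          exact (nd4.1 (S.nd x z u (nd3.2 ⟨hxz, (hA u hu).1, (hA u hu).2⟩))).2.2.2.2.1 e.symm
        · intro hw
          have hxw : x ≠ w := fun e => hw.1 (e ▸ hx)
          have hzw : z ≠ w := fun e => hw.2 e.symm
          have hn : [x, z, w].Nodup := nd3.2 ⟨hxz, hxw, hzw⟩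
          exact ⟨q x z w, ⟨(par w hxw hzw).2 hw.1, fun e => (nd4.1 (S.nd x z w hn)).2.2.1 e.symm⟩, S.inv x z w hn⟩
      have c1 := Set.ncard_image_of_injOn (injOn S hxz hA)
      rw [heq, Set.ncard_diff_singleton_of_mem hx, Set.ncard_diff_singleton_of_mem (show z ∈ Zᶜ from hz)] at c1
      have c2 := Set.ncard_add_ncard_compl Z
      have c3 : 0 < Z.ncard := (Set.ncard_pos (Set.toFinite _)).2 ⟨x, hx⟩
      have c4 : 0 < Zᶜ.ncard := (Set.ncard_pos (Set.toFinite _)).2 ⟨z, hz⟩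
      have := C.card
      omega
    · exfalso
      have hall : ∀ y, ¬ (y ∈ F ↔ y ∈ B) := fun y => by
        by_contra e
        exact h1 ⟨y, fun e' => e' e⟩
      have st := h G Ω K g C.pro (by
        intro k hk z hz
        have hzF : z ∉ F := fun e => hall z ⟨fun _ => hz, fun _ => e⟩
        have hkF : k • z ∉ F := by
          intro e
          have e2 := e k⁻¹ (K.inv_mem hk)
          rw [inv_smul_smul] at e2
          exact hzF (e2 ▸ e)
        by_contra e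
        exact hall (k • z) ⟨fun e' => absurd e' hkF, fun e' => absurd e' e⟩)
      obtain ⟨x, -⟩ := h0
      exact hall x (st x).symm
  · left
    have : Z.ncard = 0 := by
      rw [Set.ncard_eq_zero]
      ext y
      exact ⟨fun e => h0 ⟨y, e⟩, fun e => e.elim⟩
    omega

theorem cl3 : CL3 := by
  intro G Ω _ _ _ _ K f C
  classical
  have : Fintype Ω := Fintype.ofFinite Ω
  set F := Fx Ω K with hF
  have hFc : F.ncard = f := C.fix
  have hf := C.four
  have hc := C.card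
  by_contra hcon
  have hle : ∀ g : G, 2 * jj F g ≤ f := fun g => by
    by_contra e
    exact hcon ⟨g, by omega⟩
  let N : Ω → ℕ := fun z => ∑ g : G, if g⁻¹ • z ∈ F then 1 else 0
  have hN : ∀ z z', N z = N z' := by
    intro z z'
    obtain ⟨u, rfl⟩ := trans_of C.t3 hc hf z z'
    refine Fintype.sum_equiv (Equiv.mulLeft u) _ _ fun g => ?_
    simp [mul_smul]
  have cnt : ∀ P : Set Ω, P.ncard = ∑ z : Ω, if z ∈ P then 1 else 0 := by
    intro P
    rw [Set.ncard_eq_toFinset_card', ← Finset.card_filter]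
    congr 1
    ext z
    simp
  have hne : Nonempty Ω := by
    rw [← Finite.card_pos_iff]
    omega
  obtain ⟨z0⟩ := hne
  have s1 : 2 * f * N z0 = Fintype.card G * f := by
    calc 2 * f * N z0 = ∑ _z : Ω, N z0 := by
          rw [Finset.sum_const, Finset.card_univ, ← Nat.card_eq_fintype_card, hc, smul_eq_mul]
      _ = ∑ z : Ω, N z := Finset.sum_congr rfl fun z _ => hN _ _
      _ = ∑ g : G, ∑ z : Ω, if g⁻¹ • z ∈ F then 1 else 0 := Finset.sum_comm
      _ = ∑ _g : G, f := Finset.sum_congr rfl fun g _ => by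
          rw [← hFc, ← card_block F g, cnt]
          rfl
      _ = Fintype.card G * f := by rw [Finset.sum_const, Finset.card_univ, smul_eq_mul]
  have s2 : ∑ g : G, jj F g = f * N z0 := by
    have hFc' : Fᶜ.ncard = f := by
      have := Set.ncard_add_ncard_compl F
      omega
    calc ∑ g : G, jj F g = ∑ g : G, ∑ z : Ω, if z ∉ F ∧ g⁻¹ • z ∈ F then 1 else 0 :=
          Finset.sum_congr rfl fun g _ => by
            unfold jj
            rw [cnt]
            refine Finset.sum_congr rfl fun z _ => ?_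
            simp only [Set.mem_setOf_eq]
      _ = ∑ z : Ω, ∑ g : G, if z ∉ F ∧ g⁻¹ • z ∈ F then 1 else 0 := Finset.sum_comm
      _ = ∑ z : Ω, (if z ∈ Fᶜ then 1 else 0) * N z0 := Finset.sum_congr rfl fun z _ => by
          rw [hN z0 z]
          by_cases hz : z ∈ F <;> simp [hz, N]
      _ = f * N z0 := by
          rw [← Finset.sum_mul, ← hFc', cnt]
          congr 1
          refine Finset.sum_congr rfl fun z _ => ?_
          by_cases hz : z ∈ Fᶜ <;> simp [hz]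
  have s3 : ∑ g : G, 2 * jj F g < ∑ _g : G, f := by
    refine Finset.sum_lt_sum (fun g _ => hle g) ⟨1, Finset.mem_univ _, ?_⟩
    have : jj F (1 : G) = 0 := by
      unfold jj
      rw [Set.ncard_eq_zero]
      ext z
      simp
    omega
  rw [← Finset.mul_sum, s2, Finset.sum_const, Finset.card_univ, smul_eq_mul, ← s1] at s3
  rw [mul_assoc] at s3
  exact lt_irrefl _ s3

end CL.Pro9
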