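/-
Project Pro9 (S3399): intersection numbers of the blocks (helper76).
-/
import Cfsg.Agent.Pro9.Defs

set_option autoImplicit false

namespace CL.Pro9

namespace cl2bx

section
variable {G Ω : Type} [Group G] [MulAction G Ω] {q : Ω → Ω → Ω → Ω}

theorem nd3 {a b c : Ω} : [a, b, c].Nodup ↔ a ≠ b ∧ a ≠ c ∧ b ≠ c := by simp [and_assoc]

theorem qne (h : SQ G q) {a b c : Ω} (n : [a, b, c].Nodup) : q a b c ≠ a ∧ q a b c ≠ b ∧ q a b c ≠ c := by
  have := h.nd a b c n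
  simp only [List.nodup_cons, List.mem_cons, List.not_mem_nil, or_false, not_or] at this
  exact ⟨fun e => this.1.2.2 e.symm, fun e => this.2.1.2 e.symm, fun e => this.2.2.1 e.symm⟩

/-- closed sets -/
def Cl (q : Ω → Ω → Ω → Ω) (B : Set Ω) : Prop := ∀ a ∈ B, ∀ b ∈ B, ∀ c ∈ B, [a, b, c].Nodup → q a b c ∈ B

theorem nq (h : SQ G q) {a b c : Ω} (n : [a, b, c].Nodup) : [a, b, q a b c].Nodup :=
  nd3.2 ⟨(nd3.1 n).1, (qne h n).1.symm, (qne h n).2.1.symm⟩

/-- `q x w (q x z w) = z` -/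
theorem back (h : SQ G q) {x z w : Ω} (n : [x, z, w].Nodup) : q x w (q x z w) = z := by
  obtain ⟨n1, n2, n3⟩ := nd3.1 n
  rw [h.s2 x z w n]; exact h.inv x w z (nd3.2 ⟨n2, n1, n3.symm⟩)

/-- a set that is exchanged with its complement by `q x z` has half the points -/
theorem half [Finite Ω] (h : SQ G q) {Z : Set Ω} {x z : Ω} (hx : x ∈ Z) (hz : z ∉ Z)
    (k : ∀ w, [x, z, w].Nodup → (q x z w ∈ Z ↔ w ∉ Z)) : Z.ncard = Zᶜ.ncard := by
  have xz : x ≠ z := fun e => hz (e ▸ hx)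
  have b : Set.BijOn (q x z) (Z \ {x}) (Zᶜ \ {z}) := by
    have n1 : ∀ w ∈ Z \ {x}, [x, z, w].Nodup := fun w hw =>
      nd3.2 ⟨xz, fun e => hw.2 e.symm, fun e => hz (e ▸ hw.1)⟩
    have n2 : ∀ w ∈ Zᶜ \ {z}, [x, z, w].Nodup := fun w hw =>
      nd3.2 ⟨xz, fun e => hw.1 (e ▸ hx), fun e => hw.2 e.symm⟩
    refine Set.InvOn.bijOn (f' := q x z) ⟨fun w hw => h.inv _ _ _ (n1 w hw), fun w hw => h.inv _ _ _ (n2 w hw)⟩
      (fun w hw => ⟨fun e => (k w (n1 w hw)).1 e hw.1, (qne h (n1 w hw)).2.1⟩)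
      fun w hw => ⟨(k w (n2 w hw)).2 hw.1, (qne h (n2 w hw)).1⟩
  have e := b.ncard_eq
  rw [← Set.ncard_sdiff_singleton_add_one hx, ← Set.ncard_sdiff_singleton_add_one (show z ∈ Zᶜ from hz), e]

theorem mixed [Finite Ω] (h : SQ G q) {B : Set Ω} (hB : Cl q B) (hc : B.ncard = Bᶜ.ncard) {x z w : Ω} (hx : x ∈ B)
    (hz : z ∉ B) (n : [x, z, w].Nodup) : q x z w ∈ B ↔ w ∉ B := by
  have xz : x ≠ z := fun e => hz (e ▸ hx)
  have n1 : ∀ w ∈ B \ {x}, [x, z, w].Nodup := fun w hw =>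
    nd3.2 ⟨xz, fun e => hw.2 e.symm, fun e => hz (e ▸ hw.1)⟩
  have m : ∀ w ∈ B \ {x}, q x z w ∈ Bᶜ \ {z} := fun w hw => ⟨fun e => hz (by
    have k := n1 w hw
    rw [← back h k]
    exact hB _ hx _ hw.1 _ e (nd3.2 ⟨(nd3.1 k).2.1, (qne h k).1.symm, (qne h k).2.2.symm⟩)), (qne h (n1 w hw)).2.1⟩
  refine ⟨fun e hw => (m w ⟨hw, fun l => (nd3.1 n).2.1 (Eq.symm l)⟩).1 e, fun hw => ?_⟩
  have inj : Set.InjOn (q x z) (B \ {x}) := fun a ha b hb e => by rw [← h.inv x z a (n1 a ha), e, h.inv x z b (n1 b hb)]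
  have im : q x z '' (B \ {x}) = Bᶜ \ {z} := by
    refine Set.eq_of_subset_of_ncard_le (by rintro _ ⟨a, ha, rfl⟩; exact m a ha) ?_
    rw [inj.ncard_image]
    have e1 := Set.ncard_sdiff_singleton_add_one hx
    have e2 := Set.ncard_sdiff_singleton_add_one (show z ∈ Bᶜ from hz)
    omega
  obtain ⟨a, ha, e⟩ := im.ge (show w ∈ Bᶜ \ {z} from ⟨hw, fun l => (nd3.1 n).2.2 (Eq.symm l)⟩)
  rw [← e, h.inv x z a (n1 a ha)]
  exact ha.1

/-- the parity rule -/
theorem par [Finite Ω] (h : SQ G q) {B : Set Ω} (hB : Cl q B) (hc : B.ncard = Bᶜ.ncard) {x z w : Ω}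
    (n : [x, z, w].Nodup) : q x z w ∈ B ↔ ((x ∈ B ↔ z ∈ B) ↔ w ∈ B) := by
  obtain ⟨n1, n2, n3⟩ := nd3.1 n
  have e1 : q x z w = q z x w := h.s1 _ _ _ n
  have e2 : q x z w = q w x z := by
    rw [h.s2 _ _ _ n, h.s1 x w z (nd3.2 ⟨n2, n1, n3.symm⟩)]
  have e3 : q x z w = q x w z := h.s2 _ _ _ n
  by_cases hx : x ∈ B <;> by_cases hz : z ∈ B
  · by_cases hw : w ∈ B
    · simp [hx, hz, hw, hB x hx z hz w hw n]
    · have := mixed h hB hc hx hw (nd3.2 ⟨n2, n1, n3.symm⟩)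
      rw [e3, this]; simp [hx, hz, hw]
  · rw [mixed h hB hc hx hz n]; simp [hx, hz]
  · rw [e1, mixed h hB hc hz hx (nd3.2 ⟨n1.symm, n3, n2⟩)]; simp [hx, hz]
  · by_cases hw : w ∈ B
    · rw [e2, mixed h hB hc hw hx (nd3.2 ⟨n2.symm, n3.symm, n1⟩)]; simp [hx, hz, hw]
    · have : q x z w ∉ B := fun e => by
        have k := nq h n
        obtain ⟨k1, k2, k3⟩ := nd3.1 k
        have l := (mixed h hB hc e hx (nd3.2 ⟨k2.symm, k3.symm, k1⟩)).2 hz
        rw [← h.s1 x _ z (nd3.2 ⟨k2, k1, k3.symm⟩), ← h.s2 x z _ k, h.inv x z w n] at l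
        exact hw l
      simp [hx, hz, hw, this]

theorem prp (a b c d e f : Prop) (h1 : ¬ (a ↔ b)) (h2 : ¬ ¬ (c ↔ d)) :
    ¬ (((a ↔ c) ↔ e) ↔ ((b ↔ d) ↔ f)) ↔ ¬ ¬ (e ↔ f) := by
  by_cases a <;> by_cases b <;> by_cases c <;> by_cases d <;> by_cases e <;> by_cases f <;> simp_all

/-- the block `g F` -/
def Bk (P : Set Ω) (g : G) : Set Ω := {z | g⁻¹ • z ∈ P}

theorem Bk_card (P : Set Ω) (g : G) : (Bk P g).ncard = P.ncard := by
  have : Bk P g = (fun z => g • z) '' P := Set.ext fun z =>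
    ⟨fun e => ⟨_, e, smul_inv_smul g z⟩, by rintro ⟨a, ha, rfl⟩; simpa [Bk] using ha⟩
  rw [this, Set.ncard_image_of_injective _ (MulAction.injective g)]

theorem Bk_cl (h : SQ G q) (K : Subgroup G) (g : G) : Cl q (Bk (Fx Ω K) g) := fun a ha b hb c hc n k hk => by
  have n' : [g⁻¹ • a, g⁻¹ • b, g⁻¹ • c].Nodup := by simpa [and_assoc] using nd3.1 n
  rw [h.eqv _ _ _ _ n, h.eqv _ _ _ _ n', ha k hk, hb k hk, hc k hk]
end

end cl2bx

open cl2bx in
theorem cl2b (h : STB) : CL2 := by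
  intro G Ω _ _ _ _ K f q cx sq g
  have c0 : ∀ B : Set Ω, B.ncard = f → B.ncard = Bᶜ.ncard := fun B e => by
    have := Set.ncard_add_ncard_compl B
    rw [cx.card] at this; omega
  have e1 : Bk (Fx Ω K) (1 : G) = Fx Ω K := Set.ext fun z => by simp [Bk]
  have pF := fun x z w => par (x := x) (z := z) (w := w) sq (e1 ▸ Bk_cl sq K 1) (c0 _ cx.fix)
  have cB := (Bk_card (Fx Ω K) g).trans cx.fix
  have pB := fun x z w => par (x := x) (z := z) (w := w) sq (Bk_cl sq K g) (c0 _ cB)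
  have cF := cx.fix
  have st : (∀ k ∈ K, ∀ z : Ω, z ∈ Bk (Fx Ω K) g → k • z ∈ Bk (Fx Ω K) g) →
      ∀ z : Ω, z ∈ Bk (Fx Ω K) g ↔ z ∈ Fx Ω K := h G Ω K g cx.pro
  have mF : ∀ k ∈ K, ∀ z : Ω, k • z ∈ Fx Ω K → z ∈ Fx Ω K := fun k hk z m => by
    have e := m k⁻¹ (K.inv_mem hk)
    rw [inv_smul_smul] at e
    exact e ▸ m
  have hj : jj (Fx Ω K) g = (Bk (Fx Ω K) g \ Fx Ω K).ncard := congrArg Set.ncard (Set.ext fun z => and_comm)
  have cc := cx.card
  clear cx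
  generalize jj (Fx Ω K) g = j at *
  generalize Bk (Fx Ω K) g = B at *
  clear e1
  generalize Fx Ω K = F at *
  have d1 := Set.ncard_inter_add_ncard_sdiff_eq_ncard B F
  have d2 := Set.ncard_inter_add_ncard_sdiff_eq_ncard F B
  rw [Set.inter_comm] at d2
  have hZ : ((B \ F) ∪ (F \ B)).ncard = 2 * j := by
    rw [Set.ncard_union_eq disjoint_sdiff_sdiff, hj]; omega
  have mZ : ∀ w, w ∈ (B \ F) ∪ (F \ B) ↔ ¬ (w ∈ B ↔ w ∈ F) := fun w => by
    simp only [Set.mem_union, Set.mem_sdiff]; tauto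
  generalize (B \ F) ∪ (F \ B) = Z at *
  by_cases h1 : ∃ x, x ∈ Z
  swap
  · left
    rw [Set.eq_empty_of_forall_notMem (not_exists.1 h1), Set.ncard_empty] at hZ
    omega
  by_cases h2 : ∃ z, z ∉ Z
  swap
  · exfalso
    have a : ∀ w, ¬ (w ∈ B ↔ w ∈ F) := fun w => (mZ w).1 (not_not.1 fun e => h2 ⟨w, e⟩)
    obtain ⟨x, -⟩ := h1
    refine a x (st (fun k hk z hz => ?_) x)
    by_contra nb
    exact a z (iff_of_true hz (mF k hk z (by_contra fun e => a (k • z) (iff_of_false nb e))))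
  obtain ⟨x, hx⟩ := h1
  obtain ⟨z, hz⟩ := h2
  have := half sq hx hz fun w n => by
    have a := pF x z w n
    have b := pB x z w n
    rw [mZ] at hx hz
    rw [mZ, mZ, a, b]
    exact prp _ _ _ _ _ _ hx hz
  have e := Set.ncard_add_ncard_compl Z
  rw [cc] at e
  right; omega

theorem cl3b : CL3 := by
  classical
  intro G Ω _ _ _ _ K f cx
  have := Fintype.ofFinite Ω
  by_contra! n
  have f4 := cx.four
  -- transitivity
  have tr : ∀ x y : Ω, ∃ g : G, g • x = y := fun x y => by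
    have ex : ∀ a : Ω, ∃ b c, [a, b, c].Nodup := fun a => by
      have h3 : 2 < (Finset.univ.erase a).card := by
        rw [Finset.card_erase_of_mem (Finset.mem_univ a), Finset.card_univ, ← Nat.card_eq_fintype_card, cx.card]; omega
      obtain ⟨b, hb, c, hc, bc⟩ := Finset.one_lt_card.1 (by omega : 1 < (Finset.univ.erase a).card)
      exact ⟨b, c, cl2bx.nd3.2 ⟨(Finset.ne_of_mem_erase hb).symm, (Finset.ne_of_mem_erase hc).symm, bc⟩⟩
    obtain ⟨b, c, h1⟩ := ex x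
    obtain ⟨b', c', h2⟩ := ex y
    obtain ⟨g, e, -⟩ := cx.t3 _ _ _ _ _ _ h1 h2
    exact ⟨g, e⟩
  set F := Fx Ω K with hF
  -- the number of blocks through a point is constant
  let N : Ω → ℕ := fun z => (Finset.univ.filter fun g : G => g⁻¹ • z ∈ F).card
  have hN : ∀ z w, N z = N w := fun z w => by
    obtain ⟨t, rfl⟩ := tr z w
    exact Finset.card_bij (fun g _ => t * g) (fun g hg => by simpa [mul_smul] using hg)
      (fun a _ b _ e => mul_left_cancel e) fun g hg => ⟨t⁻¹ * g, by simpa [mul_smul] using hg, by simp⟩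
  have dc : ∀ S : Finset Ω, ∑ g : G, (S.filter fun z => g⁻¹ • z ∈ F).card = ∑ z ∈ S, N z := fun S => by
    simp only [N, Finset.card_filter]
    exact Finset.sum_comm
  obtain ⟨z0⟩ : Nonempty Ω := (Nat.card_pos_iff.1 (by rw [cx.card]; omega)).1
  have s1 : Fintype.card G * f = 2 * f * N z0 := by
    have := dc Finset.univ
    rw [Finset.sum_congr rfl fun z _ => hN z z0, Finset.sum_const, Finset.card_univ, ← Nat.card_eq_fintype_card,
      cx.card, smul_eq_mul] at this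
    rw [← this, Finset.sum_congr rfl (g := fun _ => f) fun g _ => ?_, Finset.sum_const, Finset.card_univ, smul_eq_mul]
    rw [← cx.fix, ← cl2bx.Bk_card F g, ← Set.ncard_coe_finset]
    congr 1; ext z; simp [cl2bx.Bk]
  have s2 : ∑ g : G, jj F g = f * N z0 := by
    have := dc (Finset.univ.filter fun z => z ∉ F)
    rw [Finset.sum_congr rfl fun z _ => hN z z0, Finset.sum_const, smul_eq_mul] at this
    have c : (Finset.univ.filter fun z => z ∉ F).card = f := by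
      have e := Set.ncard_add_ncard_compl F
      rw [cx.card, cx.fix] at e
      rw [← Set.ncard_coe_finset, show ((Finset.univ.filter fun z => z ∉ F : Finset Ω) : Set Ω) = Fᶜ by ext; simp]
      omega
    rw [← c, ← this]
    refine Finset.sum_congr rfl fun g _ => ?_
    rw [jj, ← Set.ncard_coe_finset]
    congr 1; ext z; simp
  have lt : ∑ g : G, 2 * jj F g < ∑ _g : G, f := by
    refine Finset.sum_lt_sum (fun g _ => n g) ⟨1, Finset.mem_univ _, ?_⟩
    have : jj F (1 : G) = 0 := by rw [jj]; simp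
    omega
  rw [← Finset.mul_sum, s2, Finset.sum_const, Finset.card_univ, smul_eq_mul, s1, mul_assoc] at lt
  exact lt_irrefl _ lt

end CL.Pro9
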