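/-
Project Pro9: a second proof of CL2 and CL3.
-/
import Cfsg.Agent.Pro9.Defs

set_option autoImplicit false

namespace CL.Pro9
namespace cl2h

section
variable {G Ω : Type} [Group G] [MulAction G Ω]

theorem nd3 {a b c : Ω} : [a, b, c].Nodup ↔ a ≠ b ∧ a ≠ c ∧ b ≠ c := by
  simp [List.nodup_cons, and_assoc]

theorem nd4 {a b c d : Ω} : [a, b, c, d].Nodup ↔ a ≠ b ∧ a ≠ c ∧ a ≠ d ∧ b ≠ c ∧ b ≠ d ∧ c ≠ d := by
  simp [List.nodup_cons, and_assoc]

/-- a flip between `Z \ {x}` and `Zᶜ \ {z}` -/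
theorem inj_on {q : Ω → Ω → Ω → Ω} (h : SQ G q) {x z : Ω} (hxz : x ≠ z) (S : Set Ω)
    (hS : ∀ w ∈ S, w ≠ x ∧ w ≠ z) : Set.InjOn (q x z) S := by
  intro u hu v hv e
  have h1 := h.inv x z u (nd3.2 ⟨hxz, (hS u hu).1.symm, (hS u hu).2.symm⟩)
  have h2 := h.inv x z v (nd3.2 ⟨hxz, (hS v hv).1.symm, (hS v hv).2.symm⟩)
  rw [← h1, e, h2]

theorem mixed [Finite Ω] {q : Ω → Ω → Ω → Ω} (h : SQ G q) (B : Set Ω) (hB : B.ncard = Bᶜ.ncard)
    (hc : ∀ a ∈ B, ∀ b ∈ B, ∀ c ∈ B, [a, b, c].Nodup → q a b c ∈ B) {x z w : Ω} (hx : x ∈ B) (hz : z ∉ B)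
    (hw1 : w ≠ x) (hw2 : w ≠ z) : q x z w ∈ B ↔ w ∉ B := by
  have hxz : x ≠ z := fun e => hz (e ▸ hx)
  have key : ∀ u ∈ B \ {x}, q x z u ∈ Bᶜ \ {z} := by
    rintro u ⟨hu, hux⟩
    have hux' : u ≠ x := hux
    have huz : u ≠ z := fun e => hz (e ▸ hu)
    have n1 : [x, z, u].Nodup := nd3.2 ⟨hxz, hux'.symm, huz.symm⟩
    have n2 : [x, u, z].Nodup := nd3.2 ⟨hux'.symm, hxz, huz⟩
    have n4 := nd4.1 (h.nd x z u n1)
    refine ⟨fun hq => hz ?_, fun e => n4.2.2.2.2.1 (Set.mem_singleton_iff.1 e).symm⟩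
    have := hc x hx u hu _ hq (nd3.2 ⟨hux'.symm, n4.2.2.1, n4.2.2.2.2.2⟩)
    rwa [h.s2 x z u n1, h.inv x u z n2] at this
  constructor
  · intro hq hw
    exact (key w ⟨hw, hw1⟩).1 hq
  · intro hw
    have hinj : Set.InjOn (q x z) (B \ {x}) :=
      inj_on h hxz _ (fun u hu => ⟨hu.2, fun e => hz (e ▸ hu.1)⟩)
    have hcard : (Bᶜ \ {z}).ncard ≤ (B \ {x}).ncard := by
      rw [Set.ncard_sdiff_singleton_of_mem hx, Set.ncard_sdiff_singleton_of_mem (show z ∈ Bᶜ from hz), hB]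
    have himg : q x z '' (B \ {x}) = Bᶜ \ {z} := by
      refine Set.eq_of_subset_of_ncard_le ?_ ?_ (Set.toFinite _)
      · rintro _ ⟨u, hu, rfl⟩
        exact key u hu
      · rw [hinj.ncard_image]; exact hcard
    have : w ∈ q x z '' (B \ {x}) := himg ▸ ⟨hw, hw2⟩
    obtain ⟨u, hu, rfl⟩ := this
    have huz : u ≠ z := fun e => hz (e ▸ hu.1)
    rw [h.inv x z u (nd3.2 ⟨hxz, (show u ≠ x from hu.2).symm, huz.symm⟩)]
    exact hu.1

theorem parity [Finite Ω] {q : Ω → Ω → Ω → Ω} (h : SQ G q) (B : Set Ω) (hB : B.ncard = Bᶜ.ncard)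
    (hc : ∀ a ∈ B, ∀ b ∈ B, ∀ c ∈ B, [a, b, c].Nodup → q a b c ∈ B) {x z w : Ω} (n1 : [x, z, w].Nodup) :
    q x z w ∈ B ↔ ((x ∈ B ↔ z ∈ B) ↔ w ∈ B) := by
  obtain ⟨hxz, hxw, hzw⟩ := nd3.1 n1
  have n4 := nd4.1 (h.nd x z w n1)
  have e1 : q x z w = q z x w := h.s1 x z w n1
  have e2 : q x z w = q x w z := h.s2 x z w n1
  have e3 : q x z w = q w x z := by rw [e2]; exact h.s1 x w z (nd3.2 ⟨hxw, hxz, hzw.symm⟩)
  by_cases hx : x ∈ B <;> by_cases hz : z ∈ B
  · by_cases hw : w ∈ B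
    · simp only [hx, hz, hw, iff_true]
      exact hc x hx z hz w hw n1
    · have := mixed h B hB hc hx hw hxz.symm hzw
      rw [← e2] at this
      tauto
  · have := mixed h B hB hc hx hz hxw.symm hzw.symm
    tauto
  · have := mixed h B hB hc hz hx hzw.symm hxw.symm
    rw [← e1] at this
    tauto
  · by_cases hw : w ∈ B
    · have := mixed h B hB hc hw hx hzw hxz.symm
      rw [← e3] at this
      tauto
    · have hd : q x z w ∉ B := by
        intro hd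
        have := mixed h B hB hc hd hx (w := z) n4.2.2.2.2.1 hxz.symm
        have e4 : q (q x z w) x z = w := by
          rw [h.s1 _ x z (nd3.2 ⟨n4.2.2.1.symm, n4.2.2.2.2.1.symm, hxz⟩),
            h.s2 x _ z (nd3.2 ⟨n4.2.2.1, hxz, n4.2.2.2.2.1.symm⟩), h.inv x z w n1]
        rw [e4] at this
        exact hw (this.2 hz)
      tauto

theorem lg (a b c d e f : Prop) (h1 : ¬ (a ↔ b)) (h2 : c ↔ d) :
    ¬ (((a ↔ c) ↔ e) ↔ ((b ↔ d) ↔ f)) ↔ ¬ ¬ (e ↔ f) := by
  by_cases a <;> by_cases b <;> by_cases c <;> by_cases d <;> by_cases e <;> by_cases f <;> simp_all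

theorem card_blk [Finite Ω] (P : Set Ω) (g : G) : {z | g⁻¹ • z ∈ P}.ncard = P.ncard := by
  have : {z | g⁻¹ • z ∈ P} = (fun z => g • z) '' P := by
    ext z
    constructor
    · intro hz
      exact ⟨_, hz, smul_inv_smul g z⟩
    · rintro ⟨y, hy, rfl⟩
      show g⁻¹ • g • y ∈ P
      rwa [inv_smul_smul]
  rw [this, Set.ncard_image_of_injective _ (MulAction.injective g)]

theorem compl_card [Finite Ω] (P : Set Ω) (f : ℕ) (h1 : Nat.card Ω = 2 * f) (h2 : P.ncard = f) : Pᶜ.ncard = f := by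
  have := Set.ncard_add_ncard_compl P
  omega

end

end cl2h

open cl2h

theorem cl2h.cl2 (h : STB) : CL2 := by
  intro G Ω _ _ _ _ K f q hX hq g
  set F := Fx Ω K with hF
  set B : Set Ω := {z | g⁻¹ • z ∈ F} with hB
  have cF : F.ncard = f := hX.fix
  have cB : B.ncard = f := by rw [hB, card_blk, cF]
  have cF' := compl_card F f hX.card cF
  have cB' := compl_card B f hX.card cB
  have clF : ∀ a ∈ F, ∀ b ∈ F, ∀ c ∈ F, [a, b, c].Nodup → q a b c ∈ F := by
    intro a ha b hb c hc n k hk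
    rw [hq.eqv k a b c n, ha k hk, hb k hk, hc k hk]
  have clB : ∀ a ∈ B, ∀ b ∈ B, ∀ c ∈ B, [a, b, c].Nodup → q a b c ∈ B := by
    intro a ha b hb c hc n
    show g⁻¹ • q a b c ∈ F
    rw [hq.eqv _ a b c n]
    refine clF _ ha _ hb _ hc ?_
    obtain ⟨h1, h2, h3⟩ := nd3.1 n
    exact nd3.2 ⟨fun e => h1 (MulAction.injective _ e), fun e => h2 (MulAction.injective _ e),
      fun e => h3 (MulAction.injective _ e)⟩
  have hj : jj F g = (B \ F).ncard := by
    unfold jj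
    congr 1
    ext z
    exact and_comm
  have hj' : (F \ B).ncard = (B \ F).ncard := by
    have h1 := Set.ncard_inter_add_ncard_sdiff_eq_ncard F B
    have h2 := Set.ncard_inter_add_ncard_sdiff_eq_ncard B F
    rw [Set.inter_comm] at h2
    omega
  set Z : Set Ω := (B \ F) ∪ (F \ B) with hZ
  have cZ : Z.ncard = 2 * jj F g := by
    rw [hZ, Set.ncard_union_eq (Set.disjoint_left.2 fun z h1 h2 => h1.2 h2.1), hj', hj]; ring
  have mZ : ∀ z, z ∈ Z ↔ ¬ (z ∈ B ↔ z ∈ F) := by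
    intro z
    simp only [hZ, Set.mem_union, Set.mem_sdiff]
    tauto
  by_cases h0 : ∃ x, x ∈ Z
  swap
  · left
    have : Z = ∅ := Set.eq_empty_iff_forall_notMem.2 fun x hx => h0 ⟨x, hx⟩
    rw [this, Set.ncard_empty] at cZ
    omega
  obtain ⟨x, hx⟩ := h0
  by_cases h1 : ∃ z, z ∉ Z
  swap
  · exfalso
    have hall : ∀ z, z ∈ B ↔ z ∉ F := by
      intro z
      have : z ∈ Z := by by_contra hz; exact h1 ⟨z, hz⟩
      have := (mZ z).1 this
      tauto
    have := h G Ω K g hX.pro (by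
      intro k hk z hz
      refine (hall (k • z)).2 fun hkz => (hall z).1 hz ?_
      have e := hkz k⁻¹ (K.inv_mem hk)
      rw [inv_smul_smul] at e
      rw [e]; exact hkz) x
    have h2 := hall x
    have h3 : x ∈ B ↔ x ∈ F := this
    tauto
  obtain ⟨z, hz⟩ := h1
  right
  have hxz : x ≠ z := fun e => hz (e ▸ hx)
  have flip : ∀ w, w ≠ x → w ≠ z → (q x z w ∈ Z ↔ w ∉ Z) := by
    intro w h1 h2
    have n : [x, z, w].Nodup := nd3.2 ⟨hxz, h1.symm, h2.symm⟩
    have p1 := parity hq F (cF.trans cF'.symm) clF n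
    have p2 := parity hq B (cB.trans cB'.symm) clB n
    have a1 := (mZ x).1 hx
    have a2 : z ∈ B ↔ z ∈ F := by by_contra hh; exact hz ((mZ z).2 hh)
    rw [mZ, mZ, p1, p2]
    exact lg _ _ _ _ _ _ a1 a2
  have ne : ∀ w, w ≠ x → w ≠ z → q x z w ≠ x ∧ q x z w ≠ z := by
    intro w h1 h2
    have n4 := nd4.1 (hq.nd x z w (nd3.2 ⟨hxz, h1.symm, h2.symm⟩))
    exact ⟨n4.2.2.1.symm, n4.2.2.2.2.1.symm⟩
  have l1 : (Z \ {x}).ncard ≤ (Zᶜ \ {z}).ncard := by
    refine Set.ncard_le_ncard_of_injOn (q x z) ?_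
      (inj_on hq hxz _ fun u hu => ⟨hu.2, fun e => hz (e ▸ hu.1)⟩)
    intro u hu
    have hu2 : u ≠ z := fun e => hz (e ▸ hu.1)
    exact ⟨fun hh => (flip u hu.2 hu2).1 hh hu.1, (ne u hu.2 hu2).2⟩
  have l2 : (Zᶜ \ {z}).ncard ≤ (Z \ {x}).ncard := by
    refine Set.ncard_le_ncard_of_injOn (q x z) ?_
      (inj_on hq hxz _ fun u hu => ⟨fun e => hu.1 (e ▸ hx), hu.2⟩)
    intro u hu
    have hu1 : u ≠ x := fun e => hu.1 (e ▸ hx)
    exact ⟨(flip u hu1 hu.2).2 hu.1, (ne u hu1 hu.2).1⟩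
  have s1 := Set.ncard_sdiff_singleton_add_one hx
  have s2 := Set.ncard_sdiff_singleton_add_one (show z ∈ Zᶜ from hz)
  have s3 := Set.ncard_add_ncard_compl Z
  have := hX.card
  omega

theorem cl2h.cl3 : CL3 := by
  intro G Ω _ _ _ _ K f hX
  classical
  let _inst : Fintype Ω := Fintype.ofFinite Ω
  set F := Fx Ω K with hF
  have cF : F.ncard = f := hX.fix
  have cF' := compl_card F f hX.card cF
  have f4 := hX.four
  let N : Ω → ℕ := fun z => ∑ g : G, if g⁻¹ • z ∈ F then 1 else 0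
  have tr : ∀ z z' : Ω, ∃ t : G, t • z = z' := by
    intro z z'
    have ex : ∀ u : Ω, ∃ v w : Ω, [u, v, w].Nodup := by
      intro u
      have : 1 < ({u}ᶜ : Set Ω).ncard := by
        have := Set.ncard_add_ncard_compl ({u} : Set Ω)
        rw [Set.ncard_singleton, hX.card] at this
        omega
      obtain ⟨v, w, hv, hw, hvw⟩ := (Set.one_lt_ncard_iff (Set.toFinite _)).1 this
      exact ⟨v, w, nd3.2 ⟨fun e => hv e.symm, fun e => hw e.symm, hvw⟩⟩
    obtain ⟨v, w, n⟩ := ex z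
    obtain ⟨v', w', n'⟩ := ex z'
    obtain ⟨t, ht, -⟩ := hX.t3 _ _ _ _ _ _ n n'
    exact ⟨t, ht⟩
  have cN : ∀ z z' : Ω, N z = N z' := by
    intro z z'
    obtain ⟨t, rfl⟩ := tr z z'
    refine Fintype.sum_equiv (Equiv.mulLeft t) _ _ fun g => ?_
    simp only [Equiv.coe_mulLeft, mul_inv_rev, mul_smul, inv_smul_smul]
  have cardΩ : Fintype.card Ω = 2 * f := by rw [← Nat.card_eq_fintype_card]; exact hX.card
  have : Nonempty Ω := Fintype.card_pos_iff.1 (by omega)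
  obtain ⟨z0⟩ := this
  have ind : ∀ S : Set Ω, (∑ z : Ω, if z ∈ S then 1 else 0) = S.ncard := by
    intro S
    rw [Finset.sum_boole, Set.ncard_eq_toFinset_card']
    simp only [Nat.cast_id]
    congr 1
    ext z
    simp
  have s1 : 2 * f * N z0 = Fintype.card G * f := by
    have a1 : ∑ z : Ω, N z = 2 * f * N z0 := by
      rw [Finset.sum_congr rfl fun z _ => cN z z0, Finset.sum_const, Finset.card_univ, cardΩ, smul_eq_mul]
    have a2 : ∑ z : Ω, N z = Fintype.card G * f := by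
      rw [Finset.sum_comm]
      have : ∀ g : G, (∑ z : Ω, if g⁻¹ • z ∈ F then 1 else 0) = f := by
        intro g
        have := ind {z | g⁻¹ • z ∈ F}
        rw [card_blk, cF] at this
        rw [← this]
        refine Finset.sum_congr rfl fun z _ => ?_
        by_cases h2 : g⁻¹ • z ∈ F <;> simp [h2]
      rw [Finset.sum_congr rfl fun g _ => this g, Finset.sum_const, Finset.card_univ, smul_eq_mul]
    rw [← a1, a2]
  have s2 : ∑ g : G, jj F g = f * N z0 := by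
    have : ∀ g : G, jj F g = ∑ z : Ω, if z ∈ Fᶜ then (if g⁻¹ • z ∈ F then 1 else 0) else 0 := by
      intro g
      unfold jj
      rw [← ind]
      refine Finset.sum_congr rfl fun z _ => ?_
      by_cases h1 : z ∈ F <;> by_cases h2 : g⁻¹ • z ∈ F <;> simp [h1, h2]
    rw [Finset.sum_congr rfl fun g _ => this g, Finset.sum_comm, ← cF', ← ind, Finset.sum_mul]
    refine Finset.sum_congr rfl fun z _ => ?_
    by_cases h1 : z ∈ Fᶜ
    · simp only [h1, if_true, one_mul]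
      exact cN z z0
    · simp [h1]
  by_contra hc
  push Not at hc
  have lt : ∑ g : G, 2 * jj F g < ∑ _g : G, f := by
    refine Finset.sum_lt_sum (fun g _ => hc g) ⟨1, Finset.mem_univ _, ?_⟩
    have : jj F (1 : G) = 0 := by
      unfold jj
      rw [Set.ncard_eq_zero (Set.toFinite _)]
      ext z
      simp
    omega
  rw [← Finset.mul_sum, s2, Finset.sum_const, Finset.card_univ, smul_eq_mul, ← s1, mul_assoc] at lt
  exact lt_irrefl _ lt

end CL.Pro9
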