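/-
Project Pro9 (S3399): counting elements with prescribed images in a four-transitive group.
-/
import Cfsg.Agent.Pro9.Defs

set_option autoImplicit false

namespace CL.Pro9

namespace cntx

theorem split {α β : Type} [Finite α] [Finite β] (A : Set α) (φ : α → β) (T : Set β) (m : ℕ)
    (hT : ∀ g ∈ A, φ g ∈ T) (hm : ∀ y ∈ T, {g | g ∈ A ∧ φ g = y}.ncard = m) : A.ncard = T.ncard * m := by
  classical
  have := Fintype.ofFinite α
  have := Fintype.ofFinite β
  rw [Set.ncard_eq_toFinset_card' A, Set.ncard_eq_toFinset_card' T,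
    Finset.card_eq_sum_card_fiberwise (f := φ) (s := A.toFinset) (t := T.toFinset)
      (fun g hg => by simpa using hT g (by simpa using hg))]
  rw [Finset.sum_congr rfl (g := fun _ => m), Finset.sum_const, smul_eq_mul]
  intro y hy
  rw [← hm y (by simpa using hy), Set.ncard_eq_toFinset_card']
  congr 1
  ext g
  simp

theorem ncard_out {Ω : Type} [Finite Ω] (l : List Ω) (hl : l.Nodup) :
    {z : Ω | z ∉ l}.ncard = Nat.card Ω - l.length := by
  classical
  have h1 : {z : Ω | z ∉ l} = ((l.toFinset : Finset Ω) : Set Ω)ᶜ := by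
    ext z; simp
  have h2 := Set.ncard_add_ncard_compl ((l.toFinset : Finset Ω) : Set Ω)
  rw [Set.ncard_coe_finset, List.toFinset_card_of_nodup hl] at h2
  rw [h1]; omega

theorem exists_out {Ω : Type} [Finite Ω] (l : List Ω) (hl : l.Nodup) (h : l.length < Nat.card Ω) :
    ∃ z : Ω, z ∉ l := by
  have h1 := ncard_out l hl
  have h2 : {z : Ω | z ∉ l}.ncard ≠ 0 := by omega
  exact Set.nonempty_of_ncard_ne_zero h2

end cntx

open cntx in
theorem cnt : CNT := by
  intro G Ω _ _ _ _ h4 hN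
  obtain ⟨a, -⟩ := exists_out ([] : List Ω) List.nodup_nil (by simp only [List.length_nil]; omega)
  obtain ⟨b, hb⟩ := exists_out [a] (by simp) (by simp only [List.length_cons, List.length_nil]; omega)
  have nab : [a, b].Nodup := by simp at hb ⊢; exact fun h => hb h.symm
  obtain ⟨c, hc⟩ := exists_out [a, b] nab (by simp only [List.length_cons, List.length_nil]; omega)
  have nabc : [a, b, c].Nodup := by
    simp at hb hc ⊢; exact ⟨⟨fun h => hb h.symm, fun h => hc.1 h.symm⟩, fun h => hc.2 h.symm⟩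
  obtain ⟨d, hd⟩ := exists_out [a, b, c] nabc (by simp only [List.length_cons, List.length_nil]; omega)
  have nabcd : [a, b, c, d].Nodup := by
    simp at hb hc hd ⊢
    exact ⟨⟨fun h => hb h.symm, fun h => hc.1 h.symm, fun h => hd.1 h.symm⟩,
      ⟨fun h => hc.2 h.symm, fun h => hd.2.1 h.symm⟩, fun h => hd.2.2 h.symm⟩
  set m := {g : G | g • a = a ∧ g • b = b ∧ g • c = c ∧ g • d = d}.ncard with hm
  have c4 : ∀ x₁ x₂ x₃ x₄ y₁ y₂ y₃ y₄ : Ω, [x₁, x₂, x₃, x₄].Nodup → [y₁, y₂, y₃, y₄].Nodup →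
      {g : G | g • x₁ = y₁ ∧ g • x₂ = y₂ ∧ g • x₃ = y₃ ∧ g • x₄ = y₄}.ncard = m := by
    intro x₁ x₂ x₃ x₄ y₁ y₂ y₃ y₄ hx hy
    obtain ⟨u, u1, u2, u3, u4⟩ := h4 _ _ _ _ _ _ _ _ nabcd hx
    obtain ⟨v, v1, v2, v3, v4⟩ := h4 _ _ _ _ _ _ _ _ nabcd hy
    have inj : Function.Injective (fun s : G => v * s * u⁻¹) := fun s t h => by simpa using h
    rw [hm, ← Set.ncard_image_of_injective {g : G | g • a = a ∧ g • b = b ∧ g • c = c ∧ g • d = d} inj]
    congr 1
    ext g
    simp only [Set.mem_ofPred_eq, Set.mem_image]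
    constructor
    · rintro ⟨g1, g2, g3, g4⟩
      refine ⟨v⁻¹ * g * u, ⟨?_, ?_, ?_, ?_⟩, by group⟩
      · rw [mul_smul, mul_smul, u1, g1, ← v1, inv_smul_smul]
      · rw [mul_smul, mul_smul, u2, g2, ← v2, inv_smul_smul]
      · rw [mul_smul, mul_smul, u3, g3, ← v3, inv_smul_smul]
      · rw [mul_smul, mul_smul, u4, g4, ← v4, inv_smul_smul]
    · rintro ⟨s, ⟨s1, s2, s3, s4⟩, rfl⟩
      refine ⟨?_, ?_, ?_, ?_⟩
      · rw [mul_smul, mul_smul, ← u1, inv_smul_smul, s1, v1]
      · rw [mul_smul, mul_smul, ← u2, inv_smul_smul, s2, v2]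
      · rw [mul_smul, mul_smul, ← u3, inv_smul_smul, s3, v3]
      · rw [mul_smul, mul_smul, ← u4, inv_smul_smul, s4, v4]
  have c3 : ∀ x₁ x₂ x₃ y₁ y₂ y₃ : Ω, [x₁, x₂, x₃].Nodup → [y₁, y₂, y₃].Nodup →
      {g : G | g • x₁ = y₁ ∧ g • x₂ = y₂ ∧ g • x₃ = y₃}.ncard = (Nat.card Ω - 3) * m := by
    intro x₁ x₂ x₃ y₁ y₂ y₃ hx hy
    obtain ⟨x, hx'⟩ := exists_out _ hx (by simp only [List.length_cons, List.length_nil]; omega)
    have e := ncard_out _ hy
    simp only [List.length_cons, List.length_nil] at e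
    rw [split {g : G | g • x₁ = y₁ ∧ g • x₂ = y₂ ∧ g • x₃ = y₃} (fun g => g • x) {z | z ∉ [y₁, y₂, y₃]} m, e]
    · rintro g ⟨rfl, rfl, rfl⟩
      simpa using hx'
    · intro y hy'
      rw [← c4 x₁ x₂ x₃ x y₁ y₂ y₃ y]
      · congr 1; ext g; simp only [Set.mem_ofPred_eq, and_assoc]
      · have := List.nodup_append.2 ⟨hx, List.nodup_singleton x, fun p hp q hq h => hx' (by
          rw [List.mem_singleton] at hq; rw [← hq, ← h]; exact hp)⟩
        exact this
      · have := List.nodup_append.2 ⟨hy, List.nodup_singleton y, fun p hp q hq h => hy' (by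
          rw [List.mem_singleton] at hq; rw [← hq, ← h]; exact hp)⟩
        exact this
  have c2 : ∀ x x' y y' : Ω, x ≠ x' → y ≠ y' →
      {g : G | g • x = y ∧ g • x' = y'}.ncard = (Nat.card Ω - 2) * ((Nat.card Ω - 3) * m) := by
    intro x₁ x₂ y₁ y₂ hx0 hy0
    have hx : [x₁, x₂].Nodup := by simpa using hx0
    have hy : [y₁, y₂].Nodup := by simpa using hy0
    obtain ⟨x, hx'⟩ := exists_out _ hx (by simp only [List.length_cons, List.length_nil]; omega)
    have e := ncard_out _ hy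
    simp only [List.length_cons, List.length_nil] at e
    rw [split {g : G | g • x₁ = y₁ ∧ g • x₂ = y₂} (fun g => g • x) {z | z ∉ [y₁, y₂]} ((Nat.card Ω - 3) * m), e]
    · rintro g ⟨rfl, rfl⟩
      simpa using hx'
    · intro y hy'
      rw [← c3 x₁ x₂ x y₁ y₂ y]
      · congr 1; ext g; simp only [Set.mem_ofPred_eq, and_assoc]
      · have := List.nodup_append.2 ⟨hx, List.nodup_singleton x, fun p hp q hq h => hx' (by
          rw [List.mem_singleton] at hq; rw [← hq, ← h]; exact hp)⟩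
        exact this
      · have := List.nodup_append.2 ⟨hy, List.nodup_singleton y, fun p hp q hq h => hy' (by
          rw [List.mem_singleton] at hq; rw [← hq, ← h]; exact hp)⟩
        exact this
  have c1 : ∀ x y : Ω,
      {g : G | g • x = y}.ncard = (Nat.card Ω - 1) * ((Nat.card Ω - 2) * ((Nat.card Ω - 3) * m)) := by
    intro x₁ y₁
    obtain ⟨x, hx'⟩ := exists_out [x₁] (by simp) (by simp only [List.length_cons, List.length_nil]; omega)
    have e := ncard_out [y₁] (by simp)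
    simp only [List.length_cons, List.length_nil] at e
    rw [split {g : G | g • x₁ = y₁} (fun g => g • x) {z | z ∉ [y₁]}
      ((Nat.card Ω - 2) * ((Nat.card Ω - 3) * m)), e]
    · rintro g rfl
      simpa using hx'
    · intro y hy'
      rw [← c2 x₁ x y₁ y]
      · rfl
      · intro h; exact hx' (by simp [h])
      · intro h; exact hy' (by simp [h])
  refine ⟨m, rfl, hN, ?_, ?_, c1, c2, c3, c4⟩
  · rw [hm, Set.ncard_pos]
    exact ⟨1, by simp⟩
  · rw [← Set.ncard_univ G, split (Set.univ : Set G) (fun g => g • a) Set.univ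
      ((Nat.card Ω - 1) * ((Nat.card Ω - 2) * ((Nat.card Ω - 3) * m))) (fun _ _ => trivial), Set.ncard_univ]
    intro y _
    rw [← c1 a y]
    congr 1; ext g; simp

end CL.Pro9
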