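/-
Project Pro9 (S3399): a set of deficiency one is doubly transitive.
-/
import Cfsg.Agent.Pro9.Defs

set_option autoImplicit false

namespace CL.Pro9

namespace extx
variable {G Ω : Type} [Group G] [MulAction G Ω]

theorem orb_inv {Y : Subgroup G} {b : Ω} : ∀ y ∈ Y, ∀ c ∈ orb Y b, y • c ∈ orb Y b :=
  fun y hy _ ⟨x, hx, e⟩ => ⟨y * x, Y.mul_mem hy hx, by rw [mul_smul, e]⟩

theorem orb_tr {Y : Subgroup G} {b : Ω} : Tr Y (orb Y b) :=
  ⟨orb_inv, fun _ ⟨x, hx, e⟩ _ ⟨y, hy, e'⟩ => ⟨y * x⁻¹, Y.mul_mem hy (Y.inv_mem hx), by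
    rw [mul_smul, ← e, inv_smul_smul, e']⟩⟩

theorem mem_orb {Y : Subgroup G} (b : Ω) : b ∈ orb Y b := ⟨1, Y.one_mem, one_smul _ _⟩

end extx

open extx

theorem ext (h1 : IMP) (h2 : SUB) (h3 : DEF) (h4 : HS) : EXT := by
  intro G Ω _ _ _ _ n X K Γ hS hc
  induction hm : Γ.ncard using Nat.strong_induction_on generalizing X Γ with
  | _ m ih =>
  subst hm
  have three : 3 ≤ Γ.ncard := by
    obtain ⟨k, hk, a, ha, hne⟩ := hS.mv
    have : 1 < Γ.ncard := (Set.one_lt_ncard (Set.toFinite _)).2 ⟨_, hS.tr.1 k (hS.le hk) a ha, a, ha, hne⟩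
    omega
  refine ⟨?_, three⟩
  obtain ⟨a, ha, haF⟩ : (Γ ∩ Fx Ω K).Nonempty := Set.nonempty_of_ncard_ne_zero (by omega)
  have hP : Prim X Γ := fun r hr => by
    by_contra hn
    push Not at hn
    obtain ⟨⟨p, hp, q, hq, hr1, hne⟩, hn2⟩ := hn
    have := (h1 G Ω n X K Γ r hS hr ⟨p, hp, q, hq, hne, hr1⟩ hn2 (by omega)).1
    omega
  have hKY : K ≤ St X a := fun k hk => ⟨hS.le hk, haF k hk⟩
  have hPro : Pro (St X a) K := hS.pro.mono inf_le_left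
  have hD : ∀ x ∈ X, ∀ p ∈ Γ, ∀ q ∈ Γ, p ≠ q → x • p = a → x • q ∈ Γ \ {a} := fun x hx p _ q hq hne e =>
    ⟨hS.tr.1 x hx q hq, fun e' => hne (MulAction.injective x (e.trans (Set.mem_singleton_iff.1 e').symm))⟩
  have hDi : ∀ y ∈ St X a, ∀ q ∈ Γ \ {a}, y • q ∈ Γ \ {a} := fun y hy q hq =>
    hD y hy.1 a ha q hq.1 (fun e => hq.2 e.symm) hy.2
  have hO : ∀ b ∈ Γ \ {a}, orb (St X a) b ⊆ Γ \ {a} := fun b hb _ ⟨y, hy, e⟩ => e ▸ hDi y hy b hb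
  have hMv : ∀ b ∈ Γ \ {a}, Mv K (orb (St X a) b) := fun b hb => h2 G Ω n X K Γ a b hS hP ha haF hb.1 hb.2
  have c1 : (Γ \ {a}).ncard + 1 = Γ.ncard := Set.ncard_diff_singleton_add_one ha
  have c2 : ((Γ \ {a}) ∩ Fx Ω K).ncard + 1 = (Γ ∩ Fx Ω K).ncard := by
    rw [← Set.ncard_diff_singleton_add_one (s := Γ ∩ Fx Ω K) ⟨ha, haF⟩]
    congr 2
    ext z
    simp only [Set.mem_inter_iff, Set.mem_diff]
    tauto
  have hn := hS.card
  by_cases hA : ∃ b ∈ Γ \ {a}, Γ \ {a} ⊆ orb (St X a) b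
  · obtain ⟨b, -, hb⟩ := hA
    intro p hp q hq p' hp' q' hq' hne hne'
    obtain ⟨x, hx, e⟩ := hS.tr.2 p hp a ha
    obtain ⟨x', hx', e'⟩ := hS.tr.2 p' hp' a ha
    obtain ⟨y, hy, e''⟩ := orb_tr.2 _ (hb (hD x hx p hp q hq hne e)) _ (hb (hD x' hx' p' hp' q' hq' hne' e'))
    refine ⟨x'⁻¹ * (y * x), X.mul_mem (X.inv_mem hx') (X.mul_mem hy.1 hx), ?_, ?_⟩
    · rw [mul_smul, mul_smul, e, (mem_St.1 hy).2, ← e', inv_smul_smul]
    · rw [mul_smul, mul_smul, e'', inv_smul_smul]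
  · exfalso
    have key : ∀ b ∈ Γ \ {a}, (orb (St X a) b).ncard = 2 * (orb (St X a) b ∩ Fx Ω K).ncard + 1 := fun b hb => by
      have d1 := Set.ncard_inter_add_ncard_diff_eq_ncard (Γ \ {a}) (orb (St X a) b)
      have d2 := Set.ncard_inter_add_ncard_diff_eq_ncard ((Γ \ {a}) ∩ Fx Ω K) (orb (St X a) b)
      rw [Set.inter_eq_right.2 (hO b hb)] at d1
      rw [Set.inter_right_comm, Set.inter_eq_right.2 (hO b hb), show ((Γ \ {a}) ∩ Fx Ω K) \ orb (St X a) b =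
        ((Γ \ {a}) \ orb (St X a) b) ∩ Fx Ω K by
          ext z
          simp only [Set.mem_inter_iff, Set.mem_diff]
          tauto] at d2
      have d3 := h3 G Ω n (St X a) K (orb (St X a) b) hS.ih hKY hPro orb_inv (by omega)
        (fun c hc => hMv c (hO b hb hc)) ⟨b, mem_orb b⟩
      have d4 := h3 G Ω n (St X a) K ((Γ \ {a}) \ orb (St X a) b) hS.ih hKY hPro
        (fun y hy c hc => ⟨hDi y hy c hc.1, fun h => hc.2 (by
          simpa using orb_inv y⁻¹ ((St X a).inv_mem hy) _ h)⟩) (by omega)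
        (fun c hc => hMv c hc.1) (Set.diff_nonempty.2 fun h => hA ⟨b, hb, h⟩)
      omega
    obtain ⟨b, hb⟩ : (Γ \ {a}).Nonempty := Set.nonempty_of_ncard_ne_zero (by omega)
    have d0 := Set.ncard_le_ncard (hO b hb)
    obtain ⟨t2, t3⟩ := ih (orb (St X a) b).ncard (by omega) (St X a) (orb (St X a) b)
      ⟨hS.ih, hKY, hPro, orb_tr, hMv b hb, by omega⟩ (key b hb) rfl
    obtain ⟨c, hc', d, hd, hne⟩ := (Set.one_lt_ncard (Set.toFinite (orb (St X a) b))).1 (by omega)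
    obtain ⟨x, hx, e, e'⟩ := t2 c hc' d hd d hd c hc' hne hne.symm
    obtain ⟨k, hk⟩ := h4 G Ω X Γ a hS.tr ha (fun b hb hne => ⟨_, key b ⟨hb, hne⟩⟩)
      ⟨x, hx.1, c, (hO b hb hc').1, d, (hO b hb hd).1, hne, e, e'⟩
    omega

end CL.Pro9
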