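/-
Project Pro9 (S3399): the final inequality in the four-transitive case, and two numerical facts.
-/
import Cfsg.Agent.Pro9.Defs

set_option autoImplicit false

namespace CL.Pro9

theorem nb : NB := by
  intro f m hf hm hmf
  obtain ⟨r, hr, rfl⟩ : ∃ r : ℤ, 0 ≤ r ∧ m = r + 5 := ⟨m - 5, by omega, by ring⟩
  obtain ⟨s, hs, rfl⟩ : ∃ s : ℤ, 0 ≤ s ∧ f = r + s + 7 := ⟨f - r - 7, by omega, by ring⟩
  have key : 0 < 8 * s ^ 2 + 32 * s - 12 + (2 * s + 1) * (6 * r + r ^ 2) + r * (4 * s ^ 2 + 12 * s + 3) := by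
    rcases (by omega : 1 ≤ s ∨ (s = 0 ∧ 2 ≤ r)) with h | ⟨rfl, h⟩
    · have h1 : 0 ≤ (2 * s + 1) * (6 * r + r ^ 2) := by positivity
      have h2 : 0 ≤ r * (4 * s ^ 2 + 12 * s + 3) := by positivity
      have h3 : 0 ≤ s ^ 2 := by positivity
      linarith
    · nlinarith
  rw [← sub_pos]
  convert key using 1
  ring

theorem nm : NM := by
  intro f b hf h
  obtain ⟨t, ht, rfl⟩ : ∃ t : ℤ, 0 ≤ t ∧ b = t + 2 := ⟨b - 2, by omega, by ring⟩
  rw [← sub_pos]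
  rcases h with rfl | rfl
  · have key : 0 < 3240 + 5616 * t + 3888 * t ^ 2 + 1344 * t ^ 3 + 232 * t ^ 4 + 16 * t ^ 5 := by positivity
    convert key using 1
    unfold E1 E2
    ring
  · have key : 0 < 6972 + 16412 * t + 13948 * t ^ 2 + 5580 * t ^ 3 + 1072 * t ^ 4 + 80 * t ^ 5 := by positivity
    convert key using 1
    unfold E1 E2
    ring

namespace fin4x

theorem phi_nonneg (b j : ℤ) : 0 ≤ phi b j := by
  unfold phi
  rcases (by omega : j - b ≤ 0 ∨ 1 ≤ j - b) with h | h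
  · exact mul_nonneg_of_nonpos_of_nonpos h (by omega)
  · exact mul_nonneg (by omega) (by omega)

theorem AA_one {G Ω : Type} [Group G] [MulAction G Ω] (P : Set Ω) (g : G) : AA P (1 : G) g = 0 := by
  have e : {z | z ∉ P ∧ g⁻¹ • z ∈ P ∧ g⁻¹ • (1 : G) • z ∉ P} = (∅ : Set Ω) :=
    Set.eq_empty_of_forall_notMem fun z hz => hz.2.2 (by rw [one_smul]; exact hz.2.1)
  rw [AA, e, Set.ncard_empty]

open Classical in
theorem sum_eq {G Ω : Type} [Group G] [Fintype G] [MulAction G Ω] (K : Subgroup G) (P : Set Ω) (g : G) :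
    (∑ x : G, if x ∈ K then AA P x g else 0) = ∑ x ∈ (Finset.univ.filter (· ∈ K)).erase 1, AA P x g := by
  rw [← Finset.sum_filter, Finset.sum_erase (f := fun x => AA P x g) _ (AA_one P g)]

open Classical in
theorem card_eq {G : Type} [Group G] [Fintype G] (K : Subgroup G) :
    ((Finset.univ.filter (· ∈ K)).erase 1).card = Nat.card K - 1 := by
  rw [Finset.card_erase_of_mem (by simp), Nat.card_eq_fintype_card, Fintype.card_subtype]

end fin4x

open fin4x Classical in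
theorem fin4 (h1 : MO2) (h2 : MO3) (h3 : NM) : FIN4 := by
  intro G Ω _ _ _ _ K f c hx hc hf h
  obtain ⟨b, hb⟩ : ∃ b : ℤ, (f : ℤ) = 2 * b + 2 ∨ (f : ℤ) = 2 * b + 3 := ⟨(f : ℤ) / 2 - 1, by omega⟩
  have nm' := h3 f b (by exact_mod_cast hf) hb
  have m2 := h1 G Ω f c b (Fx Ω K) hc hx.fix hx.four
  have m3 := h2 G Ω K f c b hx hc
  set S := (Finset.univ.filter (· ∈ K)).erase (1 : G) with hS
  have hn : S.card = Nat.card K - 1 := card_eq K
  have hpos : 0 < S.card := by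
    obtain ⟨k, hk, a, -, ha⟩ := hx.mv
    refine Finset.card_pos.2 ⟨k, Finset.mem_erase.2 ⟨fun e => ha (by rw [e, one_smul]), by simpa using hk⟩⟩
  have hK : ∀ x ∈ S, x ∈ K := fun x hx => by simpa using (Finset.mem_erase.1 hx).2
  have step : ∀ g : G, (S.card : ℤ) * (phi b (jj (Fx Ω K) g) * ((jj (Fx Ω K) g : ℤ) - 1)) ≤
      (∑ x ∈ S, phi b (jj (Fx Ω K) g) * (AA (Fx Ω K) x g : ℤ)) +
        ∑ x ∈ S, phi b (jj (Fx Ω K) g) * (AA (Fx Ω K) x g⁻¹ : ℤ) := by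
    intro g
    have k := h g
    rw [sum_eq, sum_eq, ← hn, ← hS] at k
    have k' : (S.card : ℤ) * (jj (Fx Ω K) g : ℤ) ≤ (∑ x ∈ S, (AA (Fx Ω K) x g : ℤ)) +
        (∑ x ∈ S, (AA (Fx Ω K) x g⁻¹ : ℤ)) + S.card := by exact_mod_cast k
    rw [← Finset.mul_sum, ← Finset.mul_sum, ← mul_add, mul_left_comm]
    exact mul_le_mul_of_nonneg_left (by linarith) (phi_nonneg _ _)
  have tot := Finset.sum_le_sum fun g (_ : g ∈ (Finset.univ : Finset G)) => step g
  rw [← Finset.mul_sum, m2, Finset.sum_add_distrib, Finset.sum_comm, Finset.sum_comm (t := S)] at tot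
  have a1 : (∑ x ∈ S, ∑ g : G, phi b (jj (Fx Ω K) g) * (AA (Fx Ω K) x g : ℤ)) ≤ S.card • ((f : ℤ) * (c * E1 f b)) :=
    Finset.sum_le_card_nsmul _ _ _ fun x hx => (m3 x (hK x hx)).1
  have a2 : (∑ x ∈ S, ∑ g : G, phi b (jj (Fx Ω K) g) * (AA (Fx Ω K) x g⁻¹ : ℤ)) ≤
      S.card • ((f : ℤ) * (c * E1 f b)) :=
    Finset.sum_le_card_nsmul _ _ _ fun x hx => (m3 x (hK x hx)).2
  rw [nsmul_eq_mul] at a1 a2
  have p1 : (0 : ℤ) < S.card := by exact_mod_cast hpos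
  have p2 : (0 : ℤ) < c := by exact_mod_cast hc.pos
  have := mul_lt_mul_of_pos_left nm' (mul_pos p1 p2)
  nlinarith

end CL.Pro9
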