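/-
Project Pro9 (S3399): consequences of pronormality.
-/
import Cfsg.Agent.Pro9.Defs

set_option autoImplicit false

namespace CL.Pro9

theorem fus : FUS := by
  intro G Ω _ _ _ _ X K g hp hg
  obtain ⟨w, hw, he⟩ := hp g hg
  have h1 : ∀ k ∈ K, ∃ k' ∈ K, g * k * g⁻¹ = w * k' * w⁻¹ := fun k hk => by
    have : g * k * g⁻¹ ∈ K.map (MulAut.conj w).toMonoidHom := by
      rw [he]; exact ⟨k, hk, rfl⟩
    obtain ⟨k', hk', e⟩ := this
    exact ⟨k', hk', e.symm⟩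
  have h2 : ∀ k ∈ K, ∃ k' ∈ K, w * k * w⁻¹ = g * k' * g⁻¹ := fun k hk => by
    have : w * k * w⁻¹ ∈ K.map (MulAut.conj g).toMonoidHom := by
      rw [← he]; exact ⟨k, hk, rfl⟩
    obtain ⟨k', hk', e⟩ := this
    exact ⟨k', hk', e.symm⟩
  have key : ∀ (u v : G), (∀ k ∈ K, ∃ k' ∈ K, u * k * u⁻¹ = v * k' * v⁻¹) → ∀ z : Ω, v⁻¹ • z ∈ Fx Ω K →
      u⁻¹ • z ∈ Fx Ω K := fun u v h z hz k hk => by
    obtain ⟨k', hk', e⟩ := h k hk
    have e1 : (u * k * u⁻¹) • z = z := by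
      rw [e, mul_smul, mul_smul, hz k' hk', smul_inv_smul]
    rw [mul_smul, mul_smul] at e1
    rw [eq_inv_smul_iff]
    exact e1
  refine ⟨w, fun Y hK hY => ?_, h1, fun z => ⟨key g w h1 z, key w g h2 z⟩⟩
  refine (sup_le hK ?_ : K ⊔ K.map (MulAut.conj g).toMonoidHom ≤ Y) hw
  rintro _ ⟨k, hk, rfl⟩
  exact hY k hk

theorem fuw1 {G Ω : Type} [Group G] [Fintype G] [Finite Ω] [MulAction G Ω] (K : Subgroup G) (g : G) (hp : Pro ⊤ K) :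
    ∃ w : G, (∀ z ∈ Fx Ω K, g⁻¹ • z ∈ Fx Ω K → w • z = z) ∧ ∀ z : Ω, w⁻¹ • z ∈ Fx Ω K ↔ g⁻¹ • z ∈ Fx Ω K := by
  obtain ⟨w, h1, -, h3⟩ := fus G Ω ⊤ K g hp trivial
  refine ⟨w, fun z hz hz' => ?_, h3⟩
  refine h1 (MulAction.stabilizer G z) (fun k hk => hz k hk) (fun k hk => ?_)
  rw [MulAction.mem_stabilizer_iff, mul_smul, mul_smul, hz' k hk, smul_inv_smul]

theorem fun_ : FUN := by
  intro G Ω _ _ _ _ K g hp
  obtain ⟨w, h1, h2⟩ := fuw1 (Ω := Ω) K g hp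
  refine ⟨w⁻¹ * g, fun z => ?_, fun z hz hz' => ?_⟩
  · rw [mul_smul, h2, inv_smul_smul]
  · rw [mul_smul, inv_smul_eq_iff, h1 _ hz' (by rwa [inv_smul_smul])]

theorem fuw : FUW := by
  intro G Ω _ _ _ _ K g h hp
  obtain ⟨w, h1, h2⟩ := fuw1 (Ω := Ω) K (h⁻¹ * g) hp
  refine ⟨h * w⁻¹ * h⁻¹, fun z hz hz' => ?_, fun z => ?_⟩
  · have e := h1 (h⁻¹ • z) hz' (by rwa [mul_inv_rev, inv_inv, mul_smul, smul_inv_smul])
    rw [mul_smul, mul_smul, inv_smul_eq_iff.2 e.symm, smul_inv_smul]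
  · rw [mul_smul, mul_smul, inv_smul_smul, h2, mul_inv_rev, inv_inv, mul_smul, smul_inv_smul]

theorem stb : STB := by
  intro G Ω _ _ _ _ K g hp hs z
  obtain ⟨w, h1, -, h3⟩ := fus G Ω ⊤ K g hp trivial
  let Y : Subgroup G :=
    { carrier := {y | ∀ z : Ω, g⁻¹ • y • z ∈ Fx Ω K ↔ g⁻¹ • z ∈ Fx Ω K}
      one_mem' := fun z => by rw [one_smul]
      mul_mem' := fun {a b} ha hb z => by rw [mul_smul, ha, hb]
      inv_mem' := fun {a} ha z => by rw [← ha (a⁻¹ • z), smul_inv_smul] }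
  have hw : w ∈ Y := by
    refine h1 Y (fun k hk z => ⟨fun h => ?_, hs k hk z⟩) (fun k hk z => ?_)
    · have := hs k⁻¹ (K.inv_mem hk) _ h
      rwa [inv_smul_smul] at this
    · rw [mul_smul, mul_smul, inv_smul_smul]
      refine ⟨fun h => ?_, fun h => by rwa [h k hk]⟩
      have e := h k⁻¹ (K.inv_mem hk)
      rw [inv_smul_smul] at e
      rwa [e]
  rw [← hw z, ← h3, inv_smul_smul]

end CL.Pro9
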