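/-
Project Pro9 (S3399): the handshake lemma for a self-paired orbital of odd valency.
-/
import Cfsg.Agent.Pro9.Defs

set_option autoImplicit false

namespace CL.Pro9

namespace hsx

variable {G Ω : Type} [Group G] [MulAction G Ω]

theorem nb {X : Subgroup G} {a c d p : Ω} {g y₀ : G} (hg : g ∈ X) (hy : y₀ ∈ X) (e : g • a = p) (e' : y₀ • c = p) :
    {q | ∃ y ∈ X, y • c = p ∧ y • d = q} = (fun z => g • z) '' orb (St X a) (g⁻¹ • y₀ • d) := by
  ext q
  constructor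
  · rintro ⟨y, hy', h1, rfl⟩
    refine ⟨_, ⟨g⁻¹ * y * y₀⁻¹ * g, mem_St.2 ⟨mul_mem (mul_mem (mul_mem (inv_mem hg) hy') (inv_mem hy)) hg, ?_⟩, rfl⟩, ?_⟩
    · rw [mul_smul, mul_smul, mul_smul, e, ← e', inv_smul_smul, h1, ← e, inv_smul_smul]
    · simp only [mul_smul, smul_inv_smul, inv_smul_smul]
  · rintro ⟨_, ⟨s, hs, rfl⟩, rfl⟩
    refine ⟨g * s * g⁻¹ * y₀, mul_mem (mul_mem (mul_mem hg (mem_St.1 hs).1) (inv_mem hg)) hy, ?_, ?_⟩
    · rw [mul_smul, mul_smul, mul_smul, e', ← e, inv_smul_smul, (mem_St.1 hs).2]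
    · simp only [mul_smul]

end hsx

theorem hs : HS := by
  intro G Ω _ _ _ _ X Γ a tr ha odd ⟨x, hx, c, hc, d, hd, cd, e1, e2⟩
  classical
  have := Fintype.ofFinite Γ
  let H : SimpleGraph Γ :=
    { Adj := fun p q => ∃ y ∈ X, y • c = p ∧ y • d = q
      symm := ⟨fun p q ⟨y, hy, h1, h2⟩ => ⟨y * x, mul_mem hy hx, by rw [mul_smul, e1, h2], by rw [mul_smul, e2, h1]⟩⟩
      loopless := ⟨fun p ⟨y, _, h1, h2⟩ => cd (MulAction.injective y (h1.trans h2.symm))⟩ }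
  have k : ∀ p : Γ, Odd (H.degree p) := fun p => by
    obtain ⟨g, hg, e⟩ := tr.2 a ha p p.2
    obtain ⟨y₀, hy, e'⟩ := tr.2 c hc p p.2
    have l : Subtype.val '' H.neighborSet p = {q | ∃ y ∈ X, y • c = p ∧ y • d = q} := by
      ext q
      exact ⟨fun ⟨r, hr, er⟩ => er ▸ hr, fun ⟨y, h1, h2, h3⟩ => ⟨⟨q, h3 ▸ tr.1 y h1 d hd⟩, ⟨y, h1, h2, h3⟩, rfl⟩⟩
    rw [← H.card_neighborSet_eq_degree, ← Nat.card_eq_fintype_card, Nat.card_coe_set_eq,
      ← Set.ncard_image_of_injective _ Subtype.val_injective, l, hsx.nb hg hy e e',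
      Set.ncard_image_of_injective _ (MulAction.injective g)]
    refine odd _ (tr.1 _ (inv_mem hg) _ (tr.1 _ hy d hd)) fun h => cd (MulAction.injective y₀ ?_)
    change y₀ • c = y₀ • d
    rw [e', ← e, ← h, smul_inv_smul]
  have := H.even_card_odd_degree_vertices
  rwa [Finset.filter_true_of_mem fun p _ => k p, Finset.card_univ, ← Nat.card_eq_fintype_card,
    Nat.card_coe_set_eq] at this

end CL.Pro9
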