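/-
Project Pro9 (S3399): the handshake argument.
-/
import Cfsg.Agent.Pro9.Defs

set_option autoImplicit false

namespace CL.Pro9

theorem hsb : HS := by
  intro G Ω _ _ _ _ X Γ a hT ha ho ⟨x, hx, c, hc, d, hd, cd, xc, xd⟩
  classical
  have := Fintype.ofFinite Γ
  let H : SimpleGraph Γ :=
    { Adj := fun p q => ∃ y ∈ X, y • c = p ∧ y • d = q
      symm := ⟨fun p q ⟨y, hy, e1, e2⟩ => ⟨y * x, mul_mem hy hx, by rw [mul_smul, xc, e2], by rw [mul_smul, xd, e1]⟩⟩
      loopless := ⟨fun p ⟨y, _, e1, e2⟩ => cd (smul_left_cancel y (e1.trans e2.symm))⟩ }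
  have k : ∀ p : Γ, Odd (H.degree p) := fun p => by
    obtain ⟨y, hy, e1⟩ := hT.2 c hc p p.2
    obtain ⟨z, hz, e2⟩ := hT.2 a ha p p.2
    have h1 := ho (z⁻¹ • y • d) (hT.1 _ (inv_mem hz) _ (hT.1 y hy d hd)) fun e => cd (smul_left_cancel y (by
      rw [e1, ← e2, ← e, smul_inv_smul]))
    have h2 : (fun w => z • w) '' orb (St X a) (z⁻¹ • y • d) = Subtype.val '' H.neighborSet p := by
      ext q
      constructor
      · rintro ⟨_, ⟨s, hs, rfl⟩, rfl⟩
        have m : z * s * z⁻¹ * y ∈ X := mul_mem (mul_mem (mul_mem hz hs.1) (inv_mem hz)) hy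
        refine ⟨⟨(z * s * z⁻¹ * y) • d, hT.1 _ m d hd⟩, ⟨_, m, ?_, rfl⟩, by simp only [mul_smul]⟩
        rw [mul_smul, e1, mul_smul, ← e2, inv_smul_smul, mul_smul, (mem_St.1 hs).2]
      · rintro ⟨q, ⟨s, hs, f1, f2⟩, rfl⟩
        refine ⟨z⁻¹ • (q : Ω), ⟨z⁻¹ * s * y⁻¹ * z, mem_St.2 ⟨mul_mem (mul_mem (mul_mem (inv_mem hz) hs) (inv_mem hy)) hz,
          ?_⟩, ?_⟩, smul_inv_smul z _⟩
        · rw [mul_smul, e2, mul_smul, ← e1, inv_smul_smul, mul_smul, f1, ← e2, inv_smul_smul]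
        · simp only [mul_smul, smul_inv_smul, inv_smul_smul, f2]
    rw [← Set.ncard_image_of_injective _ (MulAction.injective z), h2,
      Set.ncard_image_of_injective _ Subtype.val_injective, Set.ncard_eq_toFinset_card'] at h1
    exact h1
  have := H.even_card_odd_degree_vertices
  rw [Finset.filter_true_of_mem fun p _ => k p, Finset.card_univ, ← Nat.card_eq_fintype_card] at this
  exact this

end CL.Pro9
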