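/-
Project Pro9 (S3399): the imprimitive case (helper72, job Pro9-IMP).
-/
import Cfsg.Agent.Pro9.Defs

set_option autoImplicit false

namespace CL.Pro9

namespace impx

variable {G Ω : Type} [Group G] [MulAction G Ω] {X K : Subgroup G} {Γ : Set Ω} {r : Ω → Ω → Prop}

theorem cls_le [Finite Ω] (C : Cong X Γ r) (T : Tr X Γ) {a b : Ω} (ha : a ∈ Γ) (hb : b ∈ Γ) :
    (cls Γ r a).ncard ≤ (cls Γ r b).ncard := by
  obtain ⟨x, hx, rfl⟩ := T.2 a ha b hb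
  exact Set.ncard_le_ncard_of_injOn (fun c => x • c)
    (fun c hc => ⟨T.1 x hx c hc.1, C.inv x hx a ha c hc.1 hc.2⟩) (fun _ _ _ _ e => MulAction.injective x e)

theorem cls_eq [Finite Ω] (C : Cong X Γ r) (T : Tr X Γ) {a b : Ω} (ha : a ∈ Γ) (hb : b ∈ Γ) :
    (cls Γ r a).ncard = (cls Γ r b).ncard := le_antisymm (cls_le C T ha hb) (cls_le C T hb ha)

/-- the stabiliser of the class of `a` -/
def Y (C : Cong X Γ r) (T : Tr X Γ) {a : Ω} (ha : a ∈ Γ) : Subgroup G where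
  carrier := {y | y ∈ X ∧ r a (y • a)}
  one_mem' := ⟨X.one_mem, by rw [one_smul]; exact C.refl a ha⟩
  mul_mem' := fun {y y'} h h' => ⟨X.mul_mem h.1 h'.1, by
    rw [mul_smul]
    exact C.trans a ha _ (T.1 y h.1 a ha) _ (T.1 y h.1 _ (T.1 y' h'.1 a ha)) h.2
      (C.inv y h.1 a ha _ (T.1 y' h'.1 a ha) h'.2)⟩
  inv_mem' := fun {y} h => ⟨X.inv_mem h.1, by
    have := C.inv y⁻¹ (X.inv_mem h.1) a ha _ (T.1 y h.1 a ha) h.2
    rw [inv_smul_smul] at this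
    exact C.symm _ (T.1 _ (X.inv_mem h.1) a ha) a ha this⟩

theorem Y_tr (C : Cong X Γ r) (T : Tr X Γ) {a : Ω} (ha : a ∈ Γ) : Tr (Y C T ha) (cls Γ r a) := by
  refine ⟨fun y hy c hc => ⟨T.1 y hy.1 c hc.1, C.trans a ha _ (T.1 y hy.1 a ha) _ (T.1 y hy.1 c hc.1) hy.2
    (C.inv y hy.1 a ha c hc.1 hc.2)⟩, fun c hc d hd => ?_⟩
  obtain ⟨x, hx, rfl⟩ := T.2 c hc.1 d hd.1
  exact ⟨x, ⟨hx, C.trans a ha _ hd.1 _ (T.1 x hx a ha) hd.2
    (C.symm _ (T.1 x hx a ha) _ hd.1 (C.inv x hx a ha c hc.1 hc.2))⟩, rfl⟩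

theorem split [Finite Ω] {R A : Set Ω} (F : Set Ω) (h : A ⊆ R) :
    (R \ A).ncard + A.ncard = R.ncard ∧ ((R \ A) ∩ F).ncard + (A ∩ F).ncard = (R ∩ F).ncard := by
  refine ⟨Set.ncard_sdiff_add_ncard_of_subset h, ?_⟩
  rw [show (R \ A) ∩ F = (R ∩ F) \ (A ∩ F) from Set.ext fun x => by simp only [Set.mem_inter_iff, Set.mem_sdiff]; tauto]
  exact Set.ncard_sdiff_add_ncard_of_subset (Set.inter_subset_inter_left F h)

/-- a union of classes -/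
def Cl (Γ : Set Ω) (r : Ω → Ω → Prop) (R : Set Ω) : Prop := R ⊆ Γ ∧ ∀ c ∈ R, ∀ d ∈ Γ, r c d → d ∈ R

theorem Cl.sub {R : Set Ω} (h : Cl Γ r R) {c : Ω} (hc : c ∈ R) : cls Γ r c ⊆ R := fun d hd => h.2 c hc d hd.1 hd.2

theorem Cl.diff (C : Cong X Γ r) {R : Set Ω} (h : Cl Γ r R) {c : Ω} (hc : c ∈ R) : Cl Γ r (R \ cls Γ r c) :=
  ⟨fun _ hd => h.1 hd.1, fun d hd e he hr => ⟨h.2 d hd.1 e he hr, fun k => hd.2 ⟨h.1 hd.1,
    C.trans c (h.1 hc) e he d (h.1 hd.1) k.2 (C.symm d (h.1 hd.1) e he hr)⟩⟩⟩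

theorem defi [Finite Ω] (C : Cong X Γ r) (F : Set Ω)
    (H : ∀ a ∈ Γ, 2 * (cls Γ r a ∩ F).ncard + 1 ≤ (cls Γ r a).ncard) (m : ℕ) :
    ∀ R : Set Ω, R.ncard = m → Cl Γ r R → R = ∅ ∨ 2 * (R ∩ F).ncard + 1 ≤ R.ncard := by
  induction m using Nat.strong_induction_on with
  | _ m ih =>
    intro R hm hR
    rcases R.eq_empty_or_nonempty with e | ⟨c, hc⟩
    · exact Or.inl e
    · obtain ⟨s1, s2⟩ := split F (hR.sub hc)
      have h1 := H c (hR.1 hc)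
      right
      rcases ih _ (by omega) _ rfl (hR.diff C hc) with e | e
      · rw [e, Set.empty_inter, Set.ncard_empty] at s2
        omega
      · omega

end impx

open impx in
theorem imp (h : BLK) : IMP := by
  intro G Ω _ _ _ _ n X K Γ r S C hne hnu hle
  have two : ∀ a ∈ Γ, 2 ≤ (cls Γ r a).ncard := fun a ha => by
    obtain ⟨a0, h0, b0, h1, ne, hr⟩ := hne
    rw [cls_eq C S.tr ha h0]
    exact (Set.one_lt_ncard (Set.toFinite _)).2 ⟨a0, ⟨h0, C.refl a0 h0⟩, b0, ⟨h1, hr⟩, ne⟩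
  rcases h G Ω n X K Γ r S C hne with h1 | ⟨h1, h2⟩
  · obtain ⟨a0, h0, -⟩ := hnu
    refine ⟨?_, Or.inl fun a ha => ?_⟩
    · have := h1 a0 h0
      have := two a0 h0
      omega
    · have := h1 a ha
      have := two a ha
      omega
  · have oth : ∀ a ∈ Γ, ∃ a' ∈ Γ, ¬ r a a' := fun a ha => by
      obtain ⟨a1, k1, b1, k2, nr⟩ := hnu
      by_contra hc
      have hc' : ∀ c ∈ Γ, r a c := fun c hc' => by_contra fun k => hc ⟨c, hc', k⟩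
      exact nr (C.trans a1 k1 a ha b1 k2 (C.symm a ha a1 k1 (hc' a1 k1)) (hc' b1 k2))
    have lt : ∀ a ∈ Γ, (cls Γ r a).ncard < Γ.ncard := fun a ha => by
      obtain ⟨a', k1, k2⟩ := oth a ha
      exact Set.ncard_lt_ncard ⟨fun _ hc => hc.1, fun k => k2 (k k1).2⟩
    have KY : ∀ a (ha : a ∈ Γ), K ≤ Y C S.tr ha := fun a ha k hk => ⟨S.le hk, h1 k hk a ha⟩
    have YX : ∀ a (ha : a ∈ Γ), Y C S.tr ha ≤ X := fun a ha y hy => hy.1
    have sit : ∀ a (ha : a ∈ Γ), Sit n (Y C S.tr ha) K (cls Γ r a) := fun a ha =>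
      ⟨S.ih, KY a ha, S.pro.mono (YX a ha), Y_tr C S.tr ha, h2 a ha, (lt a ha).le.trans S.card⟩
    have H : ∀ a ∈ Γ, 2 * (cls Γ r a ∩ Fx Ω K).ncard + 1 ≤ (cls Γ r a).ncard := fun a ha =>
      S.ih G Ω _ K _ ((lt a ha).trans_le S.card) (KY a ha) (sit a ha).pro (sit a ha).tr (h2 a ha)
    have main : ∀ a ∈ Γ, Γ.ncard = 2 * (Γ ∩ Fx Ω K).ncard + 2 ∧ 2 * (cls Γ r a).ncard = Γ.ncard ∧
        (cls Γ r a).ncard = 2 * (cls Γ r a ∩ Fx Ω K).ncard + 1 := fun a ha => by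
      obtain ⟨a', k1, k2⟩ := oth a ha
      have c0 : Cl Γ r Γ := ⟨subset_rfl, fun _ _ _ hd _ => hd⟩
      have c1 := c0.diff C ha
      have m1 : a' ∈ Γ \ cls Γ r a := ⟨k1, fun k => k2 k.2⟩
      have c2 := c1.diff C m1
      obtain ⟨s1, s2⟩ := split (Fx Ω K) (c0.sub ha)
      obtain ⟨s3, s4⟩ := split (Fx Ω K) (c1.sub m1)
      have e1 := H a ha
      have e2 := H a' k1
      have e3 := cls_eq C S.tr ha k1
      rcases defi C (Fx Ω K) H _ _ rfl c2 with e | e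
      · rw [e, Set.empty_inter] at s4
        rw [e] at s3
        rw [Set.ncard_empty] at s3 s4
        omega
      · omega
    obtain ⟨a0, h0, -⟩ := hnu
    exact ⟨(main a0 h0).1, Or.inr fun a ha => ⟨(main a ha).2.1, (main a ha).2.2, _, YX a ha, sit a ha⟩⟩

end CL.Pro9
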