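/-
Project Pro9 (S3399): the number of blocks through one, two and three points.
-/
import Cfsg.Agent.Pro9.Defs

set_option autoImplicit false

namespace CL.Pro9

namespace inax

theorem fib {G Ω : Type} [Finite G] [Finite Ω] (S : Set G) (f : G → Ω) (Q : Set Ω) {q m : ℕ} (hq : Q.ncard = q)
    (h1 : ∀ g ∈ S, f g ∈ Q) (h2 : ∀ y ∈ Q, {g | g ∈ S ∧ f g = y}.ncard = m) : S.ncard = q * m := by
  classical
  have := Fintype.ofFinite G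
  have := Fintype.ofFinite Ω
  rw [← hq, Set.ncard_eq_toFinset_card' S, Set.ncard_eq_toFinset_card' Q, Finset.card_eq_sum_card_fiberwise (f := f)
    (t := Q.toFinset) (fun g hg => by simpa using h1 g (by simpa using hg)), ← smul_eq_mul, ← Finset.sum_const]
  refine Finset.sum_congr rfl fun y hy => ?_
  rw [← h2 y (by simpa using hy), Set.ncard_eq_toFinset_card']
  congr 1
  ext g
  simp

end inax

open inax in
theorem ina : INa := by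
  intro G Ω _ _ _ _ N c p P h hp
  have iv : ∀ {g : G} {z y : Ω}, g⁻¹ • z = y ↔ g • y = z := inv_smul_eq_iff.trans eq_comm
  have ne : ∀ {g : G} {z z' y : Ω}, z ≠ z' → g⁻¹ • z = y → g⁻¹ • z' ≠ y := fun k e e' =>
    k (MulAction.injective _ (e.trans e'.symm))
  have p1 : ∀ y ∈ P, (P \ {y}).ncard = p - 1 := fun y hy => by rw [Set.ncard_sdiff_singleton_of_mem hy, hp]
  refine ⟨fun z => fib _ (·⁻¹ • z) P hp (fun _ k => k) fun y hy => ?_, fun z₁ z₂ n => ?_, fun z₁ z₂ z₃ n => ?_⟩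
  · rw [← h.c1 y z]
    exact congrArg _ (Set.ext fun g => ⟨fun k => iv.1 k.2, fun k => ⟨show g⁻¹ • z ∈ P from (iv.2 k).symm ▸ hy, iv.2 k⟩⟩)
  · rw [mul_assoc]
    refine fib _ (·⁻¹ • z₁) P hp (fun _ k => k.1) fun y hy => fib _ (·⁻¹ • z₂) _ (p1 y hy)
      (fun _ k => ⟨k.1.2, ne n k.2⟩) fun y' hy' => ?_
    rw [← h.c2 y y' z₁ z₂ (Ne.symm hy'.2) n]
    exact congrArg _ (Set.ext fun g => ⟨fun k => ⟨iv.1 k.1.2, iv.1 k.2⟩, fun k =>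
      ⟨⟨⟨(iv.2 k.1).symm ▸ hy, (iv.2 k.2).symm ▸ hy'.1⟩, iv.2 k.1⟩, iv.2 k.2⟩⟩)
  · have n' : z₁ ≠ z₂ ∧ z₁ ≠ z₃ ∧ z₂ ≠ z₃ := by simpa [and_assoc] using n
    rw [mul_assoc, mul_assoc]
    refine fib _ (·⁻¹ • z₁) P hp (fun _ k => k.1) fun y hy => fib _ (·⁻¹ • z₂) _ (p1 y hy)
      (fun _ k => ⟨k.1.2.1, ne n'.1 k.2⟩) fun y' hy' => fib _ (·⁻¹ • z₃) ((P \ {y}) \ {y'})
        (by rw [Set.ncard_sdiff_singleton_of_mem hy', p1 y hy]; rfl)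
        (fun _ k => ⟨⟨k.1.1.2.2, ne n'.2.1 k.1.2⟩, ne n'.2.2 k.2⟩) fun y'' hy'' => ?_
    rw [← h.c3 y y' y'' z₁ z₂ z₃ (by simpa using ⟨⟨Ne.symm hy'.2, Ne.symm hy''.1.2⟩, Ne.symm hy''.2⟩) n]
    exact congrArg _ (Set.ext fun g => ⟨fun k => ⟨iv.1 k.1.1.2, iv.1 k.1.2, iv.1 k.2⟩, fun k =>
      ⟨⟨⟨⟨(iv.2 k.1).symm ▸ hy, (iv.2 k.2.1).symm ▸ hy'.1, (iv.2 k.2.2).symm ▸ hy''.1.1⟩, iv.2 k.1⟩, iv.2 k.2.1⟩,
        iv.2 k.2.2⟩⟩)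

end CL.Pro9
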