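/-
Project Pro9: counting the elements with prescribed incidences.
-/
import Cfsg.Agent.Pro9.Defs

set_option autoImplicit false

namespace CL.Pro9

namespace inbx

variable {G Ω : Type} [Group G] [Fintype G] [Finite Ω] [MulAction G Ω]

theorem fib (S : Set G) (Q : G → Prop) (z : Ω) (T : Set Ω) (k : ℕ) (hS : ∀ g, g ∈ S ↔ Q g ∧ g⁻¹ • z ∈ T)
    (h : ∀ y ∈ T, {g : G | Q g ∧ g • y = z}.ncard = k) : S.ncard = T.ncard * k := by
  classical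
  have := Fintype.ofFinite Ω
  rw [Set.ncard_eq_toFinset_card' S, Set.ncard_eq_toFinset_card' T,
    Finset.card_eq_sum_card_fiberwise (f := fun g : G => g⁻¹ • z) (t := T.toFinset)
      (fun g hg => by simpa using ((hS g).1 (by simpa using hg)).2),
    Finset.sum_congr rfl (g := fun _ => k), Finset.sum_const, smul_eq_mul]
  intro y hy
  rw [← h y (by simpa using hy), Set.ncard_eq_toFinset_card']
  congr 1
  ext g
  simp only [Finset.mem_filter, Set.mem_toFinset, hS, Set.mem_ofPred_eq, inv_smul_eq_iff]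
  constructor
  · rintro ⟨⟨a, -⟩, b⟩; exact ⟨a, b.symm⟩
  · rintro ⟨a, b⟩
    exact ⟨⟨a, by rw [← b, inv_smul_smul]; simpa using hy⟩, b.symm⟩

omit [Fintype G] [Finite Ω] in
theorem ne' {g : G} {y z z' : Ω} (h : g • y = z) (n : z ≠ z') : g⁻¹ • z' ≠ y := fun e =>
  n (by rw [← h, ← e, smul_inv_smul])

end inbx

open inbx in
theorem inb : INb := by
  intro G Ω _ _ _ _ N c p P C hp
  have hc : Pᶜ.ncard = N - p := by
    have := Set.ncard_add_ncard_compl P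
    rw [C.card] at this; omega
  have h1 : ∀ y ∈ P, (P \ {y}).ncard = p - 1 := fun y hy => by rw [Set.ncard_sdiff_singleton_of_mem hy, hp]
  have h2 : ∀ y ∈ P, ∀ y₁ ∈ P \ {y}, ((P \ {y}) \ {y₁}).ncard = p - 2 := fun y hy y₁ hy₁ => by
    rw [Set.ncard_sdiff_singleton_of_mem hy₁, h1 y hy]; omega
  have nn : ∀ y ∈ P, ∀ y' ∈ Pᶜ, y ≠ y' := fun y hy y' hy' e => hy' (e ▸ hy)
  refine ⟨fun z z' n => ?_, fun z z' z₁ n => ?_, fun z z' z₁ z₂ n => ?_⟩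
  · rw [mul_assoc, ← hp]
    refine fib _ (fun g : G => g⁻¹ • z' ∉ P) z P _ (fun g => and_comm) fun y hy => ?_
    rw [hp, ← hc]
    exact fib _ (fun g : G => g • y = z) z' Pᶜ _ (fun g => and_comm) fun y' hy' => C.c2 y y' z z' (nn y hy y' hy') n
  · have n' := n
    simp only [List.nodup_cons, List.mem_cons, List.not_mem_nil, or_false, not_or] at n'
    rw [mul_assoc, mul_assoc, ← hp]
    refine fib _ (fun g : G => g⁻¹ • z' ∉ P ∧ g⁻¹ • z₁ ∈ P) z P _ (fun g => and_comm) fun y hy => ?_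
    rw [hp, ← h1 y hy]
    refine fib _ (fun g : G => g • y = z ∧ g⁻¹ • z' ∉ P) z₁ (P \ {y}) _
      (fun g => ⟨fun h => ⟨⟨h.2, h.1.1⟩, h.1.2, ne' h.2 n'.1.2⟩, fun h => ⟨⟨h.1.2, h.2.1⟩, h.1.1⟩⟩) fun y₁ hy₁ => ?_
    rw [← hc]
    refine fib _ (fun g : G => g • y = z ∧ g • y₁ = z₁) z' Pᶜ _
      (fun g => ⟨fun h => ⟨⟨h.1.1, h.2⟩, h.1.2⟩, fun h => ⟨⟨h.1.1, h.2⟩, h.1.2⟩⟩) fun y' hy' => ?_
    rw [← C.c3 y y' y₁ z z' z₁ (by
      have a1 := nn y hy y' hy'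
      have a2 := (nn y₁ hy₁.1 y' hy').symm
      have a3 : y ≠ y₁ := fun e => hy₁.2 e.symm
      simp [a1, a2, a3]) n]
    congr 1; ext g; simp only [Set.mem_ofPred_eq]; tauto
  · have n' := n
    simp only [List.nodup_cons, List.mem_cons, List.not_mem_nil, or_false, not_or] at n'
    rw [mul_assoc, mul_assoc, mul_assoc, ← hp]
    refine fib _ (fun g : G => g⁻¹ • z' ∉ P ∧ g⁻¹ • z₁ ∈ P ∧ g⁻¹ • z₂ ∈ P) z P _ (fun g => and_comm) fun y hy => ?_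
    rw [hp, ← h1 y hy]
    refine fib _ (fun g : G => g • y = z ∧ g⁻¹ • z' ∉ P ∧ g⁻¹ • z₂ ∈ P) z₁ (P \ {y}) _
      (fun g => ⟨fun h => ⟨⟨h.2, h.1.1, h.1.2.2⟩, h.1.2.1, ne' h.2 n'.1.2.1⟩,
        fun h => ⟨⟨h.1.2.1, h.2.1, h.1.2.2⟩, h.1.1⟩⟩) fun y₁ hy₁ => ?_
    rw [← h2 y hy y₁ hy₁]
    refine fib _ (fun g : G => g • y = z ∧ g⁻¹ • z' ∉ P ∧ g • y₁ = z₁) z₂ ((P \ {y}) \ {y₁}) _
      (fun g => ⟨fun h => ⟨⟨h.1.1, h.1.2.1, h.2⟩, ⟨h.1.2.2, ne' h.1.1 n'.1.2.2⟩, ne' h.2 n'.2.2.1⟩,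
        fun h => ⟨⟨h.1.1, h.1.2.1, h.2.1.1⟩, h.1.2.2⟩⟩) fun y₂ hy₂ => ?_
    rw [← hc]
    refine fib _ (fun g : G => g • y = z ∧ g • y₁ = z₁ ∧ g • y₂ = z₂) z' Pᶜ _
      (fun g => ⟨fun h => ⟨⟨h.1.1, h.1.2.2, h.2⟩, h.1.2.1⟩, fun h => ⟨⟨h.1.1, h.2, h.1.2.1⟩, h.1.2.2⟩⟩) fun y' hy' => ?_
    rw [← C.c4 y y' y₁ y₂ z z' z₁ z₂ (by
      have a1 := nn y hy y' hy'
      have a2 := (nn y₁ hy₁.1 y' hy').symm
      have a3 : y ≠ y₁ := fun e => hy₁.2 e.symm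
      have a4 := (nn y₂ hy₂.1.1 y' hy').symm
      have a5 : y ≠ y₂ := fun e => hy₂.1.2 e.symm
      have a6 : y₁ ≠ y₂ := fun e => hy₂.2 e.symm
      simp [a1, a2, a3, a4, a5, a6]) n]
    congr 1; ext g; simp only [Set.mem_ofPred_eq]; tauto

end CL.Pro9
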