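/-
Project Pro9 (S3399): the theorem of Manning on doubly transitive suborbits.
-/
import Cfsg.Agent.Pro9.Defs

set_option autoImplicit false

namespace CL.Pro9

namespace manx

variable {G Ω : Type} [Group G] [Fintype G] [Finite Ω] [MulAction G Ω]

omit [Finite Ω] in
theorem os (Y : Subgroup G) (c : Ω) : (orb Y c).ncard * Nat.card (St Y c) = Nat.card Y := by
  have h1 : orb Y c = MulAction.orbit Y c :=
    Set.ext fun b => ⟨fun ⟨x, hx, e⟩ => ⟨⟨x, hx⟩, e⟩, fun ⟨x, e⟩ => ⟨x, x.2, e⟩⟩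
  have h2 : MulAction.stabilizer Y c = (St Y c).subgroupOf Y :=
    Subgroup.ext fun x => ⟨fun h => ⟨x.2, h⟩, fun h => h.2⟩
  rw [h1, ← MulAction.index_stabilizer, h2,
    ← Nat.card_congr (Subgroup.subgroupOfEquivOfLe (show St Y c ≤ Y from inf_le_left)).toEquiv, Subgroup.index_mul_card]

omit [Fintype G] in
theorem le_of_smul (x : G) {A B : Set Ω} (h : ∀ t ∈ A, x • t ∈ B) : A.ncard ≤ B.ncard :=
  Set.ncard_le_ncard_of_injOn (x • ·) h fun _ _ _ _ e => MulAction.injective x e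

end manx

open manx

theorem man : MAN := by
  intro G Ω _ _ _ _ X Γ a b tr pr ha hb _ t2 h3 hk
  by_contra hn
  have bO : b ∈ orb (St X a) b := ⟨1, one_mem _, one_smul _ _⟩
  obtain ⟨b', hb', nb⟩ := Set.exists_ne_of_one_lt_ncard (s := orb (St X a) b) (by omega) b
  obtain ⟨y0, hy0, ey0⟩ := id hb'
  have hbΓ : b' ∈ Γ := ey0 ▸ tr.1 _ hy0.1 _ hb
  have oΓ : ∀ c ∈ Γ, orb X c = Γ := fun c hc =>
    Set.ext fun d => ⟨fun ⟨x, hx, e⟩ => e ▸ tr.1 x hx c hc, fun hd => tr.2 c hc d hd⟩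
  have e3 : Nat.card (St X a) = Nat.card (St X b) := by
    have h1 := os X a
    have h2 := os X b
    rw [oΓ a ha] at h1
    rw [oΓ b hb, ← h1] at h2
    exact (Nat.eq_of_mul_eq_mul_left (by omega) h2).symm
  have e1 := os (St X a) b
  have e2 := os (St (St X a) b) b'
  have e4 := os (St X b) b'
  have e5 := os (St (St X b) b') a
  have e6 := os (St X b) a
  have s1 : St (St X b) a = St (St X a) b := inf_right_comm _ _ _
  have s2 : St (St (St X b) b') a = St (St (St X a) b) b' := by rw [← s1]; exact inf_right_comm _ _ _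
  have o1 : orb (St (St X a) b) b' = orb (St X a) b \ {b} := Set.ext fun d =>
    ⟨fun ⟨x, hx, e⟩ => ⟨⟨x * y0, mul_mem hx.1 hy0, by rw [mul_smul, ey0, e]⟩, fun k => nb (MulAction.injective x
      (show x • b' = x • b from (e.trans k).trans (show x • b = b from hx.2).symm))⟩, fun hd => by
      obtain ⟨x, hx, k1, k2⟩ := t2 b bO b' hb' b bO d hd.1 nb.symm (Ne.symm hd.2)
      exact ⟨x, ⟨hx, k1⟩, k2⟩⟩
  rw [o1, Set.ncard_sdiff_singleton_of_mem bO] at e2
  rw [s1, ← e3, ← e1] at e6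
  have e7 := Nat.eq_of_mul_eq_mul_right Nat.card_pos e6
  have l1 : (orb (St X b) b').ncard ≤ (orb (St X a) b).ncard := by
    obtain ⟨x, hx, e⟩ := tr.2 b hb a ha
    refine (le_of_smul x (B := orb (St X a) (x • b')) ?_).trans (not_lt.1 fun k => hn ⟨x • b', tr.1 x hx _ hbΓ,
      fun k1 => nb (MulAction.injective x (k1.trans e.symm)), k⟩)
    rintro _ ⟨y, hy, rfl⟩
    refine ⟨x * y * x⁻¹, ⟨mul_mem (mul_mem hx hy.1) (X.inv_mem hx), ?_⟩, by rw [mul_smul, inv_smul_smul, mul_smul]⟩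
    show (x * y * x⁻¹) • a = a
    rw [← e, mul_smul, inv_smul_smul, mul_smul, show y • b = b from hy.2]
  have l2 : (orb (St X a) b).ncard - 1 ≤ (orb (St (St X b) b') a).ncard := by
    rw [← e5, s2, ← e3, ← e1, ← e2, ← mul_assoc, ← mul_assoc] at e4
    have e8 := Nat.eq_of_mul_eq_mul_right Nat.card_pos e4
    exact Nat.le_of_mul_le_mul_left (e8.ge.trans (Nat.mul_le_mul_right _ l1)) (by omega)
  let I : Ω → Set Ω := fun q => {p | ∃ x ∈ X, x • a = p ∧ x • b = q}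
  let D : Ω → Ω → Prop := fun p q => ∃ x ∈ X, x • b = p ∧ x • b' = q
  have ya : y0 • a = a := hy0.2
  have d1 : ∀ p q, D p q → (orb (St X a) b).ncard - 1 ≤ (I p ∩ I q).ncard := by
    rintro _ _ ⟨x, hx, rfl, rfl⟩
    refine l2.trans (le_of_smul x ?_)
    rintro _ ⟨w, hw, rfl⟩
    exact ⟨⟨x * w, mul_mem hx hw.1.1, mul_smul _ _ _, by rw [mul_smul, show w • b = b from hw.1.2]⟩,
      x * w * y0, mul_mem (mul_mem hx hw.1.1) hy0.1, by rw [mul_smul, ya, mul_smul],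
      by rw [mul_smul, ey0, mul_smul, show w • b' = b' from hw.2]⟩
  have d2 : ∀ p q t, p ≠ q → t ∈ I p → t ∈ I q → D p q := by
    rintro _ _ _ hne ⟨x, hx, rfl, rfl⟩ ⟨y, hy, e, rfl⟩
    obtain ⟨z, hz, k1, k2⟩ := t2 b bO b' hb' b bO ((x⁻¹ * y) • b) ⟨_, ⟨mul_mem (X.inv_mem hx) hy, by
      show (x⁻¹ * y) • a = a
      rw [mul_smul, e, inv_smul_smul]⟩, rfl⟩ nb.symm fun k => hne (by rw [mul_smul, eq_inv_smul_iff] at k; exact k)
    exact ⟨x * z, mul_mem hx hz.1, by rw [mul_smul, k1], by rw [mul_smul, k2, mul_smul, smul_inv_smul]⟩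
  have d3 : ∀ q ∈ Γ, (I q).ncard ≤ (orb (St X a) b).ncard := fun q hq => by
    obtain ⟨x, hx, rfl⟩ := tr.2 b hb q hq
    refine (le_of_smul x⁻¹ ?_).trans e7.le
    rintro _ ⟨y, hy, rfl, e⟩
    refine ⟨x⁻¹ * y, ⟨mul_mem (X.inv_mem hx) hy, ?_⟩, mul_smul _ _ _⟩
    show (x⁻¹ * y) • b = b
    rw [mul_smul, e, inv_smul_smul]
  have d4 : ∀ p q, D p q → D q p := by
    rintro _ _ ⟨x, hx, rfl, rfl⟩
    exact d2 _ _ (x • a) (fun k => nb (MulAction.injective x k))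
      ⟨x * y0, mul_mem hx hy0.1, by rw [mul_smul, ya], by rw [mul_smul, ey0]⟩ ⟨x, hx, rfl, rfl⟩
  refine (pr (fun p q => p = q ∨ D p q) ⟨fun _ _ => Or.inl rfl, fun p _ q _ h => h.imp Eq.symm (d4 p q), ?_, ?_⟩).elim
    (fun h => ?_) fun h => ?_
  rotate_left 2
  · exact nb (h b hb b' hbΓ (Or.inr ⟨1, one_mem _, one_smul _ _, one_smul _ _⟩)).symm
  · have h1 : Γ \ {b} ⊆ orb (St X b) b' := fun q hq => by
      obtain ⟨x, hx, k1, k2⟩ := (h b hb q hq.1).resolve_left (Ne.symm hq.2)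
      exact ⟨x, ⟨hx, k1⟩, k2⟩
    have h2 := Set.ncard_le_ncard h1
    rw [Set.ncard_sdiff_singleton_of_mem hb] at h2
    omega
  · rintro p - q hq s - (rfl | h1) h2
    · exact h2
    rcases h2 with rfl | h2
    · exact Or.inr h1
    refine or_iff_not_imp_left.2 fun hne => ?_
    have k1 := d1 _ _ (d4 _ _ h1)
    have k2 := d1 _ _ h2
    have k3 := Set.ncard_union_add_ncard_inter (I q ∩ I p) (I q ∩ I s)
    have k4 := (Set.ncard_le_ncard (Set.union_subset (Set.inter_subset_left (s := I q) (t := I p))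
      (Set.inter_subset_left (s := I q) (t := I s)))).trans (d3 q hq)
    obtain ⟨t, ht⟩ := Set.nonempty_of_ncard_ne_zero (s := I q ∩ I p ∩ (I q ∩ I s)) (by omega)
    exact d2 _ _ t hne ht.1.2 ht.2.2
  · rintro x hx p - q - (rfl | ⟨y, hy, rfl, rfl⟩)
    · exact Or.inl rfl
    · exact Or.inr ⟨x * y, mul_mem hx hy, mul_smul _ _ _, mul_smul _ _ _⟩

end CL.Pro9
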