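import Cfsg.Agent.Pro9.Defs

set_option autoImplicit false

namespace CL.Pro9.manh

open Finset

variable {G Ω : Type} [Group G] [MulAction G Ω]

/-- the orbital graph of the pair `(a, b)` -/
def E (X : Subgroup G) (a b p q : Ω) : Prop := ∃ x ∈ X, x • a = p ∧ x • b = q

theorem E.inv {X : Subgroup G} {a b p q : Ω} (h : E X a b p q) {x : G} (hx : x ∈ X) : E X a b (x • p) (x • q) := by
  obtain ⟨y, hy, rfl, rfl⟩ := h
  exact ⟨x * y, X.mul_mem hx hy, mul_smul _ _ _, mul_smul _ _ _⟩

theorem E_iff {X : Subgroup G} {a b p q : Ω} {x : G} (hx : x ∈ X) : E X a b p q ↔ E X a b (x • p) (x • q) :=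
  ⟨fun h => h.inv hx, fun h => by simpa using h.inv (X.inv_mem hx)⟩

theorem card_tr [Fintype Ω] (P Q : Ω → Prop) [DecidablePred P] [DecidablePred Q] (g : G)
    (h : ∀ z, P z ↔ Q (g • z)) : #(univ.filter P) = #(univ.filter Q) := by
  refine Finset.card_equiv (MulAction.toPerm g) ?_
  intro z
  simp [h z]

theorem man : MAN := by
  intro G Ω _ _ _ _ X Γ a b htr hprim ha hb hba h2 h3 hlt
  classical
  haveI : Fintype Ω := Fintype.ofFinite Ω
  by_contra hcon
  push_neg at hcon
  set k := (orb (St X a) b).ncard with hk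
  have hmem : ∀ p q, E X a b p q → p ∈ Γ ∧ q ∈ Γ := by
    rintro p q ⟨x, hx, rfl, rfl⟩
    exact ⟨htr.1 x hx a ha, htr.1 x hx b hb⟩
  have hO : ∀ q, q ∈ orb (St X a) b ↔ E X a b a q := by
    intro q
    constructor
    · rintro ⟨x, hx, rfl⟩
      exact ⟨x, hx.1, hx.2, rfl⟩
    · rintro ⟨x, hx, h1, rfl⟩
      exact ⟨x, ⟨hx, h1⟩, rfl⟩
  have hout0 : #(univ.filter fun q => E X a b a q) = k := by
    rw [hk, ← Set.ncard_coe_finset]
    congr 1
    ext q
    simp [hO]
  have hout : ∀ p ∈ Γ, #(univ.filter fun q => E X a b p q) = k := by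
    intro p hp
    obtain ⟨y, hy, rfl⟩ := htr.2 a ha p hp
    rw [← hout0]
    exact (card_tr _ _ y fun z => E_iff hy).symm
  have hin0 : ∀ q ∈ Γ, #(univ.filter fun p => E X a b p q) = #(univ.filter fun p => E X a b p a) := by
    intro q hq
    obtain ⟨y, hy, rfl⟩ := htr.2 a ha q hq
    exact (card_tr _ _ y fun z => E_iff hy).symm
  have hin : #(univ.filter fun p => E X a b p a) = k := by
    have hc := Finset.card_mul_eq_card_mul (s := Γ.toFinset) (t := Γ.toFinset) (E X a b) (m := k)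
      (n := #(univ.filter fun p => E X a b p a)) (fun p hp => by
        rw [← hout p (by simpa using hp)]
        congr 1
        ext q
        simp only [mem_bipartiteAbove, Set.mem_toFinset, mem_filter, mem_univ, true_and]
        exact ⟨fun h => h.2, fun h => ⟨(hmem _ _ h).2, h⟩⟩) (fun q hq => by
        rw [← hin0 q (by simpa using hq)]
        congr 1
        ext p
        simp only [mem_bipartiteBelow, Set.mem_toFinset, mem_filter, mem_univ, true_and]
        exact ⟨fun h => h.2, fun h => ⟨(hmem _ _ h).1, h⟩⟩)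
    have hpos : 0 < #Γ.toFinset := card_pos.2 ⟨a, by simpa using ha⟩
    exact (Nat.eq_of_mul_eq_mul_left hpos hc).symm
  have hbO : b ∈ orb (St X a) b := ⟨1, Subgroup.one_mem _, one_smul _ _⟩
  obtain ⟨b', hb'O, hb'⟩ : ∃ b' ∈ orb (St X a) b, b' ≠ b := by
    by_contra hn
    push_neg at hn
    have : orb (St X a) b ⊆ {b} := fun z hz => hn z hz
    have := Set.ncard_le_ncard this
    rw [Set.ncard_singleton] at this
    omega
  obtain ⟨y, hy, hyb⟩ := htr.2 b hb a ha
  have hEc : E X a b (y • a) (y • b') := ((hO b').1 hb'O).inv hy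
  have hEa : E X a b (y • a) a := ⟨y, hy, rfl, hyb⟩
  have hca : y • b' ≠ a := by
    intro h
    rw [← hyb] at h
    exact hb' (smul_left_cancel y h)
  have hD : ∀ q, q ∈ orb (St X a) (y • b') ↔ q ≠ a ∧ ∃ t, E X a b t a ∧ E X a b t q := by
    intro q
    constructor
    · rintro ⟨g, hg, rfl⟩
      have hga : g • a = a := hg.2
      refine ⟨fun h => hca (smul_left_cancel g (h.trans hga.symm)), g • y • a, ?_, hEc.inv hg.1⟩
      have := hEa.inv hg.1
      rwa [hga] at this
    · rintro ⟨hq, t, ⟨x1, hx1, h1, h1'⟩, ⟨x2, hx2, h2a, rfl⟩⟩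
      have hm : (x1⁻¹ * x2) • b ∈ orb (St X a) b :=
        ⟨x1⁻¹ * x2, ⟨X.mul_mem (X.inv_mem hx1) hx2, by
          show (x1⁻¹ * x2) • a = a
          rw [mul_smul, h2a, ← h1, inv_smul_smul]⟩, rfl⟩
      have hne : b ≠ (x1⁻¹ * x2) • b := by
        intro h
        apply hq
        rw [mul_smul, eq_inv_smul_iff, h1'] at h
        exact h.symm
      obtain ⟨h, hh, hhb, hhb'⟩ := h2 b hbO b' hb'O b hbO _ hm hb'.symm hne
      refine ⟨x1 * h * y⁻¹, ⟨X.mul_mem (X.mul_mem hx1 hh.1) (X.inv_mem hy), ?_⟩, ?_⟩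
      · show (x1 * h * y⁻¹) • a = a
        have : y⁻¹ • a = b := by rw [inv_smul_eq_iff, hyb]
        rw [mul_smul, mul_smul, this, hhb, h1']
      · rw [mul_smul, mul_smul, inv_smul_smul, hhb', mul_smul, smul_inv_smul]
  have hcΓ : y • b' ∈ Γ := (hmem _ _ hEc).2
  have hl := hcon _ hcΓ hca
  set D := (orb (St X a) (y • b')).toFinset with hDdef
  have hDc : #D = (orb (St X a) (y • b')).ncard := by rw [hDdef, Set.ncard_eq_toFinset_card']
  have hDm : ∀ q, q ∈ D ↔ q ≠ a ∧ ∃ t, E X a b t a ∧ E X a b t q := by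
    intro q
    rw [hDdef, Set.mem_toFinset, hD]
  set lam := #(univ.filter fun t => E X a b t a ∧ E X a b t (y • b')) with hlam
  have hlamc : ∀ q ∈ D, #(univ.filter fun t => E X a b t a ∧ E X a b t q) = lam := by
    intro q hq
    rw [hDdef, Set.mem_toFinset] at hq
    obtain ⟨g, hg, rfl⟩ := hq
    have hga : g • a = a := hg.2
    refine (card_tr _ _ g fun z => ?_).symm
    rw [E_iff hg.1 (p := z) (q := a), E_iff hg.1 (p := z) (q := y • b'), hga]
  have hc := Finset.card_mul_eq_card_mul (s := univ.filter fun p => E X a b p a) (t := D) (E X a b) (m := k - 1)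
    (n := lam) (fun t ht => by
      have ht' : E X a b t a := by simpa using ht
      rw [← hout t (hmem _ _ ht').1, ← card_erase_of_mem (a := a) (by simpa using ht')]
      congr 1
      ext q
      simp only [mem_bipartiteAbove, hDm, mem_erase, mem_filter, mem_univ, true_and]
      exact ⟨fun h => ⟨h.1.1, h.2⟩, fun h => ⟨⟨h.1, t, ht', h.2⟩, h.2⟩⟩) (fun q hq => by
      rw [← hlamc q hq]
      congr 1
      ext t
      simp only [mem_bipartiteBelow, mem_filter, mem_univ, true_and])
  rw [hin, hDc] at hc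
  have hlamk : k - 1 ≤ lam := by
    by_contra hn
    push_neg at hn
    have h1 : (orb (St X a) (y • b')).ncard * lam ≤ k * lam := Nat.mul_le_mul_right _ hl
    have h2 : k * lam < k * (k - 1) := Nat.mul_lt_mul_of_pos_left hn (by omega)
    omega
  have hmeet : ∀ q ∈ D, ∀ q' ∈ D, ∃ t, E X a b t q ∧ E X a b t q' := by
    intro q hq q' hq'
    by_contra hn
    push_neg at hn
    have hdis : Disjoint (univ.filter fun t => E X a b t a ∧ E X a b t q)
        (univ.filter fun t => E X a b t a ∧ E X a b t q') := by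
      rw [disjoint_filter]
      exact fun t _ h1 h2 => hn t h1.2 h2.2
    have hsub : (univ.filter fun t => E X a b t a ∧ E X a b t q) ∪
        (univ.filter fun t => E X a b t a ∧ E X a b t q') ⊆ univ.filter fun p => E X a b p a := by
      intro t ht
      simp only [mem_union, mem_filter, mem_univ, true_and] at ht ⊢
      exact ht.elim (fun h => h.1) fun h => h.1
    have := card_le_card hsub
    rw [card_union_of_disjoint hdis, hlamc q hq, hlamc q' hq', hin] at this
    omega
  have hcong : Cong X Γ fun p q => ∃ t, E X a b t p ∧ E X a b t q := by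
    refine ⟨fun p hp => ?_, fun p _ q _ ⟨t, h1, h2⟩ => ⟨t, h2, h1⟩, ?_, fun x hx p _ q _ ⟨t, h1, h2⟩ =>
      ⟨x • t, h1.inv hx, h2.inv hx⟩⟩
    · obtain ⟨x, hx, rfl⟩ := htr.2 b hb p hp
      exact ⟨x • a, ⟨x, hx, rfl, rfl⟩, ⟨x, hx, rfl, rfl⟩⟩
    · rintro p _ q hq s _ ⟨t, h1, h2⟩ ⟨t', h3, h4⟩
      by_cases hpq : p = q
      · subst hpq
        exact ⟨t', h3, h4⟩
      by_cases hsq : s = q
      · subst hsq
        exact ⟨t, h1, h2⟩
      obtain ⟨x, hx, hxq⟩ := htr.2 q hq a ha
      have e1 : x • p ∈ D := (hDm _).2 ⟨fun h => hpq (smul_left_cancel x (h.trans hxq.symm)), x • t,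
        by have := h2.inv hx; rwa [hxq] at this, h1.inv hx⟩
      have e2 : x • s ∈ D := (hDm _).2 ⟨fun h => hsq (smul_left_cancel x (h.trans hxq.symm)), x • t',
        by have := h3.inv hx; rwa [hxq] at this, h4.inv hx⟩
      obtain ⟨u, hu1, hu2⟩ := hmeet _ e1 _ e2
      exact ⟨x⁻¹ • u, by simpa using hu1.inv (X.inv_mem hx), by simpa using hu2.inv (X.inv_mem hx)⟩
  rcases hprim _ hcong with h | h
  · exact hca (h _ hcΓ a ha ⟨y • a, hEc, hEa⟩)
  · have hsub : Γ.toFinset.erase a ⊆ D := by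
      intro q hq
      rw [mem_erase, Set.mem_toFinset] at hq
      exact (hDm q).2 ⟨hq.1, h a ha q hq.2⟩
    have := card_le_card hsub
    rw [card_erase_of_mem (by simpa using ha), hDc, ← Set.ncard_eq_toFinset_card'] at this
    omega

end CL.Pro9.manh
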