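/-
Project Pro9 (S3399): the first moment identity.
-/
import Cfsg.Agent.Pro9.Defs

set_option autoImplicit false

namespace CL.Pro9

namespace mo1x

open Classical in
theorem sum_ind {G : Type} [Fintype G] (p : G → Prop) :
    (∑ g : G, if p g then (1 : ℤ) else 0) = (({g | p g}.ncard : ℕ) : ℤ) := by
  rw [Finset.sum_boole, Set.ncard_eq_toFinset_card']
  simp

open Classical in
theorem pairs {Ω : Type} (S : Finset Ω) (q : Ω → Prop) :
    (∑ x ∈ S.offDiag, if q x.1 ∧ q x.2 then (1 : ℤ) else 0) =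
      ((S.filter q).card : ℤ) * (((S.filter q).card : ℤ) - 1) := by
  rw [Finset.sum_boole]
  have h : S.offDiag.filter (fun x => q x.1 ∧ q x.2) = (S.filter q).offDiag := by
    ext x
    simp only [Finset.mem_filter, Finset.mem_offDiag]
    tauto
  rw [h, Finset.offDiag_card, Nat.cast_sub (Nat.le_mul_self _)]
  push_cast
  ring

end mo1x

theorem mo1 (h : INb) : MO1 := by
  classical
  intro G Ω _ _ _ _ f c b P z z' hC hP hf hz hz' hzz
  obtain ⟨h2, h3, h4⟩ := h G Ω (2 * f) c f P hC hP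
  have := Fintype.ofFinite Ω
  set S : Finset Ω := Finset.univ.filter (fun w => w ∉ P ∧ w ≠ z ∧ w ≠ z') with hSdef
  have hS : S.card + 2 = f := by
    have h1 : P.ncard + Pᶜ.ncard = Nat.card Ω := Set.ncard_add_ncard_compl P
    rw [hC.card, hP] at h1
    have h5 : Pᶜ = insert z (insert z' (S : Set Ω)) := by
      ext w
      simp only [hSdef, Set.mem_compl_iff, Set.mem_insert_iff, Finset.coe_filter, Finset.mem_univ, true_and,
        Set.mem_ofPred_eq]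
      constructor
      · intro hw
        by_cases e1 : w = z
        · exact Or.inl e1
        · by_cases e2 : w = z'
          · exact Or.inr (Or.inl e2)
          · exact Or.inr (Or.inr ⟨hw, e1, e2⟩)
      · rintro (rfl | rfl | hw)
        · exact hz
        · exact hz'
        · exact hw.1
    rw [h5, Set.ncard_insert_of_notMem (by simp [hSdef, hzz]), Set.ncard_insert_of_notMem (by simp [hSdef]),
      Set.ncard_coe_finset] at h1
    omega
  have hmem : ∀ w ∈ S, w ∉ P ∧ w ≠ z ∧ w ≠ z' := fun w hw => (Finset.mem_filter.1 hw).2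
  have key : ∀ g : G, (if g⁻¹ • z ∈ P ∧ g⁻¹ • z' ∉ P then phi b (jj P g) else 0) =
      (∑ x ∈ S.offDiag, if g⁻¹ • z ∈ P ∧ g⁻¹ • z' ∉ P ∧ g⁻¹ • x.1 ∈ P ∧ g⁻¹ • x.2 ∈ P then (1 : ℤ) else 0) +
      (2 - 2 * b) * (∑ w ∈ S, if g⁻¹ • z ∈ P ∧ g⁻¹ • z' ∉ P ∧ g⁻¹ • w ∈ P then (1 : ℤ) else 0) +
      (b * (b + 1) - 2 * b) * (if g⁻¹ • z ∈ P ∧ g⁻¹ • z' ∉ P then (1 : ℤ) else 0) := by
    intro g
    by_cases hg : g⁻¹ • z ∈ P ∧ g⁻¹ • z' ∉ P
    · have hj : jj P g = (S.filter (fun w => g⁻¹ • w ∈ P)).card + 1 := by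
        have h6 : {w | w ∉ P ∧ g⁻¹ • w ∈ P} = insert z ((S.filter (fun w => g⁻¹ • w ∈ P) : Finset Ω) : Set Ω) := by
          ext w
          simp only [hSdef, Set.mem_insert_iff, Finset.coe_filter, Finset.mem_filter, Finset.mem_univ, true_and,
            Set.mem_ofPred_eq]
          constructor
          · rintro ⟨hw, hw'⟩
            by_cases e1 : w = z
            · exact Or.inl e1
            · refine Or.inr ⟨⟨hw, e1, ?_⟩, hw'⟩
              rintro rfl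
              exact hg.2 hw'
          · rintro (rfl | hw)
            · exact ⟨hz, hg.1⟩
            · exact ⟨hw.1.1, hw.2⟩
        unfold jj
        rw [h6, Set.ncard_insert_of_notMem (by simp [hSdef]), Set.ncard_coe_finset]
      have hp := mo1x.pairs S (fun w => g⁻¹ • w ∈ P)
      simp only [hg.1, hg.2, not_false_eq_true, true_and, and_self, if_true]
      rw [hj, Finset.sum_boole (s := S)]
      have hp' : (∑ x ∈ S.offDiag, if g⁻¹ • x.1 ∈ P ∧ g⁻¹ • x.2 ∈ P then (1 : ℤ) else 0) =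
          ((S.filter (fun w => g⁻¹ • w ∈ P)).card : ℤ) * (((S.filter (fun w => g⁻¹ • w ∈ P)).card : ℤ) - 1) := by
        convert hp
      rw [hp']
      unfold phi
      push_cast
      ring
    · have e1 : ∀ Q : Prop, ¬ (g⁻¹ • z ∈ P ∧ g⁻¹ • z' ∉ P ∧ Q) := fun Q hq => hg ⟨hq.1, hq.2.1⟩
      simp only [hg, e1, if_false, Finset.sum_const_zero, mul_zero, add_zero]
  have s4 : (∑ g : G, ∑ x ∈ S.offDiag,
      if g⁻¹ • z ∈ P ∧ g⁻¹ • z' ∉ P ∧ g⁻¹ • x.1 ∈ P ∧ g⁻¹ • x.2 ∈ P then (1 : ℤ) else 0) =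
      (S.offDiag.card : ℤ) * ((f * (f - 1) * (f - 2) * (2 * f - f) * c : ℕ) : ℤ) := by
    rw [Finset.sum_comm, ← nsmul_eq_mul, ← Finset.sum_const]
    refine Finset.sum_congr rfl fun x hx => ?_
    obtain ⟨hx1, hx2, hx3⟩ := Finset.mem_offDiag.1 hx
    have a1 := hmem _ hx1
    have a2 := hmem _ hx2
    rw [← h4 z z' x.1 x.2 (by simp [hzz, hx3, a1.2.1.symm, a1.2.2.symm, a2.2.1.symm, a2.2.2.symm])]
    convert mo1x.sum_ind (fun g : G => g⁻¹ • z ∈ P ∧ g⁻¹ • z' ∉ P ∧ g⁻¹ • x.1 ∈ P ∧ g⁻¹ • x.2 ∈ P)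
  have s3 : (∑ g : G, ∑ w ∈ S, if g⁻¹ • z ∈ P ∧ g⁻¹ • z' ∉ P ∧ g⁻¹ • w ∈ P then (1 : ℤ) else 0) =
      (S.card : ℤ) * ((f * (f - 1) * (2 * f - f) * ((2 * f - 3) * c) : ℕ) : ℤ) := by
    rw [Finset.sum_comm, ← nsmul_eq_mul, ← Finset.sum_const]
    refine Finset.sum_congr rfl fun x hx => ?_
    have a1 := hmem _ hx
    rw [← h3 z z' x (by simp [hzz, a1.2.1.symm, a1.2.2.symm])]
    convert mo1x.sum_ind (fun g : G => g⁻¹ • z ∈ P ∧ g⁻¹ • z' ∉ P ∧ g⁻¹ • x ∈ P)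
  have s2 : (∑ g : G, if g⁻¹ • z ∈ P ∧ g⁻¹ • z' ∉ P then (1 : ℤ) else 0) =
      ((f * (2 * f - f) * ((2 * f - 2) * ((2 * f - 3) * c)) : ℕ) : ℤ) := by
    rw [← h2 z z' hzz]
    convert mo1x.sum_ind (fun g : G => g⁻¹ • z ∈ P ∧ g⁻¹ • z' ∉ P)
  have hoff : (S.offDiag.card : ℤ) = (S.card : ℤ) * ((S.card : ℤ) - 1) := by
    rw [Finset.offDiag_card, Nat.cast_sub (Nat.le_mul_self _)]
    push_cast
    ring
  have tot : (∑ g : G, if g⁻¹ • z ∈ P ∧ g⁻¹ • z' ∉ P then phi b (jj P g) else 0) =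
      (S.offDiag.card : ℤ) * ((f * (f - 1) * (f - 2) * (2 * f - f) * c : ℕ) : ℤ) +
      (2 - 2 * b) * ((S.card : ℤ) * ((f * (f - 1) * (2 * f - f) * ((2 * f - 3) * c) : ℕ) : ℤ)) +
      (b * (b + 1) - 2 * b) * ((f * (2 * f - f) * ((2 * f - 2) * ((2 * f - 3) * c)) : ℕ) : ℤ) := by
    rw [← s4, ← s3, ← s2, Finset.mul_sum, Finset.mul_sum, ← Finset.sum_add_distrib, ← Finset.sum_add_distrib]
    exact Finset.sum_congr rfl fun g _ => key g
  refine Eq.trans (by convert tot) ?_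
  obtain ⟨e, rfl⟩ : ∃ e, f = e + 4 := ⟨f - 4, by omega⟩
  have hc : S.card = e + 2 := by omega
  rw [hoff, hc, show e + 4 - 1 = e + 3 by omega, show e + 4 - 2 = e + 2 by omega,
    show 2 * (e + 4) - (e + 4) = e + 4 by omega, show 2 * (e + 4) - 3 = 2 * e + 5 by omega,
    show 2 * (e + 4) - 2 = 2 * e + 6 by omega]
  unfold E1
  push_cast
  ring

end CL.Pro9
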