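/-
Project Pro9 (S3399): the second moment identity.
-/
import Cfsg.Agent.Pro9.Defs

set_option autoImplicit false

namespace CL.Pro9

namespace mo2x

open Classical in
theorem sum_ind {G : Type} [Fintype G] (p : G → Prop) :
    (∑ g : G, if p g then (1 : ℤ) else 0) = ({g | p g}.ncard : ℤ) := by
  rw [Finset.sum_boole]
  congr 1
  rw [← Set.ncard_coe_finset]
  congr 1
  ext g
  simp

open Classical in
noncomputable def A1 {Ω : Type} (q : Ω → Prop) (S : Finset Ω) : ℤ := ∑ z ∈ S, if q z then (1 : ℤ) else 0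

open Classical in
theorem A1_erase {Ω : Type} (q : Ω → Prop) (S : Finset Ω) {z : Ω} (hz : z ∈ S) (hq : q z) :
    A1 q (S.erase z) = A1 q S - 1 := by
  unfold A1
  rw [← Finset.add_sum_erase S _ hz, if_pos hq]
  ring

open Classical in
theorem L2 {Ω : Type} (q : Ω → Prop) (S : Finset Ω) :
    (∑ z₁ ∈ S, ∑ z₂ ∈ S.erase z₁, if q z₁ ∧ q z₂ then (1 : ℤ) else 0) = A1 q S * (A1 q S - 1) := by
  have h : ∀ z₁ ∈ S, (∑ z₂ ∈ S.erase z₁, if q z₁ ∧ q z₂ then (1 : ℤ) else 0) =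
      (if q z₁ then (1 : ℤ) else 0) * (A1 q S - 1) := by
    intro z₁ hz
    by_cases hq : q z₁
    · rw [if_pos hq, one_mul, ← A1_erase q S hz hq]
      unfold A1
      refine Finset.sum_congr rfl fun z₂ _ => ?_
      simp only [hq, true_and]
    · rw [if_neg hq, zero_mul]
      refine Finset.sum_eq_zero fun z₂ _ => ?_
      rw [if_neg fun h => hq h.1]
  rw [Finset.sum_congr rfl h, ← Finset.sum_mul]
  rfl

open Classical in
theorem L3 {Ω : Type} (q : Ω → Prop) (S : Finset Ω) :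
    (∑ z₁ ∈ S, ∑ z₂ ∈ S.erase z₁, ∑ z₃ ∈ (S.erase z₁).erase z₂, if q z₁ ∧ q z₂ ∧ q z₃ then (1 : ℤ) else 0) =
      A1 q S * ((A1 q S - 1) * (A1 q S - 2)) := by
  have h : ∀ z₁ ∈ S, (∑ z₂ ∈ S.erase z₁, ∑ z₃ ∈ (S.erase z₁).erase z₂,
      if q z₁ ∧ q z₂ ∧ q z₃ then (1 : ℤ) else 0) =
      (if q z₁ then (1 : ℤ) else 0) * ((A1 q S - 1) * (A1 q S - 2)) := by
    intro z₁ hz
    by_cases hq : q z₁
    · have h2 := L2 q (S.erase z₁)
      rw [A1_erase q S hz hq] at h2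
      rw [if_pos hq, one_mul, show A1 q S - 2 = A1 q S - 1 - 1 by ring, ← h2]
      refine Finset.sum_congr rfl fun z₂ _ => Finset.sum_congr rfl fun z₃ _ => ?_
      simp only [hq, true_and]
    · rw [if_neg hq, zero_mul]
      refine Finset.sum_eq_zero fun z₂ _ => Finset.sum_eq_zero fun z₃ _ => ?_
      rw [if_neg fun h => hq h.1]
  rw [Finset.sum_congr rfl h, ← Finset.sum_mul]
  rfl

end mo2x

open mo2x in
theorem mo2 (h : INa) : MO2 := by
  classical
  intro G Ω _ _ _ _ f c b P hC hP hf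
  obtain ⟨h1, h2, h3⟩ := h G Ω (2 * f) c f P hC hP
  have : Fintype Ω := Fintype.ofFinite Ω
  set S : Finset Ω := Finset.univ.filter (fun z => z ∉ P) with hS
  have hScard : S.card = f := by
    have e1 : (S : Set Ω) = Pᶜ := by
      ext z
      simp [hS]
    have e2 := Set.ncard_add_ncard_compl P
    rw [hC.card, hP, ← e1, Set.ncard_coe_finset] at e2
    omega
  have hj : ∀ g : G, (jj P g : ℤ) = A1 (fun z => g⁻¹ • z ∈ P) S := by
    intro g
    unfold jj A1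
    rw [Finset.sum_boole]
    congr 1
    rw [← Set.ncard_coe_finset]
    congr 1
    ext z
    simp [hS]
  obtain ⟨e, rfl⟩ : ∃ e, f = e + 4 := ⟨f - 4, by omega⟩
  have n1 : 2 * (e + 4) - 1 = 2 * e + 7 := by omega
  have n2 : 2 * (e + 4) - 2 = 2 * e + 6 := by omega
  have n3 : 2 * (e + 4) - 3 = 2 * e + 5 := by omega
  have m1 : e + 4 - 1 = e + 3 := by omega
  have m2 : e + 4 - 2 = e + 2 := by omega
  have hc0 := hC.c0
  simp only [n1, n2, n3, m1, m2] at h1 h2 h3 hc0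
  have s0 : (∑ _g : G, (1 : ℤ)) = 2 * (e + 4) * ((2 * e + 7) * ((2 * e + 6) * ((2 * e + 5) * c))) := by
    rw [Finset.sum_const, Finset.card_univ, ← Nat.card_eq_fintype_card, hc0]
    push_cast
    ring
  have s1 : (∑ g : G, A1 (fun z => g⁻¹ • z ∈ P) S) =
      (e + 4) * ((e + 4) * ((2 * e + 7) * ((2 * e + 6) * ((2 * e + 5) * c)))) := by
    unfold A1
    rw [Finset.sum_comm]
    have : ∀ z ∈ S, (∑ g : G, if g⁻¹ • z ∈ P then (1 : ℤ) else 0) =
        (((e + 4) * ((2 * e + 7) * ((2 * e + 6) * ((2 * e + 5) * c))) : ℕ) : ℤ) := by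
      intro z _
      rw [← h1 z, ← sum_ind]
    refine (Finset.sum_congr rfl fun z hz => ?_).trans ((Finset.sum_congr rfl this).trans ?_)
    · refine Finset.sum_congr rfl fun g _ => ?_
      congr
    · rw [Finset.sum_const, hScard]
      push_cast
      ring
  have s2 : (∑ g : G, A1 (fun z => g⁻¹ • z ∈ P) S * (A1 (fun z => g⁻¹ • z ∈ P) S - 1)) =
      (e + 4) * ((e + 3) * ((e + 4) * (e + 3) * ((2 * e + 6) * ((2 * e + 5) * c)))) := by
    simp only [← L2]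
    rw [Finset.sum_comm]
    have : ∀ z₁ ∈ S, (∑ g : G, ∑ z₂ ∈ S.erase z₁, if g⁻¹ • z₁ ∈ P ∧ g⁻¹ • z₂ ∈ P then (1 : ℤ) else 0) =
        (e + 3) * ((e + 4) * (e + 3) * ((2 * e + 6) * ((2 * e + 5) * c))) := by
      intro z₁ hz₁
      rw [Finset.sum_comm]
      have : ∀ z₂ ∈ S.erase z₁, (∑ g : G, if g⁻¹ • z₁ ∈ P ∧ g⁻¹ • z₂ ∈ P then (1 : ℤ) else 0) =
          (((e + 4) * (e + 3) * ((2 * e + 6) * ((2 * e + 5) * c)) : ℕ) : ℤ) := by
        intro z₂ hz₂
        rw [← h2 z₁ z₂ (Finset.ne_of_mem_erase hz₂).symm, ← sum_ind]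
        refine Finset.sum_congr rfl fun g _ => ?_
        congr
      rw [Finset.sum_congr rfl this, Finset.sum_const, Finset.card_erase_of_mem hz₁, hScard, m1]
      push_cast
      ring
    refine (Finset.sum_congr rfl fun z hz => ?_).trans ((Finset.sum_congr rfl this).trans ?_)
    · congr!
    · rw [Finset.sum_const, hScard]
      push_cast
      ring
  have s3 : (∑ g : G, A1 (fun z => g⁻¹ • z ∈ P) S *
      ((A1 (fun z => g⁻¹ • z ∈ P) S - 1) * (A1 (fun z => g⁻¹ • z ∈ P) S - 2))) =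
      (e + 4) * ((e + 3) * ((e + 2) * ((e + 4) * (e + 3) * (e + 2) * ((2 * e + 5) * c)))) := by
    simp only [← L3]
    rw [Finset.sum_comm]
    have : ∀ z₁ ∈ S, (∑ g : G, ∑ z₂ ∈ S.erase z₁, ∑ z₃ ∈ (S.erase z₁).erase z₂,
        if g⁻¹ • z₁ ∈ P ∧ g⁻¹ • z₂ ∈ P ∧ g⁻¹ • z₃ ∈ P then (1 : ℤ) else 0) =
        (e + 3) * ((e + 2) * ((e + 4) * (e + 3) * (e + 2) * ((2 * e + 5) * c))) := by
      intro z₁ hz₁
      rw [Finset.sum_comm]
      have : ∀ z₂ ∈ S.erase z₁, (∑ g : G, ∑ z₃ ∈ (S.erase z₁).erase z₂,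
          if g⁻¹ • z₁ ∈ P ∧ g⁻¹ • z₂ ∈ P ∧ g⁻¹ • z₃ ∈ P then (1 : ℤ) else 0) =
          (e + 2) * ((e + 4) * (e + 3) * (e + 2) * ((2 * e + 5) * c)) := by
        intro z₂ hz₂
        rw [Finset.sum_comm]
        have : ∀ z₃ ∈ (S.erase z₁).erase z₂,
            (∑ g : G, if g⁻¹ • z₁ ∈ P ∧ g⁻¹ • z₂ ∈ P ∧ g⁻¹ • z₃ ∈ P then (1 : ℤ) else 0) =
            (((e + 4) * (e + 3) * (e + 2) * ((2 * e + 5) * c) : ℕ) : ℤ) := by
          intro z₃ hz₃
          have a1 : z₂ ≠ z₁ := Finset.ne_of_mem_erase hz₂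
          have a2 : z₃ ≠ z₂ := Finset.ne_of_mem_erase hz₃
          have a3 : z₃ ≠ z₁ := Finset.ne_of_mem_erase (Finset.mem_of_mem_erase hz₃)
          have nd : [z₁, z₂, z₃].Nodup := by
            simp [a1.symm, a2.symm, a3.symm]
          rw [← h3 z₁ z₂ z₃ nd, ← sum_ind]
          refine Finset.sum_congr rfl fun g _ => ?_
          congr
        rw [Finset.sum_congr rfl this, Finset.sum_const, Finset.card_erase_of_mem hz₂,
          Finset.card_erase_of_mem hz₁, hScard, m1, show e + 3 - 1 = e + 2 by omega]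
        push_cast
        ring
      rw [Finset.sum_congr rfl this, Finset.sum_const, Finset.card_erase_of_mem hz₁, hScard, m1]
      push_cast
      ring
    refine (Finset.sum_congr rfl fun z hz => ?_).trans ((Finset.sum_congr rfl this).trans ?_)
    · congr!
    · rw [Finset.sum_const, hScard]
      push_cast
      ring
  have key : ∀ g : G, phi b (jj P g) * ((jj P g : ℤ) - 1) =
      A1 (fun z => g⁻¹ • z ∈ P) S *
        ((A1 (fun z => g⁻¹ • z ∈ P) S - 1) * (A1 (fun z => g⁻¹ • z ∈ P) S - 2)) +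
      (1 - 2 * b) * (A1 (fun z => g⁻¹ • z ∈ P) S * (A1 (fun z => g⁻¹ • z ∈ P) S - 1)) +
      (b * (b + 1) * A1 (fun z => g⁻¹ • z ∈ P) S - b * (b + 1) * 1) := by
    intro g
    rw [hj g]
    unfold phi
    ring
  rw [Finset.sum_congr rfl fun g _ => key g, Finset.sum_add_distrib, Finset.sum_add_distrib,
    Finset.sum_sub_distrib, ← Finset.mul_sum, ← Finset.mul_sum, ← Finset.mul_sum, s0, s1, s2, s3]
  unfold E2
  push_cast
  ring

end CL.Pro9
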