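/-
Project Pro9 (S3399): part MO3.
-/
import Cfsg.Agent.Pro9.Defs

set_option autoImplicit false

namespace CL.Pro9

namespace mo3x

theorem phi_nonneg (b j : ℤ) : 0 ≤ phi b j := by
  unfold phi
  rcases le_or_gt (j - b) 0 with h | h
  · exact mul_nonneg_of_nonpos_of_nonpos h (by omega)
  · exact mul_nonneg (by omega) (by omega)

section
variable {G Ω : Type} [Group G] [MulAction G Ω]

theorem ncard_pre (P : Set Ω) (g : G) : {z | g⁻¹ • z ∈ P}.ncard = P.ncard := by
  have : {z | g⁻¹ • z ∈ P} = (fun w => g • w) '' P := by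
    ext z
    constructor
    · intro hz
      exact ⟨g⁻¹ • z, hz, by simp⟩
    · rintro ⟨w, hw, rfl⟩
      simpa using hw
  rw [this, Set.ncard_image_of_injective _ (MulAction.injective g)]

theorem jj_inv [Finite Ω] (P : Set Ω) (g : G) : jj P g⁻¹ = jj P g := by
  unfold jj
  have h1 : {z | z ∉ P ∧ g⁻¹ • z ∈ P} = {z | g⁻¹ • z ∈ P} \ P := by
    ext z
    simp only [Set.mem_ofPred_eq, Set.mem_sdiff]
    exact and_comm
  have h2 : P \ {z | g⁻¹ • z ∈ P} = (fun w => g • w) '' {z | z ∉ P ∧ g⁻¹⁻¹ • z ∈ P} := by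
    ext z
    constructor
    · rintro ⟨hz, hz'⟩
      refine ⟨g⁻¹ • z, ⟨hz', by simpa using hz⟩, by simp⟩
    · rintro ⟨w, ⟨hw, hw'⟩, rfl⟩
      refine ⟨by simpa using hw', ?_⟩
      simpa using hw
  have h3 : (P \ {z | g⁻¹ • z ∈ P}).ncard = {z | z ∉ P ∧ g⁻¹⁻¹ • z ∈ P}.ncard := by
    rw [h2, Set.ncard_image_of_injective _ (MulAction.injective g)]
  have h4 := Set.ncard_inter_add_ncard_sdiff_eq_ncard P {z | g⁻¹ • z ∈ P} (Set.toFinite _)
  have h5 := Set.ncard_inter_add_ncard_sdiff_eq_ncard {z | g⁻¹ • z ∈ P} P (Set.toFinite _)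
  rw [Set.inter_comm, ncard_pre] at h5
  rw [h1, ← h3]
  omega

open Classical in
theorem AA_eq [Fintype Ω] (P : Set Ω) (x g : G) :
    (AA P x g : ℤ) = ∑ z ∈ Finset.univ.filter (fun z => z ∉ P),
      if g⁻¹ • z ∈ P ∧ g⁻¹ • x • z ∉ P then (1 : ℤ) else 0 := by
  unfold AA
  rw [Finset.sum_boole, Finset.filter_filter, Set.ncard_eq_toFinset_card']
  congr 2
  ext z
  simp

end

end mo3x

open mo3x in
theorem mo3 (h : MO1) : MO3 := by
  classical
  intro G Ω _ _ _ _ K f c b hcx hc4 x hx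
  have : Fintype Ω := Fintype.ofFinite Ω
  set P := Fx Ω K with hP
  set S : Finset Ω := Finset.univ.filter (fun z => z ∉ P) with hS
  have hScard : S.card = f := by
    have h1 := Set.ncard_add_ncard_compl P (Set.toFinite _) (Set.toFinite _)
    have h2 : (Pᶜ : Set Ω).ncard = S.card := by
      rw [Set.ncard_eq_toFinset_card']
      congr 1
      ext z
      simp [hS]
    have h3 := hcx.card
    have h4 : P.ncard = f := hcx.fix
    omega
  have hpos : 0 ≤ (c : ℤ) * E1 f b := by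
    have h1 : 1 < S.card := by have := hcx.four; omega
    obtain ⟨z, hz, z', hz', hne⟩ := Finset.one_lt_card.mp h1
    have hz1 : z ∉ P := (Finset.mem_filter.mp hz).2
    have hz2 : z' ∉ P := (Finset.mem_filter.mp hz').2
    rw [← h G Ω f c b P z z' hc4 hcx.fix hcx.four hz1 hz2 hne]
    refine Finset.sum_nonneg fun g _ => ?_
    split_ifs
    · exact phi_nonneg _ _
    · exact le_rfl
  have main : (∑ g : G, phi b (jj P g) * (AA P x g : ℤ)) ≤ f * (c * E1 f b) := by
    have e1 : (∑ g : G, phi b (jj P g) * (AA P x g : ℤ)) =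
        ∑ z ∈ S, ∑ g : G, if g⁻¹ • z ∈ P ∧ g⁻¹ • x • z ∉ P then phi b (jj P g) else 0 := by
      rw [Finset.sum_comm]
      refine Finset.sum_congr rfl fun g _ => ?_
      rw [AA_eq, Finset.mul_sum]
      refine Finset.sum_congr (by ext z; simp [hS]) fun z _ => ?_
      split_ifs <;> simp
    rw [e1, ← hScard, ← nsmul_eq_mul]
    refine Finset.sum_le_card_nsmul _ _ _ fun z hz => ?_
    rw [hScard]
    have hz1 : z ∉ P := (Finset.mem_filter.mp hz).2
    by_cases hxz : x • z = z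
    · have : (∑ g : G, if g⁻¹ • z ∈ P ∧ g⁻¹ • x • z ∉ P then phi b (jj P g) else 0) = 0 := by
        refine Finset.sum_eq_zero fun g _ => ?_
        rw [hxz, if_neg (by simp)]
      rw [this]
      exact hpos
    · have hz2 : x • z ∉ P := by
        intro hm
        have h1 : x⁻¹ • x • z = x • z := hm x⁻¹ (K.inv_mem hx)
        rw [inv_smul_smul] at h1
        exact hxz h1.symm
      have := h G Ω f c b P z (x • z) hc4 hcx.fix hcx.four hz1 hz2 (Ne.symm hxz)
      refine le_of_eq ?_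
      rw [← this]
  refine ⟨main, ?_⟩
  have e2 : (∑ g : G, phi b (jj P g) * (AA P x g⁻¹ : ℤ)) = ∑ g : G, phi b (jj P g) * (AA P x g : ℤ) := by
    rw [← Equiv.sum_comp (Equiv.inv G)]
    refine Finset.sum_congr rfl fun g _ => ?_
    simp only [Equiv.inv_apply, inv_inv, jj_inv]
  rw [e2]
  exact main

end CL.Pro9
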