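/-
Project Pro9 (S3399): assembly from the parts.
-/
import Cfsg.Agent.Pro9.Defs

set_option autoImplicit false

namespace CL.Pro9

theorem noCX (cl1 : CL1) (cl2 : CL2) (cl3 : CL3) (p3 : P3) (rk1 : RK1) (rk2 : RK2) (rk3 : RK3) (rbf : RBF)
    (alt2 : ALT2) (alt3 : ALT3) (cnt : CNT) (boc : BOC) (s2 : S2) (tp : TP) (tt : TT) (fin4 : FIN4)
    {G Ω : Type} [Group G] [Fintype G] [Finite Ω] [MulAction G Ω] [FaithfulSMul G Ω] (K : Subgroup G) (f : ℕ)
    (h : CX Ω K f) : False := by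
  by_cases hc : NoCl G Ω
  swap
  · obtain ⟨q, hq⟩ := cl1 G Ω K f h hc
    obtain ⟨g, hg⟩ := cl3 G Ω K f h
    rcases cl2 G Ω K f q h hq g with e | e <;> omega
  have h3 : 2 < (Fx Ω K).ncard := by have := h.fix; have := h.four; omega
  obtain ⟨a, b, c, ha, hb, hcF, hab, hac, hbc⟩ := (Set.two_lt_ncard_iff (Set.toFinite _)).1 h3
  obtain ⟨hs, hp⟩ := p3 G Ω K f a b h hc ha hb hab
  rcases rk1 G Ω K f a b c h ha hb hcF (by simp [hab, hac, hbc]) hs hp with t4 | ⟨d, k, l, hd⟩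
  · have h6 := alt2 G Ω K f h t4
    have h5 := alt3 G Ω K f h t4
    obtain ⟨c, hc4⟩ := cnt G Ω t4 (by have := h.card; have := h.four; omega)
    rw [h.card] at hc4
    have hb := boc G Ω f c hc4 h6 h5
    have hs2 := s2 G Ω K f h h5
    exact fin4 G Ω K f c h hc4 (by omega) (fun g => tt G Ω K f g h (tp G Ω K f h hb hs2 g))
  · exact rbf G Ω K f _ k l h (rk3 G Ω K f a b c d k l h hd (rk2 G Ω K f a b c d k l h hp hd))

theorem ih_all (red : RED) (top : TOP)
    (no : ∀ (G Ω : Type) [Group G] [Fintype G] [Finite Ω] [MulAction G Ω] [FaithfulSMul G Ω] (K : Subgroup G) (f : ℕ),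
      CX Ω K f → False) (n : ℕ) : IH n := by
  induction n with
  | zero => intro G Ω _ _ _ _ X K Γ h; omega
  | succ n ih =>
    refine red n ih (fun G Ω _ _ _ _ _ K hn hs => ?_)
    by_contra hlt
    subst hn
    exact no G Ω K _ (top G Ω K hs (by omega))

theorem final (h : ∀ n, IH n) (n : ℕ) (G : Subgroup (Equiv.Perm (Fin n)))
    (htrans : ∀ a b : Fin n, ∃ g ∈ G, g a = b)
    (K : Subgroup (Equiv.Perm (Fin n))) (hKG : K ≤ G) (hK : K ≠ ⊥)
    (hpro : ∀ g ∈ G, ∃ w ∈ K ⊔ K.map (MulAut.conj g).toMonoidHom,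
      K.map (MulAut.conj w).toMonoidHom = K.map (MulAut.conj g).toMonoidHom) :
    2 * Nat.card {a : Fin n // ∀ k ∈ K, k a = a} + 1 ≤ n := by
  have hu : (Set.univ : Set (Fin n)).ncard = n := by rw [Set.ncard_univ, Nat.card_fin]
  have hm : Mv K (Set.univ : Set (Fin n)) := by
    by_contra hm
    refine hK (eq_bot_iff.2 fun k hk => Subgroup.mem_bot.2 (Equiv.ext fun a => ?_))
    by_contra ha
    exact hm ⟨k, hk, a, trivial, ha⟩
  have := h (n + 1) (Equiv.Perm (Fin n)) (Fin n) G K Set.univ (by omega) hKG hpro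
    ⟨fun _ _ _ _ => trivial, fun a _ b _ => htrans a b⟩ hm
  rw [hu, Set.univ_inter, ← Nat.card_coe_set_eq] at this
  exact this

end CL.Pro9
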