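/-
Project Pro9 (S3399): the stabiliser of two fixed points is primitive on the other points.
-/
import Cfsg.Agent.Pro9.Defs

set_option autoImplicit false

namespace CL.Pro9

namespace p3x

theorem mem_c {Ω : Type} {a b c : Ω} : c ∈ ({a, b}ᶜ : Set Ω) ↔ c ≠ a ∧ c ≠ b := by simp [not_or]

theorem nd3 {Ω : Type} {a b c : Ω} (h : a ≠ b) (hc : c ∈ ({a, b}ᶜ : Set Ω)) : [a, b, c].Nodup := by
  have := mem_c.1 hc
  simp [h, this.1.symm, this.2.symm]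

theorem inv {G Ω : Type} [Group G] [MulAction G Ω] {a b c : Ω} {x : G} (hx : x ∈ G2 G a b)
    (hc : c ∈ ({a, b}ᶜ : Set Ω)) : x • c ∈ ({a, b}ᶜ : Set Ω) :=
  mem_c.2 ⟨fun e => (mem_c.1 hc).1 (MulAction.injective x (e.trans (mem_G2.1 hx).1.symm)),
    fun e => (mem_c.1 hc).2 (MulAction.injective x (e.trans (mem_G2.1 hx).2.symm))⟩

end p3x

open p3x

theorem p3 (h1 : IMP) (h2 : EXT) (h3 : TWO) : P3 := by
  intro G Ω _ _ _ _ K f a b cx nc ha hb hab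
  have c1 : ({a, b}ᶜ : Set Ω).ncard + 2 = 2 * f := by
    rw [← cx.card, ← Set.ncard_add_ncard_compl ({a, b} : Set Ω), Set.ncard_pair hab, add_comm]
  have c2 : (({a, b}ᶜ : Set Ω) ∩ Fx Ω K).ncard + 2 = f := by
    have := Set.ncard_sdiff_add_ncard_of_subset (s := ({a, b} : Set Ω)) (t := Fx Ω K)
      (by rintro x (rfl | rfl); exacts [ha, hb])
    rwa [Set.ncard_pair hab, cx.fix, Set.sdiff_eq, Set.inter_comm] at this
  have st : Sit (2 * f) (G2 G a b) K ({a, b}ᶜ : Set Ω) :=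
    ⟨cx.ih, fun k hk => mem_G2.2 ⟨ha k hk, hb k hk⟩, cx.pro.mono le_top, ⟨fun x hx c hc => inv hx hc, fun c hc d hd => by
      obtain ⟨g, e1, e2, e3⟩ := cx.t3 a b c a b d (nd3 hab hc) (nd3 hab hd)
      exact ⟨g, mem_G2.2 ⟨e1, e2⟩, e3⟩⟩, by
      obtain ⟨k, hk, c, -, e⟩ := cx.mv
      exact ⟨k, hk, c, mem_c.2 ⟨fun h => e (h ▸ ha k hk), fun h => e (h ▸ hb k hk)⟩, e⟩, by omega⟩
  refine ⟨st, fun r hr => ?_⟩
  by_contra hn
  rw [not_or] at hn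
  obtain ⟨n1, n2⟩ := hn
  push Not at n1 n2
  obtain ⟨c, hc, d, hd, rcd, ncd⟩ := n1
  rcases (h1 G Ω _ _ K _ r st hr ⟨c, hc, d, hd, ncd, rcd⟩ n2 (by omega)).2 with k | k
  · obtain ⟨g, e1, e2, e3, e4⟩ := nc a b c d (by
      have h1 := mem_c.1 hc
      have h2 := mem_c.1 hd
      simp [hab, h1.1.symm, h1.2.symm, h2.1.symm, h2.2.symm, ncd])
    have hg : g ∈ G2 G a b := mem_G2.2 ⟨e1, e2⟩
    have m3 : g • d ∈ cls ({a, b}ᶜ : Set Ω) r c := ⟨inv hg hd, by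
      have := hr.inv g hg c hc d hd rcd
      rwa [e3] at this⟩
    have sub : ({c, d} : Set Ω) ⊆ cls ({a, b}ᶜ : Set Ω) r c := by
      rintro x (rfl | rfl)
      exacts [⟨hc, hr.refl _ hc⟩, ⟨hd, rcd⟩]
    rw [← Set.eq_of_subset_of_ncard_le sub (by rw [k c hc, Set.ncard_pair ncd])] at m3
    rcases m3 with e | e
    · exact ncd (MulAction.injective g (e3.trans e.symm))
    · exact e4 e
  · refine h3 G Ω f a b r cx.t3 nc cx.card cx.four hab hr fun e he => ?_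
    obtain ⟨k1, k2, Y, hY, s⟩ := k e he
    exact ⟨by omega, Y, hY, (h2 G Ω _ Y K _ s k2).1⟩

end CL.Pro9
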