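/-
Project Pro9 (S3399): the parts `PAIR` and `SUP`.
-/
import Cfsg.Agent.Pro9.Defs

set_option autoImplicit false

namespace CL.Pro9

namespace pairx

theorem fib {A B : Type} [Finite A] [Finite B] (S : Set A) (T : Set B) (f : A → B) (n : ℕ) (hm : ∀ a ∈ S, f a ∈ T)
    (hf : ∀ b ∈ T, {a | a ∈ S ∧ f a = b}.ncard ≤ n) : S.ncard ≤ T.ncard * n := by
  classical
  rw [Set.ncard_eq_toFinset_card S, Set.ncard_eq_toFinset_card T, mul_comm]
  refine Finset.card_le_mul_card_image_of_maps_to (f := f) (fun a ha => by simpa using hm a (by simpa using ha)) n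
    fun b hb => ?_
  refine le_trans (le_of_eq ?_) (hf b (by simpa using hb))
  rw [← Set.ncard_coe_finset]
  congr 1
  ext a
  simp

theorem out {G Ω : Type} [Group G] [MulAction G Ω] {g : G} {δ γ α β x : Ω} {P : Set Ω} (h1 : g • δ = α)
    (h2 : g • γ = β) (hx : g • x ∈ P) (n1 : δ ≠ x) (n2 : γ ≠ x) : g • x ∈ P \ {α, β} := by
  refine ⟨hx, ?_⟩
  rintro (h | h)
  · exact n1 (smul_left_cancel g (h1.trans h.symm))
  · exact n2 (smul_left_cancel g (h2.trans h.symm))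

end pairx

open pairx

theorem pair : PAIR := by
  intro G Ω _ _ _ _ N c δ γ α β P P' C hab
  refine ⟨fun x hx => ?_, fun x x' hx => ?_⟩
  · have hx' := hx
    simp only [List.nodup_cons, List.mem_cons, List.not_mem_nil, or_false, not_or] at hx'
    refine fib _ _ (fun g => g • x) _ (fun g hg => out hg.1 hg.2.1 hg.2.2 hx'.1.2 hx'.2.1) fun y hy => ?_
    have hy' : y ≠ α ∧ y ≠ β := by simpa [not_or] using hy.2
    rw [← C.c3 δ γ x α β y hx (by simp [hab, hy'.1.symm, hy'.2.symm])]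
    exact Set.ncard_le_ncard (fun g hg => ⟨hg.1.1, hg.1.2.1, hg.2⟩) (Set.toFinite _)
  · have hx' := hx
    simp only [List.nodup_cons, List.mem_cons, List.not_mem_nil, or_false, not_or] at hx'
    refine fib _ _ (fun g => g • x) _ (fun g hg => out hg.1 hg.2.1 hg.2.2.1 hx'.1.2.1 hx'.2.1.1) fun y hy => ?_
    have hy' : y ≠ α ∧ y ≠ β := by simpa [not_or] using hy.2
    refine fib _ _ (fun g => g • x') _ (fun g hg => out hg.1.1 hg.1.2.1 hg.1.2.2.2 hx'.1.2.2 hx'.2.1.2) fun z hz => ?_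
    have hz' : z ≠ α ∧ z ≠ β := by simpa [not_or] using hz.2
    by_cases e : y = z
    · refine le_trans (le_of_eq ?_) (Nat.zero_le c)
      rw [Set.ncard_eq_zero (Set.toFinite _), Set.eq_empty_iff_forall_notMem]
      intro g hg
      exact hx'.2.2.1 (smul_left_cancel g (hg.1.2.trans (e.trans hg.2.symm)))
    · rw [← C.c4 δ γ x x' α β y z hx (by simp [hab, hy'.1.symm, hy'.2.symm, hz'.1.symm, hz'.2.symm, e])]
      exact Set.ncard_le_ncard (fun g hg => ⟨hg.1.1.1, hg.1.1.2.1, hg.1.2, hg.2⟩) (Set.toFinite _)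

theorem supb : SUP := by
  intro G Ω _ _ _ _ u v Γ Δ hu hv
  have fu : ∀ z, z ∉ Γ → u • z = z := fun z hz => by_contra fun h => hz (hu h)
  have fv : ∀ z, z ∉ Δ → v • z = z := fun z hz => by_contra fun h => hz (hv h)
  have : supp Ω ((v * u)⁻¹ * (u * v)) ⊆
      ((Γ ∩ Δ) ∪ {z | z ∈ Γ ∧ z ∉ Δ ∧ u • z ∈ Δ}) ∪ {z | z ∈ Δ ∧ z ∉ Γ ∧ v • z ∈ Γ} := by
    intro z hz
    by_contra hn
    simp only [Set.mem_union, Set.mem_inter_iff, Set.mem_setOf_eq, not_or, not_and] at hn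
    apply hz
    rw [mul_smul, inv_smul_eq_iff, mul_smul, mul_smul]
    by_cases h1 : z ∈ Γ
    · have h2 := hn.1.1 h1
      rw [fv z h2, fv _ (hn.1.2 h1 h2)]
    · by_cases h2 : z ∈ Δ
      · rw [fu z h1, fu _ (hn.2 h2 h1)]
      · rw [fv z h2, fu z h1, fv z h2]
  exact (Set.ncard_le_ncard this (Set.toFinite _)).trans
    ((Set.ncard_union_le _ _).trans (Nat.add_le_add_right (Set.ncard_union_le _ _) _))

end CL.Pro9
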