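/-
Project Pro9 (S3399): the path count and the constant `μ`.
-/
import Cfsg.Agent.Pro9.Defs

set_option autoImplicit false

namespace CL.Pro9

namespace pthx

theorem dc {α β : Type} [Finite α] [Finite β] (S : Set α) (T : Set β) (r : α → β → Prop) (m n : ℕ)
    (hm : ∀ a ∈ S, {b | b ∈ T ∧ r a b}.ncard = m) (hn : ∀ b ∈ T, {a | a ∈ S ∧ r a b}.ncard = n) :
    S.ncard * m = T.ncard * n := by
  classical
  have hS : S.ncard = (S.toFinite.toFinset).card := Set.ncard_eq_toFinset_card S S.toFinite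
  have hT : T.ncard = (T.toFinite.toFinset).card := Set.ncard_eq_toFinset_card T T.toFinite
  rw [hS, hT]
  apply Finset.card_mul_eq_card_mul r
  · intro a ha
    rw [← hm a (by simpa using ha), ← Set.ncard_coe_finset]
    congr 1
    ext b
    simp [Finset.mem_bipartiteAbove]
  · intro b hb
    rw [← hn b (by simpa using hb), ← Set.ncard_coe_finset]
    congr 1
    ext a
    simp [Finset.mem_bipartiteBelow]

theorem tt {Ω : Type} {ρ : Ω → Ω → Ω → Ω → Prop} (h : R0 ρ) {a b c d : Ω} (x : ρ a b c d) : ρ a d b c :=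
  h.s2 _ _ _ _ (h.s3 _ _ _ _ x)

theorem uu {Ω : Type} {ρ : Ω → Ω → Ω → Ω → Prop} (h : R0 ρ) {a b c d : Ω} (x : ρ a b c d) : ρ b d a c :=
  tt h (h.s1 _ _ _ _ x)

theorem nd4 {Ω : Type} {a b c d : Ω} :
    [a, b, c, d].Nodup ↔ a ≠ b ∧ a ≠ c ∧ a ≠ d ∧ b ≠ c ∧ b ≠ d ∧ c ≠ d := by
  simp only [List.nodup_cons, List.mem_cons, List.not_mem_nil, or_false, not_or, List.nodup_nil, and_true,
    not_false_eq_true, ne_eq]
  tauto

theorem nd3 {Ω : Type} {a b c : Ω} : [a, b, c].Nodup ↔ a ≠ b ∧ a ≠ c ∧ b ≠ c := by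
  simp only [List.nodup_cons, List.mem_cons, List.not_mem_nil, or_false, not_or, List.nodup_nil, and_true,
    not_false_eq_true, ne_eq]
  tauto

theorem cntE {Ω : Type} [Finite Ω] {ρ : Ω → Ω → Ω → Ω → Prop} (h : R0 ρ) {a b c : Ω} (hn : [a, b, c].Nodup) :
    3 + {d | ρ a b c d}.ncard + {e | [a, b, c, e].Nodup ∧ ¬ ρ a b c e}.ncard = Nat.card Ω := by
  obtain ⟨hab, hac, hbc⟩ := nd3.1 hn
  have h3 : ({a, b, c} : Set Ω).ncard = 3 := Set.ncard_eq_three.2 ⟨a, b, c, hab, hac, hbc, rfl⟩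
  have hd : Disjoint ({a, b, c} : Set Ω) {d | ρ a b c d} := by
    rw [Set.disjoint_left]
    intro x hx hx'
    obtain ⟨-, -, h1, -, h2, h4⟩ := nd4.1 (h.nd _ _ _ _ hx')
    rcases hx with rfl | rfl | rfl
    · exact h1 rfl
    · exact h2 rfl
    · exact h4 rfl
  have he : {e | [a, b, c, e].Nodup ∧ ¬ ρ a b c e} = (({a, b, c} : Set Ω) ∪ {d | ρ a b c d})ᶜ := by
    ext e
    simp only [Set.mem_setOf_eq, Set.mem_compl_iff, Set.mem_union, Set.mem_insert_iff, Set.mem_singleton_iff,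
      nd4, not_or]
    constructor
    · rintro ⟨⟨-, -, h1, -, h2, h4⟩, h5⟩
      exact ⟨⟨fun x => h1 x.symm, fun x => h2 x.symm, fun x => h4 x.symm⟩, h5⟩
    · rintro ⟨⟨h1, h2, h4⟩, h5⟩
      exact ⟨⟨hab, hac, fun x => h1 x.symm, hbc, fun x => h2 x.symm, fun x => h4 x.symm⟩, h5⟩
  rw [he, ← h3, ← Set.ncard_union_eq hd, Set.ncard_add_ncard_compl]

theorem le_of_ro {G Ω : Type} [Group G] [Finite Ω] [MulAction G Ω] {ρ : Ω → Ω → Ω → Ω → Prop}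
    (hi : ∀ (g : G) a b c d, ρ a b c d → ρ (g • a) (g • b) (g • c) (g • d)) {a b c e x y z w : Ω}
    (h : Ro G a b c e x y z w) :
    {d | ρ a b c d ∧ ρ a b e d}.ncard ≤ {d | ρ x y z d ∧ ρ x y w d}.ncard := by
  obtain ⟨g, rfl, rfl, rfl, rfl⟩ := h
  exact Set.ncard_le_ncard_of_injOn (fun d => g • d) (fun d hd => ⟨hi g _ _ _ _ hd.1, hi g _ _ _ _ hd.2⟩)
    (fun p _ q _ hpq => MulAction.injective g hpq)

end pthx

open pthx

theorem pth : PTH := by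
  intro Ω _ ρ Z a b c k l μ h hn hc hk hl hμ
  obtain ⟨hab, hac, hbc⟩ := nd3.1 hn
  have key := dc {e | e ∈ Z ∧ [a, b, c, e].Nodup ∧ ¬ ρ a b c e} {d | d ∈ Z ∧ ρ a b c d}
    (fun e d => ρ a b e d) μ (k - 1) ?_ ?_
  · rw [hl, hk c hc hn] at key
    exact key
  · rintro e ⟨heZ, hen, he⟩
    rw [← hμ e heZ hen he]
    congr 1
    ext d
    simp only [Set.mem_setOf_eq, and_assoc]
  · rintro d ⟨hdZ, hd⟩
    obtain ⟨-, -, had, -, hbd, hcd⟩ := nd4.1 (h.nd _ _ _ _ hd)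
    have hkd := hk d hdZ (nd3.2 ⟨hab, had, hbd⟩)
    have hcm : c ∈ {w | w ∈ Z ∧ ρ a b d w} := ⟨hc, h.s3 _ _ _ _ hd⟩
    rw [← hkd, ← Set.ncard_diff_singleton_of_mem hcm]
    congr 1
    ext e
    simp only [Set.mem_setOf_eq, Set.mem_diff, Set.mem_singleton_iff]
    constructor
    · rintro ⟨⟨heZ, hen, -⟩, h2⟩
      exact ⟨⟨heZ, h.s3 _ _ _ _ h2⟩, fun x => (nd4.1 hen).2.2.2.2.2 x.symm⟩
    · rintro ⟨⟨heZ, h2⟩, hec⟩
      obtain ⟨-, -, hae, -, hbe, -⟩ := nd4.1 (h.nd _ _ _ _ h2)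
      exact ⟨⟨heZ, nd4.2 ⟨hab, hac, hae, hbc, hbe, fun x => hec x.symm⟩, h.tri _ _ _ _ _ (h.s3 _ _ _ _ hd) h2⟩,
        h.s3 _ _ _ _ h2⟩

theorem mu (h : PTH) : MU := by
  intro G Ω _ _ _ _ K f ρ k l hcard hR
  have h0 := hR.r0
  have hf := hR.hf
  have hk := hR.hk
  have h2 : 2 < (Set.univ : Set Ω).ncard := by rw [Set.ncard_univ, hcard]; omega
  obtain ⟨a, b, c, -, -, -, hab, hac, hbc⟩ := (Set.two_lt_ncard_iff Set.finite_univ).1 h2
  have hn : [a, b, c].Nodup := nd3.2 ⟨hab, hac, hbc⟩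
  have hE : {e | [a, b, c, e].Nodup ∧ ¬ ρ a b c e}.ncard = 2 * l + 2 := by
    have := cntE h0 hn
    rw [hR.cnt a b c hn, hcard] at this
    omega
  obtain ⟨e, hen, he⟩ : {e | [a, b, c, e].Nodup ∧ ¬ ρ a b c e}.Nonempty :=
    Set.nonempty_of_ncard_ne_zero (by omega)
  have hcon : ∀ x y z w, [x, y, z, w].Nodup → ¬ ρ x y z w →
      {d | ρ x y z d ∧ ρ x y w d}.ncard = {d | ρ a b c d ∧ ρ a b e d}.ncard := fun x y z w h1 h3 =>
    le_antisymm (le_of_ro hR.inv (hR.tr _ _ _ _ _ _ _ _ h1 hen h3 he))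
      (le_of_ro hR.inv (hR.tr _ _ _ _ _ _ _ _ hen h1 he h3))
  refine ⟨{d | ρ a b c d ∧ ρ a b e d}.ncard, hcon, ?_, ?_⟩
  · have := h Ω ρ Set.univ a b c (2 * k + 1) (2 * l + 2) {d | ρ a b c d ∧ ρ a b e d}.ncard h0 hn trivial
      (fun z _ hz => by simpa using hR.cnt a b z hz) (by simpa using hE)
      (fun w _ h1 h3 => by simpa using hcon a b c w h1 h3)
    simpa using this
  · obtain ⟨-, -, hae, -, hbe, hce⟩ := nd4.1 hen
    have e2 := hcon a c b e (nd4.2 ⟨hac, hab, hae, hbc.symm, hce, hbe⟩) (fun x => he (h0.s2 _ _ _ _ x))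
    have e3 := hcon b c a e (nd4.2 ⟨hbc, hab.symm, hbe, hac.symm, hce, hae⟩)
      (fun x => he (h0.s1 _ _ _ _ (h0.s2 _ _ _ _ x)))
    have d12 : Disjoint {d | ρ a b c d ∧ ρ a b e d} {d | ρ a c b d ∧ ρ a c e d} := by
      rw [Set.disjoint_left]
      rintro d ⟨x1, x2⟩ ⟨-, x3⟩
      exact h0.tri _ _ _ _ _ (tt h0 x1) (tt h0 x2) (tt h0 x3)
    have d3 : Disjoint ({d | ρ a b c d ∧ ρ a b e d} ∪ {d | ρ a c b d ∧ ρ a c e d})
        {d | ρ b c a d ∧ ρ b c e d} := by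
      rw [Set.disjoint_left]
      rintro d (⟨x1, x2⟩ | ⟨x1, x2⟩) ⟨-, x3⟩
      · exact h0.tri _ _ _ _ _ (uu h0 x1) (uu h0 x2) (tt h0 x3)
      · exact h0.tri _ _ _ _ _ (uu h0 x1) (uu h0 x2) (uu h0 x3)
    have hsub : ({d | ρ a b c d ∧ ρ a b e d} ∪ {d | ρ a c b d ∧ ρ a c e d}) ∪ {d | ρ b c a d ∧ ρ b c e d} ⊆
        {d | ρ a b c d} := by
      rintro d ((⟨x1, -⟩ | ⟨x1, -⟩) | ⟨x1, -⟩)
      · exact x1
      · exact h0.s2 _ _ _ _ x1
      · exact h0.s1 _ _ _ _ (h0.s2 _ _ _ _ x1)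
    have hle := Set.ncard_le_ncard hsub
    rw [Set.ncard_union_eq d3, Set.ncard_union_eq d12, e2, e3, hR.cnt a b c hn] at hle
    omega

end CL.Pro9
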