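/-
Project Pro9 (S3399): the case of two orbits on 4-tuples does not occur.
-/
import Cfsg.Agent.Pro9.Defs

set_option autoImplicit false

namespace CL.Pro9

namespace rbfx

theorem arith {k l m m' : ℕ} (hk : 1 ≤ k) (h1 : (2 * l + 2) * m = (2 * k + 1) * (2 * k)) (h2 : 3 * m ≤ 2 * k + 1)
    (h3 : l * m' = k * (k - 1)) : m = 1 ∧ m' = 0 := by
  obtain ⟨k, rfl⟩ := Nat.exists_eq_add_of_le' hk
  rw [Nat.add_sub_cancel] at h3
  have e : l * m + m = 2 * (l * m') + 3 * (k + 1) := by nlinarith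
  have m0 : 0 < m := by
    rcases Nat.eq_zero_or_pos m with rfl | h
    · omega
    · exact h
  have h4 : 2 * m' + 1 ≤ m := by
    by_contra h
    have : l * m ≤ l * (2 * m') := Nat.mul_le_mul_left _ (by omega)
    nlinarith
  have h5 : l * (2 * m' + 1) ≤ l * m := Nat.mul_le_mul_left _ h4
  have h6 : l + m ≤ 3 * (k + 1) := by nlinarith
  have h7 : 3 * (k + 1) ≤ l + 1 := by
    refine Nat.le_of_mul_le_mul_right (c := m) ?_ m0
    have : (k + 1) * (3 * m) ≤ (k + 1) * (2 * (k + 1) + 1) := Nat.mul_le_mul_left _ h2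
    nlinarith
  omega

end rbfx

theorem rbf (h1 : FUN) (h2 : PTH) (h3 : MU) : RBF := by
  intro G Ω _ _ _ _ K f ρ k l cx rb
  obtain ⟨μ, m1, m2, m3⟩ := h3 G Ω K f ρ k l cx.card rb
  obtain ⟨a, ha, b, hb, c, hc, ab, ac, bc⟩ := (Set.two_lt_ncard (Set.toFinite (Fx Ω K))).1
    (by rw [cx.fix]; have := cx.four; omega)
  have nd : [a, b, c].Nodup := by simp [ab, ac, bc]
  have hE : {e | e ∈ Fx Ω K ∧ [a, b, c, e].Nodup ∧ ¬ ρ a b c e}.ncard = l := by
    have e1 : Fx Ω K = ({a, b, c} ∪ {d | d ∈ Fx Ω K ∧ ρ a b c d}) ∪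
        {e | e ∈ Fx Ω K ∧ [a, b, c, e].Nodup ∧ ¬ ρ a b c e} := by
      ext x
      simp only [Set.mem_union, Set.mem_insert_iff, Set.mem_singleton_iff, Set.mem_ofPred_eq]
      refine ⟨fun hx => ?_, ?_⟩
      · by_cases r : ρ a b c x
        · exact .inl (.inr ⟨hx, r⟩)
        by_cases t : x = a ∨ x = b ∨ x = c
        · exact .inl (.inl t)
        · simp only [not_or] at t
          exact .inr ⟨hx, by simp [ab, ac, bc, Ne.symm t.1, Ne.symm t.2.1, Ne.symm t.2.2], r⟩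
      · rintro (((rfl | rfl | rfl) | h) | h)
        exacts [ha, hb, hc, h.1, h.1]
    have d1 : Disjoint ({a, b, c} : Set Ω) {d | d ∈ Fx Ω K ∧ ρ a b c d} := Set.disjoint_left.2 (by
      rintro x (rfl | rfl | rfl) h <;> simpa using rb.r0.nd _ _ _ _ h.2)
    have d2 : Disjoint (({a, b, c} : Set Ω) ∪ {d | d ∈ Fx Ω K ∧ ρ a b c d})
        {e | e ∈ Fx Ω K ∧ [a, b, c, e].Nodup ∧ ¬ ρ a b c e} := Set.disjoint_left.2 (by
      rintro x ((rfl | rfl | rfl) | h) h'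
      · simpa using h'.2.1
      · simpa using h'.2.1
      · simpa using h'.2.1
      · exact h'.2.2 h.2)
    have e2 := congrArg Set.ncard e1
    rw [Set.ncard_union_eq d2, Set.ncard_union_eq d1, rb.cntF a ha b hb c hc nd, cx.fix,
      Set.ncard_eq_three.2 ⟨a, b, c, ab, ac, bc, rfl⟩, rb.hf] at e2
    omega
  have hk := rb.hk
  have hl : 1 ≤ l := by
    rcases Nat.eq_zero_or_pos l with rfl | h
    · nlinarith
    · exact h
  obtain ⟨e₀, f₀, n₀, r₀⟩ := Set.nonempty_of_ncard_ne_zero (hE ▸ (by omega : l ≠ 0))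
  have key := h2 Ω ρ (Fx Ω K) a b c k l {d | d ∈ Fx Ω K ∧ ρ a b c d ∧ ρ a b e₀ d}.ncard rb.r0 nd hc
    (fun z hz h => rb.cntF a ha b hb z hz h) hE fun e he ne re => by
      obtain ⟨g, ga, gb, gc, ge⟩ := rb.tr a b c e₀ a b c e n₀ ne r₀ re
      obtain ⟨n, n1, n2⟩ := h1 G Ω K g cx.pro
      have na : n • a = a := (n2 a ha (ga.symm ▸ ha)).trans ga
      have nb : n • b = b := (n2 b hb (gb.symm ▸ hb)).trans gb
      have nc : n • c = c := (n2 c hc (gc.symm ▸ hc)).trans gc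
      have ne : n • e₀ = e := (n2 e₀ f₀ (ge.symm ▸ he)).trans ge
      rw [← Set.ncard_image_of_injective {d | d ∈ Fx Ω K ∧ ρ a b c d ∧ ρ a b e₀ d} (MulAction.injective n)]
      congr 1
      ext d
      refine ⟨fun h => ⟨n⁻¹ • d, ⟨(n1 _).1 (by rw [smul_inv_smul]; exact h.1), ?_, ?_⟩, smul_inv_smul n d⟩, ?_⟩
      · have := rb.inv n⁻¹ _ _ _ _ h.2.1
        rwa [inv_smul_eq_iff.2 na.symm, inv_smul_eq_iff.2 nb.symm, inv_smul_eq_iff.2 nc.symm] at this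
      · have := rb.inv n⁻¹ _ _ _ _ h.2.2
        rwa [inv_smul_eq_iff.2 na.symm, inv_smul_eq_iff.2 nb.symm, inv_smul_eq_iff.2 ne.symm] at this
      · rintro ⟨d, h, rfl⟩
        refine ⟨(n1 d).2 h.1, ?_, ?_⟩
        · have := rb.inv n _ _ _ _ h.2.1
          rwa [na, nb, nc] at this
        · have := rb.inv n _ _ _ _ h.2.2
          rwa [na, nb, ne] at this
  obtain ⟨rfl, z⟩ := rbfx.arith hk m2 m3 key
  obtain ⟨d, hd⟩ := Set.ncard_eq_one.1 (m1 a b c e₀ n₀ r₀)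
  have dm : ρ a b c d ∧ ρ a b e₀ d := (hd.ge (Set.mem_singleton d) : d ∈ {d | ρ a b c d ∧ ρ a b e₀ d})
  have dF : d ∈ Fx Ω K := fun x hx => by
    have t1 := rb.inv x _ _ _ _ dm.1
    have t2 := rb.inv x _ _ _ _ dm.2
    rw [ha x hx, hb x hx, hc x hx] at t1
    rw [ha x hx, hb x hx, f₀ x hx] at t2
    exact hd.le (show x • d ∈ {d | ρ a b c d ∧ ρ a b e₀ d} from ⟨t1, t2⟩)
  exact Set.ncard_ne_zero_of_mem (show d ∈ {d | d ∈ Fx Ω K ∧ ρ a b c d ∧ ρ a b e₀ d} from ⟨dF, dm⟩) (Set.toFinite _) z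

end CL.Pro9
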