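/-
Project Pro9: reduction to faithful actions.
-/
import Cfsg.Agent.Pro9.Defs

set_option autoImplicit false

namespace CL.Pro9

namespace redx

theorem key {A B : Type} [Group A] [Group B] (f : A →* B) (L : Subgroup A) (g : A) :
    (L.map (MulAut.conj g).toMonoidHom).map f = (L.map f).map (MulAut.conj (f g)).toMonoidHom := by
  rw [Subgroup.map_map, Subgroup.map_map]
  congr 1
  ext a
  simp

theorem pro_map {A B : Type} [Group A] [Group B] (f : A →* B) (hf : Function.Surjective f) {L : Subgroup A}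
    (h : Pro ⊤ L) : Pro ⊤ (L.map f) := by
  intro g' _
  obtain ⟨g, rfl⟩ := hf g'
  obtain ⟨w, hw, e⟩ := h g trivial
  refine ⟨f w, ?_, ?_⟩
  · rw [← key, ← Subgroup.map_sup]
    exact Subgroup.mem_map_of_mem f hw
  · rw [← key, ← key, e]

theorem pro_sub {G : Type} [Group G] {X K : Subgroup G} (hK : K ≤ X) (h : Pro X K) :
    Pro (⊤ : Subgroup X) (K.subgroupOf X) := by
  intro g _
  obtain ⟨w, hw, e⟩ := h g g.2
  have e0 : (K.subgroupOf X).map X.subtype = K := Subgroup.map_subgroupOf_eq_of_le hK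
  have e1 : ∀ x : X, ((K.subgroupOf X).map (MulAut.conj x).toMonoidHom).map X.subtype =
      K.map (MulAut.conj (x : G)).toMonoidHom := fun x => by
    rw [key, e0]
    rfl
  have hw' : w ∈ (K.subgroupOf X ⊔ (K.subgroupOf X).map (MulAut.conj g).toMonoidHom).map X.subtype := by
    rw [Subgroup.map_sup, e0, e1]
    exact hw
  obtain ⟨w', hw', rfl⟩ := hw'
  refine ⟨w', hw', Subgroup.map_injective X.subtype_injective ?_⟩
  rw [e1, e1]
  exact e

variable {G Ω : Type} [Group G] [MulAction G Ω]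

/-- the action of `X` on an invariant set -/
def rho (X : Subgroup G) (Γ : Set Ω) (h : ∀ x ∈ X, ∀ a ∈ Γ, x • a ∈ Γ) : X →* Equiv.Perm Γ where
  toFun x :=
    { toFun := fun a => ⟨(x : G) • a.1, h x x.2 a a.2⟩
      invFun := fun a => ⟨(x : G)⁻¹ • a.1, h _ (X.inv_mem x.2) a a.2⟩
      left_inv := fun a => Subtype.ext (inv_smul_smul _ _)
      right_inv := fun a => Subtype.ext (smul_inv_smul _ _) }
  map_one' := by
    ext a
    simp
  map_mul' x y := by
    ext a
    simp [mul_smul]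

theorem rho_smul (X : Subgroup G) (Γ : Set Ω) (h : ∀ x ∈ X, ∀ a ∈ Γ, x • a ∈ Γ) (x : X) (a : Γ) :
    (((rho X Γ h).rangeRestrict x • a : Γ) : Ω) = (x : G) • (a : Ω) := rfl

end redx

open redx in
theorem red : RED := by
  intro n ih H G Ω _ _ _ _ X K Γ hlt hK hP hT hM
  rcases Nat.lt_succ_iff_lt_or_eq.1 hlt with h | h
  · exact ih G Ω X K Γ h hK hP hT hM
  letI : Fintype (rho X Γ hT.1).range := Fintype.ofFinite _
  let K' : Subgroup (rho X Γ hT.1).range := (K.subgroupOf X).map (rho X Γ hT.1).rangeRestrict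
  have hc : Nat.card Γ = n := by rw [← h]; rfl
  have hF : Subtype.val '' Fx Γ K' = Γ ∩ Fx Ω K := by
    ext z
    constructor
    · rintro ⟨a, ha, rfl⟩
      refine ⟨a.2, fun k hk => ?_⟩
      have := ha _ (Subgroup.mem_map_of_mem (rho X Γ hT.1).rangeRestrict (x := ⟨k, hK hk⟩) hk)
      exact congrArg Subtype.val this
    · rintro ⟨hz, hz'⟩
      refine ⟨⟨z, hz⟩, ?_, rfl⟩
      rintro _ ⟨k, hk, rfl⟩
      exact Subtype.ext (hz' k hk)
  have hS : Sit n ⊤ K' (Set.univ : Set Γ) :=
    { ih := ih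
      le := le_top
      pro := pro_map _ (rho X Γ hT.1).rangeRestrict_surjective (pro_sub hK hP)
      tr := ⟨fun _ _ _ _ => trivial, fun a _ b _ => by
        obtain ⟨x, hx, e⟩ := hT.2 a a.2 b b.2
        exact ⟨(rho X Γ hT.1).rangeRestrict ⟨x, hx⟩, trivial, Subtype.ext e⟩⟩
      mv := by
        obtain ⟨k, hk, a, ha, e⟩ := hM
        exact ⟨_, Subgroup.mem_map_of_mem (rho X Γ hT.1).rangeRestrict (x := ⟨k, hK hk⟩) hk, ⟨a, ha⟩, trivial,
          fun e' => e (congrArg Subtype.val e')⟩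
      card := by rw [Set.ncard_univ, hc] }
  have := H (rho X Γ hT.1).range Γ K' hc hS
  rw [← hF, Set.ncard_image_of_injective _ Subtype.val_injective, h]
  exact this

end CL.Pro9
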