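/-
Project Pro9 (S3399; helper90, job of helper40): the orbits of the stabiliser of three fixed points.
-/
import Cfsg.Agent.Pro9.Defs

set_option autoImplicit false

namespace CL.Pro9

namespace rk1x

variable {G Ω : Type} [Group G] [MulAction G Ω] {X : Subgroup G}

theorem self (X : Subgroup G) (a : Ω) : a ∈ orb X a := ⟨1, one_mem _, one_smul _ _⟩

theorem symm {a b : Ω} (h : b ∈ orb X a) : a ∈ orb X b := by
  obtain ⟨x, hx, rfl⟩ := h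
  exact ⟨x⁻¹, inv_mem hx, inv_smul_smul _ _⟩

theorem trans {a b c : Ω} (h : b ∈ orb X a) (k : c ∈ orb X b) : c ∈ orb X a := by
  obtain ⟨x, hx, rfl⟩ := h
  obtain ⟨y, hy, rfl⟩ := k
  exact ⟨y * x, mul_mem hy hx, mul_smul _ _ _⟩

theorem inv (a : Ω) : ∀ x ∈ X, ∀ b ∈ orb X a, x • b ∈ orb X a := fun x hx _ hb => trans hb ⟨x, hx, rfl⟩

theorem tr (X : Subgroup G) (a : Ω) : Tr X (orb X a) := ⟨inv a, fun _ hb _ hc => trans (symm hb) hc⟩

theorem sub {D : Set Ω} (hD : ∀ x ∈ X, ∀ b ∈ D, x • b ∈ D) {a : Ω} (ha : a ∈ D) : orb X a ⊆ D := by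
  rintro _ ⟨x, hx, rfl⟩
  exact hD x hx a ha

theorem diff {D : Set Ω} (hD : ∀ x ∈ X, ∀ b ∈ D, x • b ∈ D) (a : Ω) :
    ∀ x ∈ X, ∀ b ∈ D \ orb X a, x • b ∈ D \ orb X a := fun x hx b hb =>
  ⟨hD x hx b hb.1, fun h => hb.2 (trans h (symm ⟨x, hx, rfl⟩))⟩

theorem split [Finite Ω] {A B : Set Ω} (F : Set Ω) (h : A ⊆ B) :
    A.ncard + (B \ A).ncard = B.ncard ∧ (A ∩ F).ncard + ((B \ A) ∩ F).ncard = (B ∩ F).ncard := by
  have k := Set.ncard_inter_add_ncard_sdiff_eq_ncard B A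
  have k' := Set.ncard_inter_add_ncard_sdiff_eq_ncard (B ∩ F) A
  rw [Set.inter_eq_right.2 h] at k
  rw [Set.inter_right_comm, Set.inter_eq_right.2 h, show (B ∩ F) \ A = (B \ A) ∩ F by
    ext; simp only [Set.mem_sdiff, Set.mem_inter_iff]; tauto] at k'
  exact ⟨k, k'⟩

end rk1x

open rk1x in
theorem rk1 (h1 : SUB) (h2 : DEF) (h3 : EXT) (h4 : MAN) : RK1 := by
  intro G Ω _ _ _ _ K f a b c cx ha hb hc nd sit prim
  have h4' := cx.four
  obtain ⟨ab, ac, bc⟩ : a ≠ b ∧ a ≠ c ∧ b ≠ c := by simpa [and_assoc] using nd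
  let D : Set Ω := {a, b, c}ᶜ
  have mD : ∀ e, e ∈ D ↔ [a, b, c, e].Nodup := fun e => by
    simp only [D, Set.mem_compl_iff, Set.mem_insert_iff, Set.mem_singleton_iff, List.nodup_cons, List.mem_cons,
      List.not_mem_nil, List.nodup_nil]
    grind
  have mΓ : ∀ e, e ∈ D ↔ e ∈ ({a, b}ᶜ : Set Ω) ∧ e ≠ c := fun e => by
    simp only [D, Set.mem_compl_iff, Set.mem_insert_iff, Set.mem_singleton_iff]
    tauto
  have cΓ : c ∈ ({a, b}ᶜ : Set Ω) := by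
    simp only [Set.mem_compl_iff, Set.mem_insert_iff, Set.mem_singleton_iff]
    grind
  have KY : K ≤ G3 G a b c := fun k hk => mem_G3.2 ⟨ha k hk, hb k hk, hc k hk⟩
  have mov : ∀ (g : G) (x y z w : Ω), [x, y, z, w].Nodup → [g • x, g • y, g • z, g • w].Nodup := fun g x y z w h =>
    h.map (MulAction.injective g)
  have iD : ∀ y ∈ G3 G a b c, ∀ e ∈ D, y • e ∈ D := fun y hy e he => by
    obtain ⟨y1, y2, y3⟩ := mem_G3.1 hy
    have := mov y _ _ _ _ ((mD e).1 he)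
    rwa [y1, y2, y3, ← mD] at this
  have c3 : ({a, b, c} : Set Ω).ncard = 3 := Set.ncard_eq_three.2 ⟨a, b, c, ab, ac, bc, rfl⟩
  have cD : 3 + D.ncard = 2 * f := by rw [← c3, Set.ncard_add_ncard_compl, cx.card]
  have cG : 2 + ({a, b}ᶜ : Set Ω).ncard = 2 * f := by rw [← cx.card, ← Set.ncard_pair ab, Set.ncard_add_ncard_compl]
  have cF : 3 + (D ∩ Fx Ω K).ncard = f := by
    have k := Set.ncard_inter_add_ncard_sdiff_eq_ncard (Fx Ω K) {a, b, c}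
    rwa [Set.inter_eq_right.2 (by rintro x (rfl | rfl | rfl) <;> assumption), c3, cx.fix, Set.sdiff_eq,
      Set.inter_comm] at k
  have mv : ∀ e ∈ D, Mv K (orb (G3 G a b c) e) := fun e he =>
    h1 G Ω _ _ K _ c e sit prim cΓ hc ((mΓ e).1 he).1 ((mΓ e).1 he).2
  have lt : ∀ Δ ⊆ D, Δ.ncard < 2 * f := fun Δ h => by
    have := Set.ncard_le_ncard h
    omega
  have df : ∀ Δ ⊆ D, (∀ y ∈ G3 G a b c, ∀ e ∈ Δ, y • e ∈ Δ) → Δ.Nonempty →
      2 * (Δ ∩ Fx Ω K).ncard + 1 ≤ Δ.ncard := fun Δ h hi hn =>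
    h2 G Ω _ _ K Δ cx.ih KY (cx.pro.mono le_top) hi (lt Δ h) (fun e he => mv e (h he)) hn
  have dfo : ∀ e ∈ D, 2 * (orb (G3 G a b c) e ∩ Fx Ω K).ncard + 1 ≤ (orb (G3 G a b c) e).ncard := fun e he =>
    df _ (sub iD he) (inv e) ⟨e, self _ e⟩
  have ext : ∀ e ∈ D, (orb (G3 G a b c) e).ncard = 2 * (orb (G3 G a b c) e ∩ Fx Ω K).ncard + 1 →
      Tr2 (G3 G a b c) (orb (G3 G a b c) e) ∧ 3 ≤ (orb (G3 G a b c) e).ncard := fun e he h =>
    h3 G Ω _ _ K _ ⟨cx.ih, KY, cx.pro.mono le_top, tr _ e, mv e he, (lt _ (sub iD he)).le⟩ h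
  have mk : ∀ d ∈ D, ∀ e : Ω, D \ orb (G3 G a b c) d ⊆ orb (G3 G a b c) e →
      (orb (G3 G a b c) d).ncard = 2 * (orb (G3 G a b c) d ∩ Fx Ω K).ncard + 1 → ∃ d k l, RD K f a b c d k l :=
    fun d hd e he h => by
    obtain ⟨t2, t3⟩ := ext d hd h
    obtain ⟨-, s2⟩ := split (Fx Ω K) (sub iD hd)
    exact ⟨d, _, ((D \ orb (G3 G a b c) d) ∩ Fx Ω K).ncard, ha, hb, hc, (mD d).1 hd, h, rfl, t2,
      fun x y hx hy nx ny => trans (symm (he ⟨(mD x).2 hx, nx⟩)) (he ⟨(mD y).2 hy, ny⟩), by omega, by omega⟩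
  obtain ⟨d, hd, mx⟩ := Set.exists_max_image D (fun e => (orb (G3 G a b c) e).ncard) (Set.toFinite _)
    (Set.nonempty_of_ncard_ne_zero (by omega))
  rcases (D \ orb (G3 G a b c) d).eq_empty_or_nonempty with hR | ⟨e, he⟩
  · refine Or.inl fun a1 b1 c1 d1 a2 b2 c2 d2 n1 n2 => ?_
    have s3 : ∀ x y z w : Ω, [x, y, z, w].Nodup → [x, y, z].Nodup := fun x y z w h =>
      h.sublist (List.sublist_append_left [x, y, z] [w])
    obtain ⟨g1, p1, p2, p3⟩ := cx.t3 _ _ _ _ _ _ (s3 _ _ _ _ n1) nd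
    obtain ⟨g2, q1, q2, q3⟩ := cx.t3 _ _ _ _ _ _ (s3 _ _ _ _ n2) nd
    have m1 := mov g1 _ _ _ _ n1
    have m2 := mov g2 _ _ _ _ n2
    rw [p1, p2, p3, ← mD] at m1
    rw [q1, q2, q3, ← mD] at m2
    obtain ⟨y, hy, e⟩ := trans (symm (Set.sdiff_eq_empty.1 hR m1)) (Set.sdiff_eq_empty.1 hR m2)
    obtain ⟨y1, y2, y3⟩ := mem_G3.1 hy
    refine ⟨g2⁻¹ * y * g1, ?_, ?_, ?_, ?_⟩ <;> rw [mul_smul, mul_smul, inv_smul_eq_iff]
    · rw [p1, y1, q1]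
    · rw [p2, y2, q2]
    · rw [p3, y3, q3]
    · exact e
  · right
    have iR := diff iD d
    obtain ⟨s1, s2⟩ := split (Fx Ω K) (sub iD hd)
    obtain ⟨t1, t2⟩ := split (Fx Ω K) (sub iR he)
    have d1 := dfo d hd
    have d2 := dfo e he.1
    rcases ((D \ orb (G3 G a b c) d) \ orb (G3 G a b c) e).eq_empty_or_nonempty with hR | hR
    · by_cases k : (orb (G3 G a b c) d).ncard = 2 * (orb (G3 G a b c) d ∩ Fx Ω K).ncard + 1
      · exact mk d hd e (Set.sdiff_eq_empty.1 hR) k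
      · rw [hR, Set.empty_inter, Set.ncard_empty] at t2
        rw [hR, Set.ncard_empty] at t1
        refine mk e he.1 d (fun x hx => by_contra fun k => hx.2 (Set.sdiff_eq_empty.1 hR ⟨hx.1, k⟩)) (by omega)
    · have d3 := df _ (Set.sdiff_subset.trans Set.sdiff_subset) (diff iR e) hR
      obtain ⟨t2, t3⟩ := ext d hd (by omega)
      obtain ⟨x, x1, x2, x3⟩ := h4 G Ω _ _ c d sit.tr prim cΓ ((mΓ d).1 hd).1 ((mΓ d).1 hd).2 t2 t3
        (show (orb (G3 G a b c) d).ncard + 1 < _ by omega)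
      exact absurd (mx x ((mΓ x).2 ⟨x1, x2⟩)) (not_le.2 x3)

end CL.Pro9
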