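/-
Project Pro9: the orbit of the 4-tuple is symmetric and triangle-free.
-/
import Cfsg.Agent.Pro9.Defs

set_option autoImplicit false

namespace CL.Pro9

namespace rk2x

variable {G Ω : Type} [Group G] [MulAction G Ω] {a b c d x y z w : Ω}

theorem inv (h : Ro G a b c d x y z w) (g : G) : Ro G a b c d (g • x) (g • y) (g • z) (g • w) := by
  obtain ⟨k, rfl, rfl, rfl, rfl⟩ := h
  exact ⟨g * k, mul_smul _ _ _, mul_smul _ _ _, mul_smul _ _ _, mul_smul _ _ _⟩

theorem nd (n : [a, b, c, d].Nodup) (h : Ro G a b c d x y z w) : [x, y, z, w].Nodup := by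
  obtain ⟨k, rfl, rfl, rfl, rfl⟩ := h
  simpa using n

theorem mem : Ro G a b c d a b c w ↔ w ∈ orb (G3 G a b c) d :=
  ⟨fun ⟨g, h1, h2, h3, h4⟩ => ⟨g, mem_G3.2 ⟨h1, h2, h3⟩, h4⟩,
    fun ⟨g, h, h4⟩ => ⟨g, (mem_G3.1 h).1, (mem_G3.1 h).2.1, (mem_G3.1 h).2.2, h4⟩⟩

theorem sub (n : [a, b, c, d].Nodup) : orb (G3 G a b c) d ⊆ ({a, b, c}ᶜ : Set Ω) := fun w hw => by
  have := nd n (mem.2 hw)
  simp only [List.nodup_cons, List.mem_cons, List.not_mem_nil, or_false, not_or] at this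
  simp only [Set.mem_compl_iff, Set.mem_insert_iff, Set.mem_singleton_iff, not_or]
  exact ⟨fun e => this.1.2.2 e.symm, fun e => this.2.1.2 e.symm, fun e => this.2.2.1 e.symm⟩

theorem nd' (n : [a, b, c, d].Nodup) (hw : w ∈ ({a, b, c}ᶜ : Set Ω)) : [a, b, c, w].Nodup := by
  simp only [List.nodup_cons, List.mem_cons, List.not_mem_nil, or_false, not_or] at n ⊢
  simp only [Set.mem_compl_iff, Set.mem_insert_iff, Set.mem_singleton_iff, not_or] at hw
  exact ⟨⟨n.1.1, n.1.2.1, fun e => hw.1 e.symm⟩, ⟨n.2.1.1, fun e => hw.2.1 e.symm⟩, fun e => hw.2.2 e.symm, n.2.2.2⟩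

end rk2x

open rk2x in
theorem rk2 (h : SYM) : RK2 := by
  intro G Ω _ _ _ _ K f a b c d k l cx pr rd
  have n := rd.nd
  have n' := n
  simp only [List.nodup_cons, List.mem_cons, List.not_mem_nil, or_false, not_or] at n'
  have c3 : ({a, b, c} : Set Ω).ncard = 3 := Set.ncard_eq_three.2 ⟨a, b, c, n'.1.1, n'.1.2.1, n'.2.1.1, rfl⟩
  have c1 := Set.ncard_add_ncard_compl ({a, b, c} : Set Ω)
  have c2 := Set.ncard_sdiff_add_ncard_of_subset (sub (G := G) n)
  have c4 : (({a, b, c}ᶜ : Set Ω) \ orb (G3 G a b c) d).ncard = 2 * l + 2 := by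
    have := rd.card; have := rd.hf; have := cx.card; omega
  have s := h G Ω a b c d cx.t3 n fun e ne he => by
    by_contra m
    have : orb (G3 G a b c) e = ({a, b, c}ᶜ : Set Ω) \ orb (G3 G a b c) d := by
      refine Set.Subset.antisymm (fun w hw => ⟨sub ne hw, fun hw' => m ?_⟩) fun w hw => rd.oth e w ne (nd' n hw.1) m hw.2
      obtain ⟨g, hg, rfl⟩ := hw
      obtain ⟨g', hg', e1⟩ := hw'
      exact ⟨g⁻¹ * g', mul_mem (inv_mem hg) hg', by rw [mul_smul, e1, inv_smul_smul]⟩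
    rw [this, c4, rd.card] at he
    omega
  refine ⟨fun _ _ _ _ => nd n, fun _ _ _ _ r => (s _ _ _ _ r).1, fun _ _ _ _ r => (s _ _ _ _ r).2.1,
    fun _ _ _ _ r => (s _ _ _ _ r).2.2, ?_⟩
  rintro _ _ _ _ v ⟨g, rfl, rfl, rfl, rfl⟩ r1 r2
  replace r1 := inv r1 g⁻¹
  replace r2 := inv r2 g⁻¹
  simp only [inv_smul_smul] at r1 r2
  generalize g⁻¹ • v = u at r1 r2
  have d0 : d ∈ orb (G3 G a b c) d := ⟨1, one_mem _, one_smul _ _⟩
  have all : ∀ p ∈ orb (G3 G a b c) d, ∀ q ∈ orb (G3 G a b c) d, p ≠ q → Ro G a b c d a b p q := fun p hp q hq ne => by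
    have du : d ≠ u := by
      have := nd n r2
      simp only [List.nodup_cons, List.mem_cons, List.not_mem_nil, or_false] at this
      exact this.2.2.1
    obtain ⟨x, hx, rfl, rfl⟩ := rd.tr2 d d0 u (mem.1 r1) p hp q hq du ne
    have := inv r2 x
    rwa [(mem_G3.1 hx).1, (mem_G3.1 hx).2.1] at this
  have cg : Cong (G2 G a b) ({a, b}ᶜ : Set Ω) fun p q => p = q ∨ Ro G a b c d a b p q := by
    refine ⟨fun _ _ => .inl rfl, fun p _ q _ r => r.imp Eq.symm fun r => (s _ _ _ _ r).2.2, ?_, fun x hx p _ q _ r => ?_⟩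
    · rintro p - q - t - (rfl | e1) e2
      · exact e2
      rcases e2 with rfl | e2
      · exact .inr e1
      refine or_iff_not_imp_left.2 fun ne => ?_
      obtain ⟨x, x1, x2, rfl, rfl⟩ := (s _ _ _ _ e1).2.2
      have e3 := inv e2 x⁻¹
      rw [inv_smul_eq_iff.2 x1.symm, inv_smul_eq_iff.2 x2.symm, inv_smul_smul] at e3
      have := inv (all d d0 _ (mem.1 e3) fun e => ne (by rw [e, smul_inv_smul])) x
      rwa [x1, x2, smul_inv_smul] at this
    · refine r.imp (congrArg _) fun r => ?_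
      have := inv r x
      rwa [(mem_G2.1 hx).1, (mem_G2.1 hx).2] at this
  have mc : c ∈ ({a, b}ᶜ : Set Ω) := by simp [Ne.symm n'.1.2.1, Ne.symm n'.2.1.1]
  rcases pr _ cg with t | t
  · exact n'.2.2.1 (t c mc d (by simp [Ne.symm n'.1.2.2, Ne.symm n'.2.1.2]) (.inr (mem.2 d0)))
  · obtain ⟨e, he, m⟩ := Set.nonempty_of_ncard_ne_zero (c4.trans_ne (by omega))
    simp only [Set.mem_compl_iff, Set.mem_insert_iff, Set.mem_singleton_iff, not_or] at he
    rcases t c mc e (by simp [he.1, he.2.1]) with r | r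
    · exact he.2.2 r.symm
    · exact m (mem.1 r)

end CL.Pro9
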