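/-
Project Pro9, job RK3: the two orbits on 4-tuples.
-/
import Cfsg.Agent.Pro9.Defs

set_option autoImplicit false

namespace CL.Pro9

namespace rk3x

variable {G Ω : Type} [Group G] [MulAction G Ω] {a b c d x y z : Ω} {g : G}

theorem key (ha : g • a = x) (hb : g • b = y) (hc : g • c = z) (w : Ω) :
    Ro G a b c d x y z w ↔ g⁻¹ • w ∈ orb (G3 G a b c) d := by
  subst ha hb hc
  constructor
  · rintro ⟨h, h1, h2, h3, h4⟩
    exact ⟨g⁻¹ * h, mem_G3.2 ⟨by rw [mul_smul, h1, inv_smul_smul], by rw [mul_smul, h2, inv_smul_smul],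
      by rw [mul_smul, h3, inv_smul_smul]⟩, by rw [mul_smul, h4]⟩
  · rintro ⟨t, ht, e⟩
    obtain ⟨h1, h2, h3⟩ := mem_G3.1 ht
    exact ⟨g * t, by rw [mul_smul, h1], by rw [mul_smul, h2], by rw [mul_smul, h3], by rw [mul_smul, e, smul_inv_smul]⟩

theorem ncard_pre (g : G) (O : Set Ω) : {w | g⁻¹ • w ∈ O}.ncard = O.ncard := by
  rw [← Set.ncard_image_of_injective O (MulAction.injective g)]
  congr 1
  ext w
  exact ⟨fun h => ⟨_, h, smul_inv_smul g w⟩, by rintro ⟨v, hv, rfl⟩; simpa using hv⟩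

theorem nd3 {w : Ω} (h : [x, y, z, w].Nodup) : [x, y, z].Nodup :=
  List.Nodup.sublist (List.sublist_append_left [x, y, z] [w]) h

theorem nd4 (ha : g • a = x) (hb : g • b = y) (hc : g • c = z) {w : Ω} (h : [x, y, z, w].Nodup) :
    [a, b, c, g⁻¹ • w].Nodup := by
  refine List.Nodup.of_map (fun v => g • v) ?_
  simpa only [List.map_cons, List.map_nil, ha, hb, hc, smul_inv_smul] using h

end rk3x

open rk3x in
theorem rk3 (h : FUN) : RK3 := by
  intro G Ω _ _ _ _ K f a b c d k l hC hD hR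
  have n3 := nd3 hD.nd
  refine ⟨hR, ?_, ?_, ?_, ?_, hD.hf, hD.hk⟩
  · rintro g x y z w ⟨t, h1, h2, h3, h4⟩
    exact ⟨g * t, by rw [mul_smul, h1], by rw [mul_smul, h2], by rw [mul_smul, h3], by rw [mul_smul, h4]⟩
  · intro x y z w x' y' z' w' hn hn' hr hr'
    obtain ⟨g, h1, h2, h3⟩ := hC.t3 a b c x y z n3 (nd3 hn)
    obtain ⟨g', h1', h2', h3'⟩ := hC.t3 a b c x' y' z' n3 (nd3 hn')
    rw [key h1 h2 h3] at hr
    rw [key h1' h2' h3'] at hr'
    obtain ⟨t, ht, e⟩ := hD.oth _ _ (nd4 h1 h2 h3 hn) (nd4 h1' h2' h3' hn') hr hr'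
    obtain ⟨k1, k2, k3⟩ := mem_G3.1 ht
    exact ⟨g' * t * g⁻¹, by rw [mul_smul, mul_smul, ← h1, inv_smul_smul, k1, h1'],
      by rw [mul_smul, mul_smul, ← h2, inv_smul_smul, k2, h2'],
      by rw [mul_smul, mul_smul, ← h3, inv_smul_smul, k3, h3'], by rw [mul_smul, mul_smul, e, smul_inv_smul]⟩
  · intro x y z hn
    obtain ⟨g, h1, h2, h3⟩ := hC.t3 a b c x y z n3 hn
    simp only [key h1 h2 h3]
    rw [ncard_pre, hD.card]
  · intro x hx y hy z hz hn
    obtain ⟨g, h1, h2, h3⟩ := hC.t3 a b c x y z n3 hn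
    obtain ⟨n, hF, hg⟩ := h G Ω K g hC.pro
    have e1 : n • a = x := (hg a hD.ha (by rw [h1]; exact hx)).trans h1
    have e2 : n • b = y := (hg b hD.hb (by rw [h2]; exact hy)).trans h2
    have e3 : n • c = z := (hg c hD.hc (by rw [h3]; exact hz)).trans h3
    rw [← hD.cardF, ← ncard_pre n (orb (G3 G a b c) d ∩ Fx Ω K)]
    congr 1
    ext w
    have := hF (n⁻¹ • w)
    rw [smul_inv_smul] at this
    exact ⟨fun q => ⟨(key e1 e2 e3 w).1 q.2, this.1 q.1⟩, fun q => ⟨this.2 q.2, (key e1 e2 e3 w).2 q.1⟩⟩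

end CL.Pro9
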