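/-
Project Pro9 (S3399): no block meets the complement of the fixed points in one point (job Pro9-S2, helper65).
-/
import Cfsg.Agent.Pro9.Defs

set_option autoImplicit false

namespace CL.Pro9

namespace s2x

theorem third {Ω : Type} [Finite Ω] (h : 3 ≤ Nat.card Ω) {a b : Ω} (hab : a ≠ b) : ∃ c, [a, b, c].Nodup := by
  by_contra hc
  have : (Set.univ : Set Ω) ⊆ {a, b} := fun c _ => by
    by_contra k
    simp only [Set.mem_insert_iff, Set.mem_singleton_iff, not_or] at k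
    exact hc ⟨c, by simp [hab, Ne.symm k.1, Ne.symm k.2]⟩
  have k := Set.ncard_le_ncard this
  rw [Set.ncard_univ, Set.ncard_pair hab] at k
  omega

end s2x

theorem s2 (h1 : FUN) (h2 : S2a) (h3 : S2b) : S2 := by
  intro G Ω _ _ _ _ _ K f C h5 g hj
  obtain ⟨n, a, a', ha, ha', ne, e1, e2, e3⟩ := h2 G Ω K f g C hj
  refine h3 G Ω K f C h5 fun b hb b' hb' nb => ?_
  have h8 : 3 ≤ Nat.card Ω := by have := C.card; have := C.four; omega
  obtain ⟨c, hc⟩ := s2x.third h8 ne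
  obtain ⟨c', hc'⟩ := s2x.third h8 nb
  obtain ⟨x, x1, x2, -⟩ := C.t3 _ _ _ _ _ _ hc hc'
  obtain ⟨m, m1, m2⟩ := h1 G Ω K x C.pro
  have k1 : m • a = b := by rw [m2 a ha (x1 ▸ hb), x1]
  have k2 : m • a' = b' := by rw [m2 a' ha' (x2 ▸ hb'), x2]
  refine ⟨m * n * m⁻¹, ?_, ?_, fun z hz z1 z2 => ?_⟩
  · rw [← k1, mul_smul, inv_smul_smul, mul_smul, e1, k2]
  · rw [← k2, mul_smul, inv_smul_smul, mul_smul, e2, k1]
  · rw [mul_smul, mul_smul, e3 (m⁻¹ • z) ((m1 _).1 (by rwa [smul_inv_smul]))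
      (fun e => z1 (by rw [← k1, ← e, smul_inv_smul])) (fun e => z2 (by rw [← k2, ← e, smul_inv_smul])),
      smul_inv_smul]

end CL.Pro9
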