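/-
Project Pro9 (S3399): a block meeting the fixed point set in all but one point gives a transposition on it.
-/
import Cfsg.Agent.Pro9.Defs

set_option autoImplicit false

namespace CL.Pro9

namespace s2ax

variable {G Ω : Type} [Group G] [MulAction G Ω]

/-- `F - a + t` is a block -/
def P (G : Type) [Group G] [MulAction G Ω] (F : Set Ω) (a t : Ω) : Prop :=
  t ∉ F ∧ ∃ h : G, ∀ z : Ω, h⁻¹ • z ∈ F ↔ (z ∈ F ∧ z ≠ a) ∨ z = t

theorem P.smul {F : Set Ω} {a t : Ω} (h : P G F a t) (n : G) (hn : ∀ z : Ω, n • z ∈ F ↔ z ∈ F) :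
    P G F (n • a) (n • t) := by
  obtain ⟨h1, g, hg⟩ := h
  refine ⟨fun e => h1 ((hn t).1 e), n * g, fun z => ?_⟩
  rw [mul_inv_rev, mul_smul, hg, ← hn (n⁻¹ • z), smul_inv_smul, Ne, inv_smul_eq_iff, inv_smul_eq_iff]

theorem fx {w : G} {x : Ω} (h : w • w • x = w • x) : w • x = x := MulAction.injective w h

theorem start [Finite Ω] {F : Set Ω} {g : G} (h : jj F g = 1) : ∃ a ∈ F, ∃ t, P G F a t := by
  obtain ⟨t, ht⟩ := Set.ncard_eq_one.1 h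
  have e1 : {z | g⁻¹ • z ∈ F}.ncard = F.ncard := by
    rw [← Set.ncard_image_of_injective F (MulAction.injective g)]
    congr 1
    ext z
    exact ⟨fun hz => ⟨_, hz, smul_inv_smul g z⟩, by rintro ⟨y, hy, rfl⟩; simpa using hy⟩
  rw [Set.ncard_eq_ncard_iff_ncard_sdiff_eq_ncard_sdiff] at e1
  have e2 : {z | g⁻¹ • z ∈ F} \ F = {t} := by
    rw [← ht]
    ext z
    exact and_comm
  rw [e2, Set.ncard_singleton] at e1
  obtain ⟨a, ha⟩ := Set.ncard_eq_one.1 e1.symm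
  have k1 : ∀ z, (g⁻¹ • z ∈ F ∧ z ∉ F) ↔ z = t := fun z => Set.ext_iff.1 e2 z
  have k2 : ∀ z, (z ∈ F ∧ g⁻¹ • z ∉ F) ↔ z = a := fun z => Set.ext_iff.1 ha z
  refine ⟨a, ((k2 a).2 rfl).1, t, ((k1 t).2 rfl).2, g, fun z => ?_⟩
  rw [Ne, ← k1, ← k2]
  tauto

end s2ax

open s2ax in
theorem s2a (h1 : FUN) (h2 : FUW) : S2a := by
  intro G Ω _ _ _ _ K f g C hj
  obtain ⟨a0, ha0, t0, h0⟩ := start hj
  have tri : ∀ x ∈ Fx Ω K, ∃ b c, [x, b, c].Nodup := fun x hx => by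
    have : 1 < (Fx Ω K \ {x}).ncard := by
      rw [Set.ncard_sdiff_singleton_of_mem hx, C.fix]
      have := C.four
      omega
    obtain ⟨b, c, hb, hc, e⟩ := (Set.one_lt_ncard_iff).1 this
    refine ⟨b, c, ?_⟩
    have hb' : x ≠ b := fun e => hb.2 e.symm
    have hc' : x ≠ c := fun e => hc.2 e.symm
    simp [hb', hc', e]
  have ex : ∀ a, ∃ t, a ∈ Fx Ω K → P G (Fx Ω K) a t := fun a => by
    by_cases ha : a ∈ Fx Ω K
    · obtain ⟨b, c, e⟩ := tri a0 ha0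
      obtain ⟨b', c', e'⟩ := tri a ha
      obtain ⟨g1, hg1, -⟩ := C.t3 _ _ _ _ _ _ e e'
      obtain ⟨n, hn, hn'⟩ := h1 G Ω K g1 C.pro
      have := h0.smul n hn
      rw [hn' a0 ha0 (hg1 ▸ ha), hg1] at this
      exact ⟨_, fun _ => this⟩
    · exact ⟨a, fun e => absurd e ha⟩
  choose τ hτ using ex
  obtain ⟨a, a', t, ha, ha', hne, p, p'⟩ : ∃ a a' t, a ∈ Fx Ω K ∧ a' ∈ Fx Ω K ∧ a ≠ a' ∧ P G (Fx Ω K) a t ∧
      P G (Fx Ω K) a' t := by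
    by_contra! H
    have inj : ∀ a ∈ Fx Ω K, ∀ a' ∈ Fx Ω K, ∀ t, P G (Fx Ω K) a t → P G (Fx Ω K) a' t → a = a' :=
      fun a ha a' ha' t p p' => by_contra fun e => H a a' t ha ha' e p p'
    have e1 : τ '' Fx Ω K = (Fx Ω K)ᶜ := by
      refine Set.eq_of_subset_of_ncard_le (by rintro _ ⟨a, ha, rfl⟩; exact (hτ a ha).1) ?_
      have hi : Set.InjOn τ (Fx Ω K) := fun a ha a' ha' e => inj a ha a' ha' _ (hτ a ha) (e ▸ hτ a' ha')
      rw [hi.ncard_image]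
      have := Set.ncard_add_ncard_compl (Fx Ω K)
      rw [C.card, C.fix] at this
      rw [C.fix]
      omega
    obtain ⟨k, hk, hm⟩ : ∃ k ∈ K, k • τ a0 ≠ τ a0 := by
      by_contra! e
      exact (hτ a0 ha0).1 e
    have q := (hτ a0 ha0).smul k fun z =>
      ⟨fun hz => fx (hz k hk) ▸ hz, fun hz => (hz k hk).symm ▸ hz⟩
    rw [ha0 k hk] at q
    obtain ⟨a1, ha1, e⟩ := e1.ge q.1
    exact hm (by rw [← e, inj a1 ha1 a0 ha0 _ (hτ a1 ha1) (e ▸ q)])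
  obtain ⟨ht, h, hh⟩ := p
  obtain ⟨-, h', hh'⟩ := p'
  obtain ⟨w1, f1, m1⟩ := h2 G Ω K 1 h' C.pro
  obtain ⟨w2, f2, m2⟩ := h2 G Ω K h' h C.pro
  obtain ⟨w3, f3, m3⟩ := h2 G Ω K h 1 C.pro
  simp only [inv_one, one_smul, hh, hh'] at f1 m1 f2 m2 f3 m3
  have a1 : w1 • a' = t := by
    rcases (m1 a').2 ha' with e | e
    · exact absurd (fx (f1 _ e.1 (.inl e))) e.2
    · exact e
  have a2 : w2 • a = a' := by
    by_contra e
    rcases (m2 a).2 (.inl ⟨ha, hne⟩) with e' | e'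
    · exact e'.2 (fx (f2 _ (.inl ⟨e'.1, e⟩) (.inl e')))
    · exact ht (e' ▸ (fx (f2 _ (.inr e') (.inr e'))).symm ▸ ha)
  have a3 : w3 • t = a := by
    by_contra e
    have := (m3 t).2 (.inr rfl)
    exact ht (fx (f3 _ (.inl ⟨this, e⟩) this) ▸ this)
  refine ⟨w3 * w2 * w1, a, a', ha, ha', hne, ?_, ?_, fun z hz e e' => ?_⟩
  · rw [mul_smul, mul_smul, f1 a ha (.inl ⟨ha, hne⟩), a2, f3 a' (.inl ⟨ha', hne.symm⟩) ha']
  · rw [mul_smul, mul_smul, a1, f2 t (.inr rfl) (.inr rfl), a3]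
  · rw [mul_smul, mul_smul, f1 z hz (.inl ⟨hz, e'⟩), f2 z (.inl ⟨hz, e'⟩) (.inl ⟨hz, e⟩), f3 z (.inl ⟨hz, e⟩) hz]

end CL.Pro9
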