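/-
Project Pro9 (S3399): part S2b.
-/
import Cfsg.Agent.Pro9.Defs

set_option autoImplicit false

namespace CL.Pro9

namespace s2bx

variable {G Ω : Type} [Group G] [MulAction G Ω]

/-- the setwise stabiliser -/
def N0 (G : Type) [Group G] [MulAction G Ω] (F : Set Ω) : Subgroup G where
  carrier := {n | ∀ z : Ω, n • z ∈ F ↔ z ∈ F}
  one_mem' := fun z => by rw [one_smul]
  mul_mem' := fun {a b} ha hb z => by rw [mul_smul, ha, hb]
  inv_mem' := fun {a} ha z => by rw [← ha, smul_inv_smul]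

theorem mem_N0 {F : Set Ω} {n : G} : n ∈ N0 G F ↔ ∀ z : Ω, n • z ∈ F ↔ z ∈ F := Iff.rfl

theorem swap_mem {F : Set Ω} {a a' : Ω} (ha : a ∈ F) (ha' : a' ∈ F) {n : G} (h1 : n • a = a') (h2 : n • a' = a)
    (h3 : ∀ z ∈ F, z ≠ a → z ≠ a' → n • z = z) : n ∈ N0 G F := by
  intro z
  constructor
  · intro hz
    by_cases e1 : n • z = a
    · have : z = a' := MulAction.injective n (by simpa only [e1] using h2.symm)
      exact this ▸ ha'
    · by_cases e2 : n • z = a'
      · have : z = a := MulAction.injective n (by simpa only [e2] using h1.symm)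
        exact this ▸ ha
      · have h4 := h3 _ hz e1 e2
        have : n • z = z := MulAction.injective n h4
        exact this ▸ hz
  · intro hz
    by_cases e1 : z = a
    · rw [e1, h1]; exact ha'
    · by_cases e2 : z = a'
      · rw [e2, h2]; exact ha
      · rw [h3 z hz e1 e2]; exact hz

/-- the action on `F` -/
def res (F : Set Ω) : N0 G F →* Equiv.Perm F where
  toFun n := (MulAction.toPerm (n : G)).subtypePerm (p := fun z => z ∈ F) (fun z => n.2 z)
  map_one' := by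
    ext z
    simp
  map_mul' a b := by
    ext z
    exact mul_smul (a : G) (b : G) (z : Ω)

theorem res_apply (F : Set Ω) (n : N0 G F) (z : F) : ((res F n z : F) : Ω) = (n : G) • (z : Ω) := rfl

/-- the action on the complement -/
def resc (F : Set Ω) (n : N0 G F) : Equiv.Perm (Fᶜ : Set Ω) :=
  (MulAction.toPerm (n : G)).subtypePerm (p := fun z => z ∈ (Fᶜ : Set Ω)) (fun z => not_congr (n.2 z))

theorem resc_apply (F : Set Ω) (n : N0 G F) (z : (Fᶜ : Set Ω)) :
    ((resc F n z : (Fᶜ : Set Ω)) : Ω) = (n : G) • (z : Ω) := rfl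

theorem triv [Finite Ω] [FaithfulSMul G Ω] {F : Set Ω} (h3 : 3 ≤ F.ncard)
    (hs : ∀ w : G, w ≠ 1 → 5 ≤ (supp Ω w).ncard)
    (hsw : ∀ a ∈ F, ∀ a' ∈ F, a ≠ a' → ∃ n : G, n • a = a' ∧ n • a' = a ∧ ∀ z ∈ F, z ≠ a → z ≠ a' → n • z = z)
    {l : G} (hl : l ∈ N0 G F) (hS : ∀ z, z ∉ F → l • z = z) : l = 1 := by
  by_contra hne
  obtain ⟨a, ha⟩ : ∃ a : Ω, l • a ≠ a := by
    by_contra hc
    push Not at hc
    exact hne (FaithfulSMul.eq_of_smul_eq_smul (α := Ω) fun z => by rw [hc, one_smul])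
  have haF : a ∈ F := by
    by_contra h
    exact ha (hS a h)
  have hbF : l • a ∈ F := (hl a).2 haF
  obtain ⟨c, hcF, hc⟩ : ∃ c ∈ F, c ∉ ({a, l • a} : Set Ω) := by
    by_contra hc
    push Not at hc
    have h1 : F.ncard ≤ ({a, l • a} : Set Ω).ncard := Set.ncard_le_ncard hc (Set.toFinite _)
    have h2 : ({a, l • a} : Set Ω).ncard ≤ 2 := by
      have := Set.ncard_insert_le a ({l • a} : Set Ω)
      simpa using this
    omega
  have hca : c ≠ a := fun e => hc (by simp [e])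
  have hcb : c ≠ l • a := fun e => hc (by simp [e])
  obtain ⟨n, h1, h2, h4⟩ := hsw a haF c hcF hca.symm
  have hn : n ∈ N0 G F := swap_mem haF hcF h1 h2 h4
  have hinv : ∀ z ∈ F, z ≠ a → z ≠ c → n⁻¹ • z = z := fun z hz e1 e2 => by
    rw [inv_smul_eq_iff, h4 z hz e1 e2]
  have hw : l * n * l⁻¹ * n⁻¹ ≠ 1 := by
    intro e
    have e1 : (l * n * l⁻¹ * n⁻¹) • (l • a) = l • a := by rw [e, one_smul]
    rw [mul_smul, hinv _ hbF ha hcb.symm, mul_smul, inv_smul_smul, mul_smul, h1] at e1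
    exact hca (MulAction.injective l e1)
  have hsub : supp Ω (l * n * l⁻¹ * n⁻¹) ⊆ ({a, c, l • a, l • c} : Set Ω) := by
    intro z hz
    by_contra hno
    simp only [Set.mem_insert_iff, Set.mem_singleton_iff, not_or] at hno
    obtain ⟨e1, e2, e3, e4⟩ := hno
    apply hz
    by_cases hzF : z ∈ F
    · have hy : l⁻¹ • z ∈ F := ((N0 G F).inv_mem hl z).2 hzF
      have y1 : l⁻¹ • z ≠ a := fun e => e3 (by rw [← e, smul_inv_smul])
      have y2 : l⁻¹ • z ≠ c := fun e => e4 (by rw [← e, smul_inv_smul])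
      rw [mul_smul, hinv z hzF e1 e2, mul_smul, mul_smul, h4 _ hy y1 y2, smul_inv_smul]
    · have hy : n⁻¹ • z ∉ F := fun h => hzF (((N0 G F).inv_mem hn z).1 h)
      have y1 : l⁻¹ • n⁻¹ • z = n⁻¹ • z := by rw [inv_smul_eq_iff, hS _ hy]
      rw [mul_smul, mul_smul, y1, mul_smul, smul_inv_smul, hS z hzF]
  have h5 := hs _ hw
  have h6 := Set.ncard_le_ncard hsub (Set.toFinite _)
  have h7 := Set.ncard_insert_le a ({c, l • a, l • c} : Set Ω)
  have h8 := Set.ncard_insert_le c ({l • a, l • c} : Set Ω)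
  have h9 := Set.ncard_insert_le (l • a) ({l • c} : Set Ω)
  rw [Set.ncard_singleton] at h9
  omega

theorem res_surj [Finite Ω] {F : Set Ω}
    (hsw : ∀ a ∈ F, ∀ a' ∈ F, a ≠ a' → ∃ n : G, n • a = a' ∧ n • a' = a ∧ ∀ z ∈ F, z ≠ a → z ≠ a' → n • z = z) :
    Function.Surjective (res (G := G) F) := by
  classical
  rw [← MonoidHom.range_eq_top, eq_top_iff, ← Equiv.Perm.closure_isSwap, Subgroup.closure_le]
  rintro σ ⟨x, y, hxy, rfl⟩
  have hne : (x : Ω) ≠ y := fun e => hxy (Subtype.ext e)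
  obtain ⟨n, h1, h2, h4⟩ := hsw x x.2 y y.2 hne
  refine ⟨⟨n, swap_mem x.2 y.2 h1 h2 h4⟩, ?_⟩
  ext z
  rw [res_apply]
  by_cases e1 : z = x
  · rw [e1, Equiv.swap_apply_left]; exact h1
  · by_cases e2 : z = y
    · rw [e2, Equiv.swap_apply_right]; exact h2
    · rw [Equiv.swap_apply_of_ne_of_ne e1 e2]
      exact h4 z z.2 (fun e => e1 (Subtype.ext e)) (fun e => e2 (Subtype.ext e))

end s2bx

open s2bx in
theorem s2b : S2b := by
  intro G Ω _ _ _ _ _ K f hC hs hsw
  classical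
  have h4 := hC.four
  have hfix := hC.fix
  have hinj : Function.Injective (resc (G := G) (Fx Ω K)) := by
    intro n n' e
    have h1 : ((n'⁻¹ * n : N0 G (Fx Ω K)) : G) = 1 := by
      refine triv (by omega) hs hsw (n'⁻¹ * n).2 fun z hz => ?_
      have h2 := congrArg (fun σ : Equiv.Perm ((Fx Ω K)ᶜ : Set Ω) => ((σ ⟨z, hz⟩ : ((Fx Ω K)ᶜ : Set Ω)) : Ω)) e
      simp only [resc_apply] at h2
      rw [Subgroup.coe_mul, Subgroup.coe_inv, mul_smul, h2, inv_smul_smul]
    have h2 : n'⁻¹ * n = 1 := Subtype.ext h1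
    exact (inv_mul_eq_one.1 h2).symm
  have hc1 : Nat.card (Fx Ω K) = f := by rw [Nat.card_coe_set_eq, hfix]
  have hc2 : Nat.card ((Fx Ω K)ᶜ : Set Ω) = f := by
    have := Set.ncard_add_ncard_compl (Fx Ω K)
    rw [Nat.card_coe_set_eq]
    have h5 := hC.card
    omega
  have hle : Nat.card (N0 G (Fx Ω K)) ≤ Nat.card (Equiv.Perm (Fx Ω K)) := by
    have := Nat.card_le_card_of_injective _ hinj
    rw [Nat.card_perm, hc2] at this
    rw [Nat.card_perm, hc1]
    exact this
  have hbij := (res_surj hsw).bijective_of_nat_card_le hle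
  obtain ⟨k, hk, a, -, ha⟩ := hC.mv
  have hkN : k ∈ N0 G (Fx Ω K) := by
    intro z
    constructor
    · intro hz
      have h1 : k • k • z = k • z := hz k hk
      have h2 : k • z = z := MulAction.injective k h1
      exact h2 ▸ hz
    · intro hz
      rw [hz k hk]; exact hz
  have h1 : res (G := G) (Fx Ω K) ⟨k, hkN⟩ = res (G := G) (Fx Ω K) 1 := by
    rw [map_one]
    ext z
    rw [res_apply]
    exact z.2 k hk
  have h2 : k = 1 := congrArg Subtype.val (hbij.1 h1)
  exact ha (by rw [h2, one_smul])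

end CL.Pro9
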