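/-
Project Pro9 (S3399): suborbits are moved; the deficiency of an invariant set.
-/
import Cfsg.Agent.Pro9.Defs

set_option autoImplicit false

namespace CL.Pro9

namespace subx
variable {G Ω : Type} [Group G] [MulAction G Ω]

theorem tr_orb (Y : Subgroup G) (a : Ω) : Tr Y (orb Y a) := by
  refine ⟨?_, ?_⟩
  · rintro x hx c ⟨y, hy, rfl⟩
    exact ⟨x * y, Y.mul_mem hx hy, mul_smul _ _ _⟩
  · rintro c ⟨y, hy, rfl⟩ d ⟨z, hz, rfl⟩
    exact ⟨z * y⁻¹, Y.mul_mem hz (Y.inv_mem hy), by rw [mul_smul, inv_smul_smul]⟩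

theorem split [Finite Ω] {O Δ : Set Ω} (h : O ⊆ Δ) (F : Set Ω) :
    (Δ ∩ F).ncard = (O ∩ F).ncard + ((Δ \ O) ∩ F).ncard := by
  have e : Δ ∩ F = (O ∩ F) ∪ ((Δ \ O) ∩ F) := by
    ext z
    constructor
    · rintro ⟨h1, h2⟩
      by_cases hz : z ∈ O
      · exact Or.inl ⟨hz, h2⟩
      · exact Or.inr ⟨⟨h1, hz⟩, h2⟩
    · rintro (⟨h1, h2⟩ | ⟨h1, h2⟩)
      · exact ⟨h h1, h2⟩
      · exact ⟨h1.1, h2⟩
  rw [e, Set.ncard_union_eq]
  exact Set.disjoint_left.2 fun z h1 h2 => h2.1.2 h1.1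

end subx

theorem sub (h : FUS) : SUB := by
  intro G Ω _ _ _ _ n X K Γ a b S hP ha haF hb hba
  by_contra hM
  have hO : ∀ c ∈ orb (St X a) b, c ∈ Fx Ω K := by
    intro c hc k hk
    by_contra hne
    exact hM ⟨k, hk, c, hc, hne⟩
  have hAB : {g : G | g ∈ X ∧ g • a ∈ Fx Ω K} ⊆ {g : G | g ∈ X ∧ g • b ∈ Fx Ω K} := by
    rintro g ⟨hg, hga⟩
    obtain ⟨w, hw, -, hz⟩ := h G Ω X K g⁻¹ S.pro (X.inv_mem hg)
    have hw' : w ∈ St X a := by
      refine hw _ (fun k hk => ⟨S.le hk, haF k hk⟩) fun k hk => ?_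
      refine ⟨X.mul_mem (X.mul_mem (X.inv_mem hg) (S.le hk)) (X.inv_mem (X.inv_mem hg)), ?_⟩
      show (g⁻¹ * k * g⁻¹⁻¹) • a = a
      rw [inv_inv, mul_smul, mul_smul, hga k hk, inv_smul_smul]
    refine ⟨hg, ?_⟩
    have := (hz b).1 (hO _ ⟨w⁻¹, (St X a).inv_mem hw', rfl⟩)
    rwa [inv_inv] at this
  obtain ⟨t, ht, hta⟩ := S.tr.2 a ha b hb
  have hle : {g : G | g ∈ X ∧ g • b ∈ Fx Ω K}.ncard ≤ {g : G | g ∈ X ∧ g • a ∈ Fx Ω K}.ncard := by
    refine Set.ncard_le_ncard_of_injOn (fun g => g * t) ?_ ?_ (Set.toFinite _)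
    · rintro g ⟨hg, hgb⟩
      refine ⟨X.mul_mem hg ht, ?_⟩
      rw [mul_smul, hta]
      exact hgb
    · intro g _ g' _ e
      exact mul_right_cancel e
  have hE := Set.eq_of_subset_of_ncard_le hAB hle (Set.toFinite _)
  have hC : Cong X Γ (fun p q => ∀ g ∈ X, g • p ∈ Fx Ω K ↔ g • q ∈ Fx Ω K) :=
    { refl := fun _ _ _ _ => Iff.rfl
      symm := fun _ _ _ _ h g hg => (h g hg).symm
      trans := fun _ _ _ _ _ _ h h' g hg => (h g hg).trans (h' g hg)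
      inv := fun x hx p _ q _ h g hg => by
        rw [← mul_smul, ← mul_smul]
        exact h _ (X.mul_mem hg hx) }
  rcases hP _ hC with h1 | h1
  · refine hba (h1 a ha b hb fun g hg => ⟨fun h2 => (hAB ⟨hg, h2⟩).2, fun h2 => ?_⟩).symm
    have : g ∈ {g : G | g ∈ X ∧ g • a ∈ Fx Ω K} := by
      rw [hE]
      exact ⟨hg, h2⟩
    exact this.2
  · obtain ⟨k, hk, c, hc, hne⟩ := S.mv
    have := (h1 a ha c hc 1 X.one_mem).1 (by rwa [one_smul])
    rw [one_smul] at this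
    exact hne (this k hk)

theorem dfc : DEF := by
  intro G Ω _ _ _ _ n Y K Δ ih hle hpro hinv hcard hmv hne
  induction hm : Δ.ncard using Nat.strong_induction_on generalizing Δ with
  | _ m ihm =>
    obtain ⟨a, ha⟩ := hne
    have hO : orb Y a ⊆ Δ := by
      rintro c ⟨y, hy, rfl⟩
      exact hinv y hy a ha
    have hOc : (orb Y a).ncard ≤ Δ.ncard := Set.ncard_le_ncard hO (Set.toFinite _)
    have h1 := ih G Ω Y K (orb Y a) (lt_of_le_of_lt hOc hcard) hle hpro (subx.tr_orb Y a) (hmv a ha)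
    have h2 := subx.split hO (Fx Ω K)
    have h3 : Δ.ncard = (orb Y a).ncard + (Δ \ orb Y a).ncard := by
      have := subx.split hO (Set.univ : Set Ω)
      simpa using this
    by_cases hE : (Δ \ orb Y a).Nonempty
    · have h4 := ihm (Δ \ orb Y a).ncard (by omega) (Δ \ orb Y a) (by
        rintro y hy c ⟨hc, hcO⟩
        refine ⟨hinv y hy c hc, fun hyc => hcO ?_⟩
        have := (subx.tr_orb Y a).1 y⁻¹ (Y.inv_mem hy) _ hyc
        rwa [inv_smul_smul] at this) (by omega) (fun c hc => hmv c hc.1) hE rfl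
      omega
    · rw [Set.not_nonempty_iff_eq_empty] at hE
      rw [hE] at h2 h3
      simp only [Set.empty_inter, Set.ncard_empty] at h2 h3
      omega

end CL.Pro9
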