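/-
Project Pro9 (S3399): an orbit on 4-tuples that is determined by its length is symmetric.
-/
import Cfsg.Agent.Pro9.Defs

set_option autoImplicit false

namespace CL.Pro9

namespace symx

variable {G Ω : Type} [Group G] [MulAction G Ω]

theorem card_orb (X : Subgroup G) (d : Ω) : (orb X d).ncard * Nat.card (St X d) = Nat.card X := by
  have h1 : orb X d = MulAction.orbit X d :=
    Set.ext fun b => ⟨fun ⟨x, hx, e⟩ => ⟨⟨x, hx⟩, e⟩, fun ⟨x, e⟩ => ⟨x, x.2, e⟩⟩
  have h2 : MulAction.stabilizer X d = (St X d).subgroupOf X :=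
    Subgroup.ext fun x => ⟨fun h => ⟨x.2, h⟩, fun h => h.2⟩
  rw [h1, ← MulAction.index_stabilizer, h2,
    ← Nat.card_congr (Subgroup.subgroupOfEquivOfLe (show St X d ≤ X from inf_le_left)).toEquiv, mul_comm,
    Subgroup.card_mul_index]

theorem key [Finite G] {a b c d a' b' c' d' : Ω} (t3 : T3 G Ω) (nd : [a, b, c, d].Nodup)
    (nd' : [a', b', c', d'].Nodup)
    (h : ∀ e, [a, b, c, e].Nodup → (orb (G3 G a b c) e).ncard = (orb (G3 G a b c) d).ncard → e ∈ orb (G3 G a b c) d)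
    (hs : ∀ g : G, (g • a = a ∧ g • b = b ∧ g • c = c) ∧ g • d = d ↔
      (g • a' = a' ∧ g • b' = b' ∧ g • c' = c') ∧ g • d' = d') : Ro G a b c d a' b' c' d' := by
  obtain ⟨g, rfl, rfl, rfl⟩ := t3 a' b' c' a b c (by simp at nd' ⊢; tauto) (by simp at nd ⊢; tauto)
  have k : ∀ (x : G) (z : Ω), (g * x * g⁻¹) • g • z = g • z ↔ x • z = z := fun x z => by
    rw [mul_smul, inv_smul_smul, mul_smul, smul_left_cancel_iff]
  have h1 : Nat.card (St (G3 G (g • a') (g • b') (g • c')) d) =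
      Nat.card (St (G3 G (g • a') (g • b') (g • c')) (g • d')) :=
    Nat.card_congr ((MulAut.conj g).toEquiv.subtypeEquiv fun x => by
      rw [mem_St, mem_St, mem_G3, mem_G3, hs]
      simp only [MulEquiv.toEquiv_eq_coe, MulEquiv.coe_toEquiv, MulAut.conj_apply, k])
  obtain ⟨x, hx, e⟩ := h (g • d') (by simpa using nd') (Nat.eq_of_mul_eq_mul_right Nat.card_pos
    ((card_orb _ _).trans (by rw [← h1, card_orb])))
  obtain ⟨e1, e2, e3⟩ := mem_G3.1 hx
  exact ⟨g⁻¹ * x, by rw [mul_smul, e1, inv_smul_smul], by rw [mul_smul, e2, inv_smul_smul],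
    by rw [mul_smul, e3, inv_smul_smul], by rw [mul_smul, e, inv_smul_smul]⟩

end symx

theorem sym : SYM := by
  intro G Ω _ _ _ _ a b c d t3 nd h x y z w ⟨m, e1, e2, e3, e4⟩
  subst e1 e2 e3 e4
  have comp : ∀ {a' b' c' d' : Ω}, Ro G a b c d a' b' c' d' → Ro G a b c d (m • a') (m • b') (m • c') (m • d') :=
    fun ⟨g, e1, e2, e3, e4⟩ => ⟨m * g, by rw [mul_smul, e1], by rw [mul_smul, e2], by rw [mul_smul, e3],
      by rw [mul_smul, e4]⟩
  refine ⟨comp (symx.key t3 nd ?_ h fun g => by tauto), comp (symx.key t3 nd ?_ h fun g => by tauto),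
    comp (symx.key t3 nd ?_ h fun g => by tauto)⟩
  all_goals simp at nd ⊢; tauto

end CL.Pro9
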