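/-
Project Pro9 (S3399): the minimal counterexample is three-transitive of degree `2 f` with `f ≥ 4`.
-/
import Cfsg.Agent.Pro9.Defs

set_option autoImplicit false

namespace CL.Pro9

namespace topx
variable {G Ω : Type} [Group G] [MulAction G Ω]

theorem orb_inv {Y : Subgroup G} {b z : Ω} {y : G} (hy : y ∈ Y) (hz : z ∈ orb Y b) : y • z ∈ orb Y b := by
  obtain ⟨x, hx, rfl⟩ := hz
  exact ⟨y * x, mul_mem hy hx, mul_smul _ _ _⟩

theorem t3 {a : Ω} (h : ∀ b c : Ω, ∃ g : G, g • b = c) (h2 : Tr2 (St (⊤ : Subgroup G) a) ({a}ᶜ : Set Ω)) : T3 G Ω := by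
  intro a1 b1 c1 a2 b2 c2 n1 n2
  simp only [List.nodup_cons, List.mem_cons, List.not_mem_nil, or_false, not_or, not_false_eq_true, List.nodup_nil,
    and_true] at n1 n2
  obtain ⟨g1, rfl⟩ := h a1 a
  obtain ⟨g2, e⟩ := h a2 (g1 • a1)
  have k1 : ∀ {x : Ω}, ¬ a1 = x → g1 • x ∈ ({g1 • a1}ᶜ : Set Ω) := fun hx e' => hx (smul_left_cancel g1 e').symm
  have k2 : ∀ {x : Ω}, ¬ a2 = x → g2 • x ∈ ({g1 • a1}ᶜ : Set Ω) := fun hx e' =>
    hx (smul_left_cancel g2 (e.trans (Set.mem_singleton_iff.1 e').symm))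
  obtain ⟨x, hx, e1, e2⟩ := h2 _ (k1 n1.1.1) _ (k1 n1.1.2) _ (k2 n2.1.1) _ (k2 n2.1.2)
    (fun e' => n1.2 (smul_left_cancel g1 e')) fun e' => n2.2 (smul_left_cancel g2 e')
  refine ⟨g2⁻¹ * x * g1, ?_, ?_, ?_⟩
  · rw [mul_smul, mul_smul, (mem_St.1 hx).2, ← e, inv_smul_smul]
  · rw [mul_smul, mul_smul, e1, inv_smul_smul]
  · rw [mul_smul, mul_smul, e2, inv_smul_smul]

theorem swap {F : Set Ω} (h : T3 G Ω) (h1 : F.ncard = Fᶜ.ncard) (h2 : F.ncard = 2 ∨ F.ncard = 3) :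
    ∃ g : G, (∀ w ∈ F, g • w ∉ F) ∧ ∀ z, z ∉ F → ∃ w ∈ F, g • w = z := by
  rcases h2 with h2 | h2
  · obtain ⟨a1, a2, n, e⟩ := Set.ncard_eq_two.1 h2
    obtain ⟨b1, b2, n', e'⟩ := Set.ncard_eq_two.1 (h1.symm.trans h2)
    have m : ∀ z, z ∉ F ↔ z = b1 ∨ z = b2 := fun z => Set.ext_iff.1 e' z
    have m' : ∀ z, z ∈ F ↔ z = a1 ∨ z = a2 := fun z => Set.ext_iff.1 e z
    have d : ∀ x ∈ F, ∀ y, y ∉ F → x ≠ y := fun x hx y hy e => hy (e ▸ hx)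
    have p1 := (m' a1).2 (.inl rfl)
    have p2 := (m' a2).2 (.inr rfl)
    have q1 := (m b1).2 (.inl rfl)
    have q2 := (m b2).2 (.inr rfl)
    obtain ⟨g, e1, e2, -⟩ := h a1 a2 b1 b1 b2 a1 (by simp [n, d _ p1 _ q1, d _ p2 _ q1])
      (by simp [n', (d _ p1 _ q1).symm, (d _ p1 _ q2).symm])
    refine ⟨g, fun w hw => ?_, fun z hz => ?_⟩
    · rcases (m' w).1 hw with rfl | rfl
      · rwa [e1]
      · rwa [e2]
    · rcases (m z).1 hz with rfl | rfl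
      · exact ⟨_, p1, e1⟩
      · exact ⟨_, p2, e2⟩
  · obtain ⟨a1, a2, a3, n1, n2, n3, e⟩ := Set.ncard_eq_three.1 h2
    obtain ⟨b1, b2, b3, n1', n2', n3', e'⟩ := Set.ncard_eq_three.1 (h1.symm.trans h2)
    have m : ∀ z, z ∉ F ↔ z = b1 ∨ z = b2 ∨ z = b3 := fun z => Set.ext_iff.1 e' z
    have m' : ∀ z, z ∈ F ↔ z = a1 ∨ z = a2 ∨ z = a3 := fun z => Set.ext_iff.1 e z
    obtain ⟨g, e1, e2, e3⟩ := h a1 a2 a3 b1 b2 b3 (by simp [n1, n2, n3]) (by simp [n1', n2', n3'])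
    refine ⟨g, fun w hw => (m _).2 ?_, fun z hz => ?_⟩
    · rcases (m' w).1 hw with rfl | rfl | rfl
      · exact .inl e1
      · exact .inr (.inl e2)
      · exact .inr (.inr e3)
    · rcases (m z).1 hz with rfl | rfl | rfl
      · exact ⟨_, (m' _).2 (.inl rfl), e1⟩
      · exact ⟨_, (m' _).2 (.inr (.inl rfl)), e2⟩
      · exact ⟨_, (m' _).2 (.inr (.inr rfl)), e3⟩

end topx

open topx

theorem top (h0 : STB) (h1 : IMP) (h2 : SUB) (h3 : DEF) (h4 : EXT) : TOP := by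
  intro G Ω _ _ _ _ K hS hle
  have hu : (Set.univ : Set Ω).ncard = Nat.card Ω := Set.ncard_univ Ω
  obtain ⟨k, hk, a0, -, hk0⟩ := hS.mv
  have hpos : 0 < Nat.card Ω := Nat.card_pos_iff.2 ⟨⟨a0⟩, inferInstance⟩
  obtain ⟨a, ha⟩ : (Fx Ω K).Nonempty := (Set.ncard_pos (Set.toFinite _)).1 (by omega)
  have hP : Prim (⊤ : Subgroup G) (Set.univ : Set Ω) := fun r hr => by
    by_contra c
    push Not at c
    obtain ⟨⟨x, hx, y, hy, e, n⟩, c2⟩ := c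
    have := (h1 G Ω _ ⊤ K _ r hS hr ⟨x, hx, y, hy, n, e⟩ c2 (by rw [Set.univ_inter, hu]; omega)).1
    rw [Set.univ_inter, hu] at this
    omega
  have hKY : K ≤ St ⊤ a := fun x hx => mem_St.2 ⟨trivial, ha x hx⟩
  have hpro : Pro (St ⊤ a) K := hS.pro.mono le_top
  have hinv : ∀ y ∈ St (⊤ : Subgroup G) a, ∀ b ∈ ({a}ᶜ : Set Ω), y • b ∈ ({a}ᶜ : Set Ω) := fun y hy b hb e =>
    hb (smul_left_cancel y ((Set.mem_singleton_iff.1 e).trans (mem_St.1 hy).2.symm))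
  have c1 : 1 + ({a}ᶜ : Set Ω).ncard = Nat.card Ω := by
    rw [← Set.ncard_singleton a]; exact Set.ncard_add_ncard_compl _
  have c2 : (({a}ᶜ : Set Ω) ∩ Fx Ω K).ncard + 1 = (Fx Ω K).ncard := by
    rw [Set.inter_comm]; exact Set.ncard_sdiff_singleton_add_one ha
  have hmv : ∀ b ∈ ({a}ᶜ : Set Ω), Mv K (orb (St ⊤ a) b) := fun b hb =>
    h2 G Ω _ ⊤ K _ a b hS hP trivial ha trivial hb
  have ha0 : a0 ∈ ({a}ᶜ : Set Ω) := fun e => hk0 (by rw [Set.mem_singleton_iff.1 e]; exact ha k hk)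
  have d1 := h3 G Ω _ _ K _ hS.ih hKY hpro hinv (by omega) hmv ⟨a0, ha0⟩
  have hn : Nat.card Ω = 2 * (Fx Ω K).ncard := by omega
  have htr : ∀ b ∈ ({a}ᶜ : Set Ω), ∀ c ∈ ({a}ᶜ : Set Ω), ∃ x ∈ St (⊤ : Subgroup G) a, x • b = c := fun b hb c hc => by
    by_contra nc
    have s1 := Set.ncard_inter_add_ncard_sdiff_eq_ncard ({a}ᶜ : Set Ω) (orb (St (⊤ : Subgroup G) a) b)
    have s2 := Set.ncard_inter_add_ncard_sdiff_eq_ncard (({a}ᶜ : Set Ω) ∩ Fx Ω K) (orb (St (⊤ : Subgroup G) a) b)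
    have t1 := h3 G Ω _ _ K (({a}ᶜ : Set Ω) ∩ orb (St (⊤ : Subgroup G) a) b) hS.ih hKY hpro
      (fun y hy z hz => ⟨hinv y hy z hz.1, orb_inv hy hz.2⟩) (by omega) (fun z hz => hmv z hz.1)
      ⟨b, hb, 1, one_mem _, one_smul _ _⟩
    have t2 := h3 G Ω _ _ K (({a}ᶜ : Set Ω) \ orb (St (⊤ : Subgroup G) a) b) hS.ih hKY hpro
      (fun y hy z hz => ⟨hinv y hy z hz.1, fun e => hz.2 (by simpa using orb_inv (inv_mem hy) e)⟩) (by omega)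
      (fun z hz => hmv z hz.1) ⟨c, hc, nc⟩
    rw [Set.inter_right_comm] at t1
    rw [show (({a}ᶜ : Set Ω) \ orb (St (⊤ : Subgroup G) a) b) ∩ Fx Ω K =
      (({a}ᶜ : Set Ω) ∩ Fx Ω K) \ orb (St (⊤ : Subgroup G) a) b from Set.ext fun _ => and_right_comm] at t2
    omega
  obtain ⟨T2, c3⟩ := h4 G Ω _ _ K _ ⟨hS.ih, hKY, hpro, ⟨hinv, htr⟩, ⟨k, hk, a0, ha0, hk0⟩, by omega⟩ (by omega)
  have T : T3 G Ω := t3 (fun b c => (hS.tr.2 b trivial c trivial).imp fun _ h => h.2) T2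
  refine ⟨hn ▸ hS.ih, hS.pro, hS.mv, hn, rfl, T, ?_⟩
  by_contra c4
  have c5 := Set.ncard_add_ncard_compl (Fx Ω K)
  obtain ⟨g, g1, g2⟩ := swap (F := Fx Ω K) T (by omega) (by omega)
  refine g1 a ha ((h0 G Ω K g hS.pro (fun x hx z hz => ?_) _).1 (by rwa [inv_smul_smul]))
  have z1 : z ∉ Fx Ω K := by simpa using g1 _ hz
  obtain ⟨w, hw, e⟩ := g2 (x • z) fun h => z1 (by
    have := h _ (inv_mem hx)
    rw [inv_smul_smul] at this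
    rwa [this])
  rwa [← e, inv_smul_smul]

end CL.Pro9
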