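/-
Project Pro9 (S3399): a pair of elements of `K` and `g K g⁻¹`.
-/
import Cfsg.Agent.Pro9.Defs

set_option autoImplicit false

namespace CL.Pro9

namespace tpx
variable {G Ω : Type} [Group G] [MulAction G Ω]

theorem ncard_pre (g : G) (S : Set Ω) : {z : Ω | g • z ∈ S}.ncard = S.ncard := by
  have e : S = (fun z : Ω => g • z) '' {z : Ω | g • z ∈ S} := by
    ext w
    constructor
    · intro hw
      exact ⟨g⁻¹ • w, by simpa using hw, by simp⟩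
    · rintro ⟨z, hz, rfl⟩
      exact hz
  conv_rhs => rw [e]
  exact (Set.ncard_image_of_injective _ (MulAction.injective g)).symm

theorem aa_eq (K : Subgroup G) {x : G} (hx : x ∈ K) (g : G) :
    AA (Fx Ω K) x g = jj (Fx Ω K) (g⁻¹ * x * g) := by
  unfold AA jj
  rw [← ncard_pre (g⁻¹ * x) {z | z ∉ Fx Ω K ∧ (g⁻¹ * x * g)⁻¹ • z ∈ Fx Ω K}]
  congr 1
  ext z
  have e : (g⁻¹ * x * g)⁻¹ • (g⁻¹ * x) • z = g⁻¹ • z := by
    rw [← mul_smul]; congr 1; group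
  simp only [Set.mem_setOf_eq, e, mul_smul]
  constructor
  · rintro ⟨_, h2, h3⟩
    refine ⟨h3, ?_⟩
    rw [← mul_smul g⁻¹ x z, e]; exact h2
  · rintro ⟨h3, h2⟩
    rw [← mul_smul g⁻¹ x z, e] at h2
    refine ⟨fun hz => h3 ?_, h2, h3⟩
    rw [hz x hx]; exact h2

theorem aa_le [Finite Ω] (K : Subgroup G) (f : ℕ) (hc : Nat.card Ω = 2 * f) (hf : (Fx Ω K).ncard = f)
    {x y g : G} (hy : y ∈ K) (hs : f ≤ (supp Ω (g * y * g⁻¹)).ncard + 1)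
    (hxy : x * (g * y * g⁻¹) = g * y * g⁻¹ * x) : AA (Fx Ω K) x g ≤ 1 := by
  set y' := g * y * g⁻¹ with hy'
  have hB : {z : Ω | g⁻¹ • z ∈ Fx Ω K}.ncard = f := by rw [ncard_pre, hf]
  have hsub : {z : Ω | g⁻¹ • z ∈ Fx Ω K} ⊆ (supp Ω y')ᶜ := by
    intro z hz
    simp only [supp, Set.mem_compl_iff, Set.mem_setOf_eq, not_not]
    rw [hy', mul_smul, mul_smul, hz y hy, smul_inv_smul]
  have h1 : (supp Ω y').ncard + (supp Ω y')ᶜ.ncard = 2 * f := by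
    rw [Set.ncard_add_ncard_compl, hc]
  have h2 := Set.ncard_diff_add_ncard_of_subset hsub
  have h3 : AA (Fx Ω K) x g ≤ ((supp Ω y')ᶜ \ {z : Ω | g⁻¹ • z ∈ Fx Ω K}).ncard := by
    rw [← ncard_pre x ((supp Ω y')ᶜ \ {z : Ω | g⁻¹ • z ∈ Fx Ω K})]
    unfold AA
    refine Set.ncard_le_ncard ?_ (Set.toFinite _)
    rintro z ⟨_, h2, h3⟩
    refine ⟨?_, h3⟩
    have hz := hsub h2
    simp only [supp, Set.mem_compl_iff, Set.mem_setOf_eq, not_not] at hz ⊢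
    rw [← mul_smul, ← hxy, mul_smul, hz]
  omega

end tpx

theorem tp (h : SUP) : TP := by
  intro G Ω _ _ _ _ _ K f cx hs hj g x hx y hy hx1 hy1
  have hA : AA (Fx Ω K) x g ≠ 1 := by rw [tpx.aa_eq K hx]; exact hj _
  have hA' : AA (Fx Ω K) y g⁻¹ ≠ 1 := by rw [tpx.aa_eq K hy]; exact hj _
  by_cases hxy : x * (g * y * g⁻¹) = g * y * g⁻¹ * x
  · right
    have n1 : g * y * g⁻¹ ≠ 1 := by
      intro e; apply hy1
      have : y = g⁻¹ * (g * y * g⁻¹) * g := by group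
      rw [this, e]; group
    have n2 : g⁻¹ * x * g⁻¹⁻¹ ≠ 1 := by
      intro e; apply hx1
      have : x = g * (g⁻¹ * x * g⁻¹⁻¹) * g⁻¹ := by group
      rw [this, e]; group
    have c2 : y * (g⁻¹ * x * g⁻¹⁻¹) = g⁻¹ * x * g⁻¹⁻¹ * y := by
      have e1 : y * (g⁻¹ * x * g⁻¹⁻¹) = g⁻¹ * (g * y * g⁻¹ * x) * g := by group
      have e2 : g⁻¹ * x * g⁻¹⁻¹ * y = g⁻¹ * (x * (g * y * g⁻¹)) * g := by group
      rw [e1, e2, hxy]
    have l1 := tpx.aa_le K f cx.card cx.fix hy (hs _ n1) hxy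
    have l2 := tpx.aa_le K f cx.card cx.fix hx (hs _ n2) c2
    omega
  · left
    have hw : ((g * y * g⁻¹) * x)⁻¹ * (x * (g * y * g⁻¹)) ≠ 1 := by
      intro e; apply hxy
      exact (inv_mul_eq_one.1 e).symm
    have s1 : supp Ω x ⊆ (Fx Ω K)ᶜ := fun z hz hF => hz (hF x hx)
    have s2 : supp Ω (g * y * g⁻¹) ⊆ {z : Ω | g⁻¹ • z ∈ Fx Ω K}ᶜ := by
      intro z hz hF
      apply hz
      rw [mul_smul, mul_smul, hF y hy, smul_inv_smul]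
    have key := h G Ω x (g * y * g⁻¹) _ _ s1 s2
    have hf := hs _ hw
    have e2 : {z | z ∈ (Fx Ω K)ᶜ ∧ z ∉ {z : Ω | g⁻¹ • z ∈ Fx Ω K}ᶜ ∧ x • z ∈ {z : Ω | g⁻¹ • z ∈ Fx Ω K}ᶜ}.ncard =
        AA (Fx Ω K) x g := by
      unfold AA
      congr 1
      ext z
      simp only [Set.mem_setOf_eq, Set.mem_compl_iff, not_not]
    have e3 : {z | z ∈ {z : Ω | g⁻¹ • z ∈ Fx Ω K}ᶜ ∧ z ∉ (Fx Ω K)ᶜ ∧ (g * y * g⁻¹) • z ∈ (Fx Ω K)ᶜ}.ncard =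
        AA (Fx Ω K) y g⁻¹ := by
      unfold AA
      rw [← tpx.ncard_pre g⁻¹ {z | z ∉ Fx Ω K ∧ g⁻¹⁻¹ • z ∈ Fx Ω K ∧ g⁻¹⁻¹ • y • z ∉ Fx Ω K}]
      congr 1
      ext z
      simp only [Set.mem_setOf_eq, Set.mem_compl_iff, not_not, inv_inv, smul_inv_smul, mul_smul]
    have e1 : ((Fx Ω K)ᶜ ∩ {z : Ω | g⁻¹ • z ∈ Fx Ω K}ᶜ).ncard + jj (Fx Ω K) g = f := by
      have a1 : (Fx Ω K).ncard + (Fx Ω K)ᶜ.ncard = 2 * f := by rw [Set.ncard_add_ncard_compl, cx.card]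
      have a2 := Set.ncard_inter_add_ncard_diff_eq_ncard (Fx Ω K)ᶜ {z : Ω | g⁻¹ • z ∈ Fx Ω K}ᶜ
      have a3 : (Fx Ω K)ᶜ \ {z : Ω | g⁻¹ • z ∈ Fx Ω K}ᶜ = {z | z ∉ Fx Ω K ∧ g⁻¹ • z ∈ Fx Ω K} := by
        ext z
        simp only [Set.mem_diff, Set.mem_setOf_eq, Set.mem_compl_iff, not_not]
      rw [a3] at a2
      have a4 := cx.fix
      unfold jj
      omega
    rw [e2, e3] at key
    omega

end CL.Pro9
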