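/-
Project Pro9 (S3399): summing the pair inequality over `K`.
-/
import Cfsg.Agent.Pro9.Defs

set_option autoImplicit false

namespace CL.Pro9

namespace ttx

theorem low {G : Type} (T : Finset G) (B : G → ℕ) (j : ℕ) (h : ∀ y ∈ T, B y ≠ 0 → j ≤ B y + 1)
    (hE : 2 * (T.filter (fun y => B y = 0)).card ≤ T.card) : T.card * (j - 1) ≤ 2 * ∑ y ∈ T, B y := by
  classical
  have h1 := Finset.card_filter_add_card_filter_not (s := T) (fun y => B y = 0)
  have h2 : (T.filter (fun y => ¬ B y = 0)).card * (j - 1) ≤ ∑ y ∈ T.filter (fun y => ¬ B y = 0), B y := by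
    rw [← smul_eq_mul]
    refine Finset.card_nsmul_le_sum _ _ _ ?_
    intro y hy
    rw [Finset.mem_filter] at hy
    have := h y hy.1 hy.2
    omega
  have h3 : ∑ y ∈ T.filter (fun y => ¬ B y = 0), B y ≤ ∑ y ∈ T, B y :=
    Finset.sum_le_sum_of_subset (Finset.filter_subset _ _)
  have h4 : T.card ≤ 2 * (T.filter (fun y => ¬ B y = 0)).card := by omega
  calc T.card * (j - 1) ≤ 2 * (T.filter (fun y => ¬ B y = 0)).card * (j - 1) := Nat.mul_le_mul_right _ h4
    _ = 2 * ((T.filter (fun y => ¬ B y = 0)).card * (j - 1)) := by ring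
    _ ≤ _ := Nat.mul_le_mul_left _ (h2.trans h3)

theorem abs {G : Type} (T : Finset G) (o : G) (ho : o ∈ T) (A B : G → ℕ) (j : ℕ) (hA : A o = 0) (hB : B o = 0)
    (h : ∀ x ∈ T, ∀ y ∈ T, x ≠ o → y ≠ o → j ≤ A x + B y + 1 ∨ (A x = 0 ∧ B y = 0))
    (hE : 2 * (T.filter (fun y => A y = 0)).card ≤ T.card)
    (hE' : 2 * (T.filter (fun y => B y = 0)).card ≤ T.card) :
    (T.card - 1) * j ≤ ∑ x ∈ T, A x + ∑ y ∈ T, B y + (T.card - 1) := by
  classical
  by_cases hall : ∀ x ∈ T, x ≠ o → j ≤ A x + B x + 1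
  · have h1 : (T.erase o).card * j ≤ ∑ x ∈ T.erase o, (A x + B x + 1) := by
      rw [← smul_eq_mul]
      refine Finset.card_nsmul_le_sum _ _ _ ?_
      intro x hx
      rw [Finset.mem_erase] at hx
      exact hall x hx.2 hx.1
    rw [Finset.sum_add_distrib, Finset.sum_add_distrib, Finset.sum_const, smul_eq_mul, mul_one,
      Finset.card_erase_of_mem ho] at h1
    have h2 : ∑ x ∈ T.erase o, A x ≤ ∑ x ∈ T, A x := Finset.sum_le_sum_of_subset (Finset.erase_subset _ _)
    have h3 : ∑ x ∈ T.erase o, B x ≤ ∑ x ∈ T, B x := Finset.sum_le_sum_of_subset (Finset.erase_subset _ _)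
    omega
  · push Not at hall
    obtain ⟨x, hx, hxo, hlt⟩ := hall
    have h0 : A x = 0 ∧ B x = 0 := by
      rcases h x hx x hx hxo hxo with h1 | h1
      · omega
      · exact h1
    have h1 := low T B j (by
      intro y hy hy0
      have hyo : y ≠ o := fun e => hy0 (e ▸ hB)
      rcases h x hx y hy hxo hyo with h1 | h1
      · omega
      · exact absurd h1.2 hy0) hE'
    have h2 := low T A j (by
      intro y hy hy0
      have hyo : y ≠ o := fun e => hy0 (e ▸ hA)
      rcases h y hy x hx hyo hxo with h1 | h1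
      · omega
      · exact absurd h1.1 hy0) hE
    have h3 : (T.card - 1) * (j - 1) ≤ T.card * (j - 1) := Nat.mul_le_mul_right _ (Nat.sub_le _ _)
    have h4 : (T.card - 1) * j ≤ (T.card - 1) * (j - 1) + (T.card - 1) := by
      rw [← Nat.mul_succ]
      exact Nat.mul_le_mul_left _ (by omega)
    omega

variable {G Ω : Type} [Group G] [Fintype G] [Finite Ω] [MulAction G Ω]

omit [Fintype G] in
theorem aa_zero (K : Subgroup G) (g x : G) (hx : x ∈ K) :
    AA (Fx Ω K) x g = 0 ↔ ∀ z : Ω, g⁻¹ • z ∈ Fx Ω K → g⁻¹ • x • z ∈ Fx Ω K := by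
  unfold AA
  rw [Set.ncard_eq_zero (Set.toFinite _), Set.eq_empty_iff_forall_notMem]
  constructor
  · intro h z hz
    by_cases hF : z ∈ Fx Ω K
    · rw [hF x hx]; exact hz
    · by_contra hn
      exact h z ⟨hF, hz, hn⟩
  · intro h z hz
    exact hz.2.2 (h z hz.2.1)

omit [Finite Ω] in
theorem inv_maps (D : Set Ω) (x : G) (h : ∀ z ∈ D, x • z ∈ D) : ∀ z ∈ D, x⁻¹ • z ∈ D := by
  have hp : ∀ n : ℕ, ∀ z ∈ D, x ^ n • z ∈ D := by
    intro n
    induction n with
    | zero => intro z hz; simpa using hz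
    | succ n ih => intro z hz; rw [pow_succ', mul_smul]; exact h _ (ih z hz)
  have e : x⁻¹ = x ^ (Fintype.card G - 1) := by
    rw [inv_eq_iff_mul_eq_one, ← pow_succ', Nat.sub_add_cancel Fintype.card_pos, pow_card_eq_one]
  rw [e]
  exact hp _

open Classical in
theorem half (h : STB) (K : Subgroup G) (g : G) (pro : Pro ⊤ K)
    (hj : ¬ ∀ z : Ω, g⁻¹ • z ∈ Fx Ω K ↔ z ∈ Fx Ω K) :
    2 * ((Finset.univ.filter (fun x : G => x ∈ K)).filter (fun y => AA (Fx Ω K) y g = 0)).card ≤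
      (Finset.univ.filter (fun x : G => x ∈ K)).card := by
  have hk : ∃ k ∈ K, ¬ ∀ z : Ω, g⁻¹ • z ∈ Fx Ω K → g⁻¹ • k • z ∈ Fx Ω K := by
    by_contra hn
    push Not at hn
    exact hj (h G Ω K g pro hn)
  obtain ⟨k, hk, hkn⟩ := hk
  have h1 := Finset.card_filter_add_card_filter_not (s := Finset.univ.filter (fun x : G => x ∈ K))
    (fun y => AA (Fx Ω K) y g = 0)
  have h2 : ((Finset.univ.filter (fun x : G => x ∈ K)).filter (fun y => AA (Fx Ω K) y g = 0)).card ≤
      ((Finset.univ.filter (fun x : G => x ∈ K)).filter (fun y => ¬ AA (Fx Ω K) y g = 0)).card := by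
    refine Finset.card_le_card_of_injOn (fun x => x * k) ?_ ?_
    · intro x hx
      simp only [Finset.coe_filter, Finset.mem_filter, Finset.mem_univ, true_and, Set.mem_ofPred_eq] at hx ⊢
      refine ⟨K.mul_mem hx.1 hk, fun h0 => hkn ?_⟩
      rw [aa_zero K g _ (K.mul_mem hx.1 hk)] at h0
      have h3 := inv_maps {z : Ω | g⁻¹ • z ∈ Fx Ω K} x ((aa_zero K g x hx.1).1 hx.2)
      intro z hz
      have h4 := h3 _ (h0 z hz)
      simpa [mul_smul] using h4
    · intro x _ y _ e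
      exact mul_right_cancel e
  omega

end ttx

theorem tt (h : STB) : TT := by
  classical
  intro G Ω _ _ _ _ K f g cx hp
  by_cases hj : ∀ z : Ω, g⁻¹ • z ∈ Fx Ω K ↔ z ∈ Fx Ω K
  · have : jj (Fx Ω K) g = 0 := by
      unfold jj
      rw [Set.ncard_eq_zero (Set.toFinite _), Set.eq_empty_iff_forall_notMem]
      intro z hz
      exact hz.1 ((hj z).1 hz.2)
    rw [this]
    simp
  have hj' : ¬ ∀ z : Ω, g⁻¹⁻¹ • z ∈ Fx Ω K ↔ z ∈ Fx Ω K := by
    intro hh
    apply hj
    intro z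
    have := hh (g⁻¹ • z)
    rw [inv_inv, smul_inv_smul] at this
    exact this.symm
  have hc : Nat.card K = (Finset.univ.filter (fun x : G => x ∈ K)).card := by
    rw [Nat.card_eq_fintype_card, Fintype.card_subtype]
  have h1 := ttx.abs (Finset.univ.filter (fun x : G => x ∈ K)) 1 (by simp) (fun x => AA (Fx Ω K) x g)
    (fun y => AA (Fx Ω K) y g⁻¹) (jj (Fx Ω K) g)
    ((ttx.aa_zero K g 1 K.one_mem).2 (by intro z hz; simpa using hz))
    ((ttx.aa_zero K g⁻¹ 1 K.one_mem).2 (by intro z hz; simpa using hz))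
    (by
      intro x hx y hy
      exact hp x (by simpa using hx) y (by simpa using hy))
    (ttx.half h K g cx.pro hj) (ttx.half h K g⁻¹ cx.pro hj')
  rw [Finset.sum_filter, Finset.sum_filter] at h1
  rw [hc]
  convert h1

end CL.Pro9
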