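/-
Project Pro9 (S3399), job TWO (helper74).
-/
import Cfsg.Agent.Pro9.Defs

set_option autoImplicit false

namespace CL.Pro9

namespace twox

theorem nd3 {Ω : Type} {a b c : Ω} : [a, b, c].Nodup ↔ a ≠ b ∧ a ≠ c ∧ b ≠ c := by
  simp [and_assoc]
theorem nd4 {Ω : Type} {a b c d : Ω} : [a, b, c, d].Nodup ↔ a ≠ b ∧ a ≠ c ∧ a ≠ d ∧ b ≠ c ∧ b ≠ d ∧ c ≠ d := by
  simp [and_assoc]
theorem memΓ {Ω : Type} {a b c : Ω} : c ∈ ({a, b}ᶜ : Set Ω) ↔ c ≠ a ∧ c ≠ b := by simp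

theorem mv {G Ω : Type} [Group G] [MulAction G Ω] {g : G} {x y a b z : Ω} (h1 : g • x = a) (h2 : g • y = b)
    (k1 : z ≠ x) (k2 : z ≠ y) : g • z ∈ ({a, b}ᶜ : Set Ω) :=
  memΓ.2 ⟨h1 ▸ (MulAction.injective g).ne k1, h2 ▸ (MulAction.injective g).ne k2⟩

theorem ro_smul {G Ω : Type} [Group G] [MulAction G Ω] {a b c d x y z w : Ω} (g : G) (h : Ro G a b c d x y z w) :
    Ro G a b c d (g • x) (g • y) (g • z) (g • w) := by
  obtain ⟨k, rfl, rfl, rfl, rfl⟩ := h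
  exact ⟨g * k, mul_smul _ _ _, mul_smul _ _ _, mul_smul _ _ _, mul_smul _ _ _⟩

end twox

open twox in
theorem two (h : SYM) : TWO := by
  intro G Ω _ _ _ _ f a b r t3 nc hn hf hab co hc
  set Γ : Set Ω := {a, b}ᶜ with hΓ
  have cΓ : Γ.ncard + 2 = 2 * f := by
    rw [← hn, ← Set.ncard_add_ncard_compl ({a, b} : Set Ω), Set.ncard_pair hab, add_comm]
  have sub : ∀ c, cls Γ r c ⊆ Γ := fun _ _ h => h.1
  have two : ∀ c ∈ Γ, ∀ d ∈ Γ, ∀ e ∈ Γ, ¬ r c d → ¬ r c e → r d e := fun c m1 d m2 e m3 n1 n2 => by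
    have dj : Disjoint (cls Γ r c) (cls Γ r d) := Set.disjoint_left.2 fun x k1 k2 =>
      n1 (co.trans c m1 x k1.1 d m2 k1.2 (co.symm d m2 x k1.1 k2.2))
    have e1 := Set.ncard_union_eq dj
    have e2 := (hc c m1).1
    have e3 := (hc d m2).1
    have e4 : cls Γ r c ∪ cls Γ r d = Γ := Set.eq_of_subset_of_ncard_le (Set.union_subset (sub c) (sub d)) (by omega)
    rcases (e4.symm ▸ m3 : e ∈ cls Γ r c ∪ cls Γ r d) with k | k
    · exact absurd k.2 n2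
    · exact k.2
  obtain ⟨c, mc⟩ : Γ.Nonempty := Set.nonempty_of_ncard_ne_zero (by omega)
  obtain ⟨cc, Y, hY, t2⟩ := hc c mc
  obtain ⟨d, ⟨md, rcd⟩, hdc⟩ := Set.exists_ne_of_one_lt_ncard (s := cls Γ r c) (by omega) c
  have ccc : c ∈ cls Γ r c := ⟨mc, co.refl c mc⟩
  have inΓ : ∀ g ∈ G2 G a b, ∀ z ∈ Γ, g • z ∈ Γ := fun g hg z hz =>
    mv (mem_G2.1 hg).1 (mem_G2.1 hg).2 (memΓ.1 hz).1 (memΓ.1 hz).2
  have inv3 : ∀ g ∈ G3 G a b c, ∀ z ∈ Γ, r c z → r c (g • z) := fun g hg z hz k => by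
    have := co.inv g hg.1 c mc z hz k
    rwa [(mem_G3.1 hg).2.2] at this
  have oE : orb (G3 G a b c) d = cls Γ r c \ {c} := by
    apply Set.Subset.antisymm
    · rintro _ ⟨g, hg, rfl⟩
      exact ⟨⟨inΓ g hg.1 d md, inv3 g hg d md rcd⟩, fun e =>
        hdc (MulAction.injective g ((Set.mem_singleton_iff.1 e).trans (mem_G3.1 hg).2.2.symm))⟩
    · rintro e ⟨k1, k2⟩
      obtain ⟨g, hg, e1, e2⟩ := t2 c ccc d ⟨md, rcd⟩ c ccc e k1 hdc.symm (Ne.symm k2)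
      exact ⟨g, ⟨hY hg, e1⟩, e2⟩
  have cO : (orb (G3 G a b c) d).ncard + 2 = f := by
    have := Set.ncard_sdiff_singleton_add_one ccc
    rw [oE]; omega
  have cZ : (Γ \ cls Γ r c).ncard + 1 = f := by
    have := Set.ncard_sdiff_add_ncard_of_subset (sub c)
    omega
  have invZ : ∀ g ∈ G3 G a b c, ∀ z ∈ Γ \ cls Γ r c, g • z ∈ Γ \ cls Γ r c := fun g hg z hz =>
    ⟨inΓ g hg.1 z hz.1, fun k => hz.2 ⟨hz.1, by
      have := inv3 g⁻¹ (inv_mem hg) _ k.1 k.2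
      rwa [inv_smul_smul] at this⟩⟩
  have ac := (memΓ.1 mc).1
  have bc := (memΓ.1 mc).2
  have ad := (memΓ.1 md).1
  have bd := (memΓ.1 md).2
  have sy := h G Ω a b c d t3 (nd4.2 ⟨hab, ac.symm, ad.symm, bc.symm, bd.symm, hdc.symm⟩) fun e ne he => by
    obtain ⟨-, -, k1, -, k2, k3⟩ := nd4.1 ne
    have me : e ∈ Γ := memΓ.2 ⟨k1.symm, k2.symm⟩
    by_cases k : r c e
    · rw [oE]; exact ⟨⟨me, k⟩, k3.symm⟩
    exfalso
    have s : orb (G3 G a b c) e ⊆ Γ \ cls Γ r c := by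
      rintro _ ⟨g, hg, rfl⟩
      exact invZ g hg e ⟨me, fun k' => k k'.2⟩
    have c1 := Set.ncard_sdiff_add_ncard_of_subset s
    obtain ⟨p, hp⟩ := Set.ncard_eq_one.1 (show ((Γ \ cls Γ r c) \ orb (G3 G a b c) e).ncard = 1 by omega)
    have mp : p ∈ (Γ \ cls Γ r c) \ orb (G3 G a b c) e := hp ▸ rfl
    obtain ⟨g, g1, g2, g3, g4⟩ := nc a b c p (nd4.2 ⟨hab, ac.symm, (memΓ.1 mp.1.1).1.symm, bc.symm,
      (memΓ.1 mp.1.1).2.symm, fun e => mp.1.2 (e ▸ ccc)⟩)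
    have hg : g ∈ G3 G a b c := mem_G3.2 ⟨g1, g2, g3⟩
    have mq : g • p ∈ (Γ \ cls Γ r c) \ orb (G3 G a b c) e := ⟨invZ g hg p mp.1, fun ⟨x, hx, e⟩ =>
      mp.2 ⟨g⁻¹ * x, mul_mem (inv_mem hg) hx, by rw [mul_smul, e, inv_smul_smul]⟩⟩
    rw [hp] at mq
    exact g4 mq
  have key : ∀ p ∈ Γ, ∀ q ∈ Γ, p ≠ q → (Ro G a b c d a b p q ↔ r p q) := fun p mp q mq pq => by
    constructor
    · rintro ⟨g, g1, g2, rfl, rfl⟩
      exact co.inv g (mem_G2.2 ⟨g1, g2⟩) c mc d md rcd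
    · intro k
      obtain ⟨g, g1, g2, g3⟩ := t3 a b c a b p (nd3.2 ⟨hab, ac.symm, bc.symm⟩)
        (nd3.2 ⟨hab, (memΓ.1 mp).1.symm, (memΓ.1 mp).2.symm⟩)
      have hg : g⁻¹ ∈ G2 G a b := inv_mem (mem_G2.2 ⟨g1, g2⟩)
      have g4 : g⁻¹ • p = c := inv_smul_eq_iff.2 g3.symm
      obtain ⟨x, hx, e⟩ : g⁻¹ • q ∈ orb (G3 G a b c) d := by
        rw [oE]
        exact ⟨⟨inΓ _ hg q mq, g4 ▸ co.inv _ hg p mp q mq k⟩, fun e =>
          pq (MulAction.injective g⁻¹ (g4.trans (Set.mem_singleton_iff.1 e).symm))⟩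
      obtain ⟨x1, x2, x3⟩ := mem_G3.1 hx
      exact ⟨g * x, by rw [mul_smul, x1, g1], by rw [mul_smul, x2, g2], by rw [mul_smul, x3, g3],
        by rw [mul_smul, e, smul_inv_smul]⟩
  have tr : ∀ (g : G) x y, g • x = a → g • y = b → ∀ z w, z ≠ x → z ≠ y → w ≠ x → w ≠ y → z ≠ w →
      (Ro G a b c d x y z w ↔ r (g • z) (g • w)) := fun g x y g1 g2 z w k1 k2 k3 k4 k5 => by
    rw [← key _ (mv g1 g2 k1 k2) _ (mv g1 g2 k3 k4) ((MulAction.injective g).ne k5)]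
    refine ⟨fun k => ?_, fun k => ?_⟩
    · have := ro_smul g k
      rwa [g1, g2] at this
    · have := ro_smul g⁻¹ k
      rwa [inv_smul_smul, inv_smul_smul, inv_smul_eq_iff.2 g1.symm, inv_smul_eq_iff.2 g2.symm] at this
  have AB : ∀ x y z w v, x ≠ y → z ≠ x → z ≠ y → w ≠ x → w ≠ y → v ≠ x → v ≠ y → z ≠ w → z ≠ v → w ≠ v →
      (Ro G a b c d x y z w ↔ Ro G a b c d x y z v) → Ro G a b c d x y w v :=
    fun x y z w v k0 k1 k2 k3 k4 k5 k6 k7 k8 k9 e => by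
      obtain ⟨g, g1, g2, -⟩ := t3 x y z a b c (nd3.2 ⟨k0, k1.symm, k2.symm⟩) (nd3.2 ⟨hab, ac.symm, bc.symm⟩)
      rw [tr g x y g1 g2 z w k1 k2 k3 k4 k7, tr g x y g1 g2 z v k1 k2 k5 k6 k8] at e
      rw [tr g x y g1 g2 w v k3 k4 k5 k6 k9]
      have mz := mv g1 g2 k1 k2
      have mw := mv g1 g2 k3 k4
      have mu := mv g1 g2 k5 k6
      by_cases k : r (g • z) (g • w)
      · exact co.trans _ mw _ mz _ mu (co.symm _ mz _ mw k) (e.1 k)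
      · exact two _ mz _ mw _ mu k fun k' => k (e.2 k')
  obtain ⟨q, mq, nq⟩ : (Γ \ cls Γ r c).Nonempty := Set.nonempty_of_ncard_ne_zero (by omega)
  have rq : ¬ r c q := fun k => nq ⟨mq, k⟩
  have rq' : ¬ r d q := fun k => rq (co.trans c mc d md q mq rcd k)
  have cq : c ≠ q := fun e => rq (e ▸ co.refl c mc)
  have dq : d ≠ q := fun e => rq (e ▸ rcd)
  have aq := (memΓ.1 mq).1
  have bq := (memΓ.1 mq).2
  have s1 := fun {x y z w} k => (sy x y z w k).1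
  have s2 := fun {x y z w} k => (sy x y z w k).2.1
  have s3 := fun {x y z w} k => (sy x y z w k).2.2
  have n1 : ¬ Ro G a b c d a b c q := fun k => rq ((key c mc q mq cq).1 k)
  have n2 : ¬ Ro G a b c d a b d q := fun k => rq' ((key d md q mq dq).1 k)
  have x1 := AB b q a c d bq.symm hab aq.symm bc cq bd dq ac.symm ad.symm hdc.symm
    (iff_of_false (fun k => n1 (s3 (s1 (s2 k)))) fun k => n2 (s3 (s1 (s2 k))))
  have x2 := AB a q b c d aq.symm hab.symm bq.symm ac cq ad dq bc.symm bd.symm hdc.symm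
    (iff_of_false (fun k => n1 (s3 (s2 k))) fun k => n2 (s3 (s2 k)))
  have x3 := AB q c d b a cq.symm dq hdc bq.symm bc.symm aq.symm ac.symm bd ad hab.symm
    (iff_of_true (s3 (s2 (s1 x1))) (s3 (s2 (s1 x2))))
  exact n1 (s3 (s2 (s3 (s1 (s2 (s3 x3))))))

end CL.Pro9
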