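/-
Project Pro9 (S3399): the stabiliser of two points has no system of two blocks (second proof).
-/
import Cfsg.Agent.Pro9.Defs

set_option autoImplicit false

namespace CL.Pro9

namespace twobx

variable {G Ω : Type} [Group G] [MulAction G Ω]

theorem nd3 {a b c : Ω} : [a, b, c].Nodup ↔ a ≠ b ∧ a ≠ c ∧ b ≠ c := by simp [and_assoc]
theorem nd4 {a b c d : Ω} : [a, b, c, d].Nodup ↔ a ≠ b ∧ a ≠ c ∧ a ≠ d ∧ b ≠ c ∧ b ≠ d ∧ c ≠ d := by simp [and_assoc]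

theorem ro_smul {a b c d x y z w : Ω} (g : G) : Ro G a b c d (g • x) (g • y) (g • z) (g • w) ↔ Ro G a b c d x y z w := by
  constructor
  · rintro ⟨h, h1, h2, h3, h4⟩
    exact ⟨g⁻¹ * h, by simp [mul_smul, h1], by simp [mul_smul, h2], by simp [mul_smul, h3], by simp [mul_smul, h4]⟩
  · rintro ⟨h, h1, h2, h3, h4⟩
    exact ⟨g * h, by simp [mul_smul, h1], by simp [mul_smul, h2], by simp [mul_smul, h3], by simp [mul_smul, h4]⟩

theorem g2_mem {a b z : Ω} {g : G} (hg : g ∈ G2 G a b) (hz : z ∈ ({a, b}ᶜ : Set Ω)) : g • z ∈ ({a, b}ᶜ : Set Ω) := by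
  obtain ⟨h1, h2⟩ := mem_G2.1 hg
  simp only [Set.mem_compl_iff, Set.mem_insert_iff, Set.mem_singleton_iff, not_or] at hz ⊢
  refine ⟨fun h => hz.1 ?_, fun h => hz.2 ?_⟩
  · exact smul_left_cancel g (h.trans h1.symm)
  · exact smul_left_cancel g (h.trans h2.symm)

theorem mem_co {a b z : Ω} : z ∈ ({a, b}ᶜ : Set Ω) ↔ z ≠ a ∧ z ≠ b := by simp [not_or]

/-- the purely logical end -/
theorem logic (ρ : Ω → Ω → Ω → Ω → Prop)
    (s : ∀ x y z w, ρ x y z w → ρ y x z w ∧ ρ x z y w ∧ ρ x y w z)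
    (A : ∀ x y z w v, x ≠ y → z ≠ x → z ≠ y → w ≠ x → w ≠ y → v ≠ x → v ≠ y → z ≠ w → z ≠ v → w ≠ v →
      (ρ x y z w ↔ ρ x y z v) → ρ x y w v)
    {a b p q e : Ω} (ab : a ≠ b) (pa : p ≠ a) (pb : p ≠ b) (qa : q ≠ a) (qb : q ≠ b) (ea : e ≠ a) (eb : e ≠ b)
    (pq : p ≠ q) (pe : p ≠ e) (qe : q ≠ e) : ρ a b p q := by
  have s1 : ∀ x y z w, ρ x y z w ↔ ρ y x z w := fun x y z w => ⟨fun h => (s _ _ _ _ h).1, fun h => (s _ _ _ _ h).1⟩
  have s2 : ∀ x y z w, ρ x y z w ↔ ρ x z y w := fun x y z w => ⟨fun h => (s _ _ _ _ h).2.1, fun h => (s _ _ _ _ h).2.1⟩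
  have s3 : ∀ x y z w, ρ x y z w ↔ ρ x y w z := fun x y z w => ⟨fun h => (s _ _ _ _ h).2.2, fun h => (s _ _ _ _ h).2.2⟩
  -- xe = ρ a b p q, xq = ρ a b p e, xp = ρ a b q e, xb = ρ a p q e, xa = ρ b p q e
  have h1 := A a b e p q ab ea eb pa pb qa qb pe.symm qe.symm pq
  have h2 := A a p e b q pa.symm ea pe.symm ab.symm pb.symm qa pq.symm eb qe.symm qb.symm
  have h3 := A a q e b p qa.symm ea qe.symm ab.symm qb.symm pa pq eb pe.symm pb.symm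
  rw [s3 a b e p, s3 a b e q] at h1
  rw [s3 a p e b, s2 a p b e, s3 a p e q, s2 a p b q] at h2
  rw [s3 a q e b, s2 a q b e, s3 a q e p, s2 a q p e, s2 a q b p, s3 a b q p] at h3
  tauto

end twobx

open twobx in
theorem twoB (h : SYM) : TWO := by
  intro G Ω _ _ _ _ f a b r t3 nc hcard hf ab hr hc
  set Γ : Set Ω := {a, b}ᶜ with hΓ
  have cΓ : Γ.ncard + 2 = 2 * f := by
    have := Set.ncard_add_ncard_compl ({a, b} : Set Ω)
    rw [Set.ncard_pair ab, hcard, ← hΓ] at this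
    omega
  have sub : ∀ c, cls Γ r c ⊆ Γ := fun c z hz => hz.1
  have two : ∀ c ∈ Γ, ∀ d ∈ Γ, ∀ e ∈ Γ, ¬ r c d → ¬ r c e → r d e := by
    intro c hc' d hd e he n1 n2
    have dj : Disjoint (cls Γ r c) (cls Γ r d) := Set.disjoint_left.2 fun z h1 h2 =>
      n1 (hr.trans c hc' z h1.1 d hd h1.2 (hr.symm d hd z h2.1 h2.2))
    have u : cls Γ r c ∪ cls Γ r d = Γ := Set.eq_of_subset_of_ncard_le (Set.union_subset (sub c) (sub d)) (by
      rw [Set.ncard_union_eq dj]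
      have := (hc c hc').1
      have := (hc d hd).1
      omega)
    rcases (u.ge he : e ∈ cls Γ r c ∪ cls Γ r d) with h1 | h1
    · exact absurd h1.2 n2
    · exact h1.2
  obtain ⟨c, hcΓ⟩ : Γ.Nonempty := Set.nonempty_of_ncard_ne_zero (by omega)
  have cc : c ∈ cls Γ r c := ⟨hcΓ, hr.refl c hcΓ⟩
  have cd : (cls Γ r c \ {c}).ncard + 2 = f := by
    have := Set.ncard_sdiff_singleton_add_one cc
    have := (hc c hcΓ).1
    omega
  obtain ⟨d, hd, dc⟩ : (cls Γ r c \ {c}).Nonempty := Set.nonempty_of_ncard_ne_zero (by omega)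
  have dc : d ≠ c := dc
  have ob : orb (G3 G a b c) d = cls Γ r c \ {c} := by
    ext z
    constructor
    · rintro ⟨g, hg, rfl⟩
      refine ⟨⟨g2_mem hg.1 hd.1, ?_⟩, fun e => dc (smul_left_cancel g (e.trans (hg.2 : g • c = c).symm))⟩
      have := hr.inv g hg.1 c hcΓ d hd.1 hd.2
      rwa [show g • c = c from hg.2] at this
    · rintro ⟨hz, zc⟩
      obtain ⟨Y, hY, t2⟩ := (hc c hcΓ).2
      obtain ⟨y, hy, e1, e2⟩ := t2 c cc d hd c cc z hz dc.symm (Ne.symm zc)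
      exact ⟨y, ⟨hY hy, e1⟩, e2⟩
  have ca := mem_co.1 hcΓ
  have da := mem_co.1 hd.1
  have sym := h G Ω a b c d t3 (nd4.2 ⟨ab, ca.1.symm, da.1.symm, ca.2.symm, da.2.symm, dc.symm⟩) (by
    intro e ne he
    rw [ob] at he ⊢
    obtain ⟨-, -, ae, -, be, ce⟩ := nd4.1 ne
    have eΓ : e ∈ Γ := mem_co.2 ⟨ae.symm, be.symm⟩
    refine ⟨⟨eΓ, by_contra fun n => ?_⟩, ce.symm⟩
    have inv : ∀ g ∈ G3 G a b c, ∀ z ∈ cls Γ r e, g • z ∈ cls Γ r e := fun g hg z hz => by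
      refine ⟨g2_mem hg.1 hz.1, two c hcΓ e eΓ _ (g2_mem hg.1 hz.1) n fun k => n ?_⟩
      have := hr.inv g⁻¹ ((G2 G a b).inv_mem hg.1) c hcΓ _ (g2_mem hg.1 hz.1) k
      rw [inv_smul_smul, show g⁻¹ • c = c from inv_smul_eq_iff.2 (hg.2 : g • c = c).symm] at this
      exact hr.trans c hcΓ z hz.1 e eΓ this (hr.symm e eΓ z hz.1 hz.2)
    have os : orb (G3 G a b c) e ⊆ cls Γ r e := by
      rintro _ ⟨g, hg, rfl⟩
      exact inv g hg e ⟨eΓ, hr.refl e eΓ⟩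
    have one : (cls Γ r e \ orb (G3 G a b c) e).ncard = 1 := by
      have := Set.ncard_sdiff_add_ncard_of_subset os
      have := (hc e eΓ).1
      omega
    obtain ⟨v, hv⟩ := Set.ncard_eq_one.1 one
    have vm : v ∈ cls Γ r e \ orb (G3 G a b c) e := hv ▸ rfl
    have va := mem_co.1 vm.1.1
    have vc : c ≠ v := by
      rintro rfl
      exact n (hr.symm e eΓ c hcΓ vm.1.2)
    obtain ⟨g, g1, g2, g3, g4⟩ := nc a b c v (nd4.2 ⟨ab, ca.1.symm, va.1.symm, ca.2.symm, va.2.symm, vc⟩)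
    have hg : g ∈ G3 G a b c := mem_G3.2 ⟨g1, g2, g3⟩
    have : g • v ∈ cls Γ r e \ orb (G3 G a b c) e := ⟨inv g hg v vm.1, fun ⟨k, hk, e1⟩ =>
      vm.2 ⟨g⁻¹ * k, mul_mem (inv_mem hg) hk, by rw [mul_smul, e1, inv_smul_smul]⟩⟩
    rw [hv] at this
    exact g4 this)
  have key : ∀ p ∈ Γ, ∀ q ∈ Γ, p ≠ q → (Ro G a b c d a b p q ↔ r p q) := by
    intro p hp q hq pq
    constructor
    · rintro ⟨g, g1, g2, rfl, rfl⟩
      exact hr.inv g (mem_G2.2 ⟨g1, g2⟩) c hcΓ d hd.1 hd.2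
    · intro k
      have pa := mem_co.1 hp
      obtain ⟨g, g1, g2, g3⟩ := t3 a b p a b c (nd3.2 ⟨ab, pa.1.symm, pa.2.symm⟩) (nd3.2 ⟨ab, ca.1.symm, ca.2.symm⟩)
      have hg : g ∈ G2 G a b := mem_G2.2 ⟨g1, g2⟩
      have : g • q ∈ orb (G3 G a b c) d := by
        rw [ob]
        exact ⟨⟨g2_mem hg hq, g3 ▸ hr.inv g hg p hp q hq k⟩, fun e => pq (smul_left_cancel g (g3.trans (Eq.symm e)))⟩
      obtain ⟨k', hk, e⟩ := this
      obtain ⟨k1, k2, k3⟩ := mem_G3.1 hk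
      rw [← ro_smul g, g1, g2, g3]
      exact ⟨k', k1, k2, k3, e⟩
  have tr : ∀ x y z : Ω, x ≠ y → z ≠ x → z ≠ y → ∃ g : G, g • x = a ∧ g • y = b ∧
      ∀ w, w ≠ x → w ≠ y → g • w ∈ Γ := fun x y z xy zx zy => by
    obtain ⟨g, g1, g2, -⟩ := t3 x y z a b c (nd3.2 ⟨xy, zx.symm, zy.symm⟩) (nd3.2 ⟨ab, ca.1.symm, ca.2.symm⟩)
    exact ⟨g, g1, g2, fun w wx wy => mem_co.2 ⟨fun e => wx (smul_left_cancel g (e.trans g1.symm)),
      fun e => wy (smul_left_cancel g (e.trans g2.symm))⟩⟩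
  obtain ⟨q, hq, nq⟩ : ∃ q ∈ Γ, q ∉ cls Γ r c := by
    by_contra! n
    have := Set.ncard_le_ncard (show Γ ⊆ cls Γ r c from n)
    have := (hc c hcΓ).1
    omega
  have qa := mem_co.1 hq
  have cq : c ≠ q := fun e => nq (e ▸ cc)
  refine nq ⟨hq, (key c hcΓ q hq cq).1 (logic (Ro G a b c d) sym ?_ ab ca.1 ca.2 qa.1 qa.2 da.1 da.2 cq dc.symm
    fun e => nq (e ▸ hd))⟩
  intro x y z w v xy zx zy wx wy vx vy zw zv wv
  obtain ⟨g, g1, g2, g3⟩ := tr x y z xy zx zy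
  have ne : ∀ s t : Ω, s ≠ t → g • s ≠ g • t := fun s t n e => n (smul_left_cancel g e)
  rw [← ro_smul g (x := x) (z := z) (w := w), ← ro_smul g (x := x) (z := z) (w := v),
    ← ro_smul g (x := x) (z := w) (w := v), g1, g2, key _ (g3 z zx zy) _ (g3 w wx wy) (ne _ _ zw),
    key _ (g3 z zx zy) _ (g3 v vx vy) (ne _ _ zv), key _ (g3 w wx wy) _ (g3 v vx vy) (ne _ _ wv)]
  intro e
  by_cases k : r (g • z) (g • w)
  · exact hr.trans _ (g3 w wx wy) _ (g3 z zx zy) _ (g3 v vx vy) (hr.symm _ (g3 z zx zy) _ (g3 w wx wy) k) (e.1 k)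
  · exact two _ (g3 z zx zy) _ (g3 w wx wy) _ (g3 v vx vy) k fun k' => k (e.2 k')

end CL.Pro9
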